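import Cfsg.Agent.Lib.R3L.Theta

/-!
# Counting in subspaces; maximal arcs in dimension at least three are trivial
-/

set_option autoImplicit false

namespace Cfsg.Agent.R3L

open Module

variable {V F : Type*} [Field F] [AddCommGroup V] [Module F V]

theorem sup_eq_of_mem {U : Submodule F V} {y z : V} (hz : z ∈ U ⊔ F ∙ y) (hz' : z ∉ U) :
    U ⊔ F ∙ z = U ⊔ F ∙ y := by
  apply le_antisymm
  · exact sup_le le_sup_left ((Submodule.span_singleton_le_iff_mem _ _).2 hz)
  · obtain ⟨u, hu, w, hw, rfl⟩ := Submodule.mem_sup.1 hz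
    obtain ⟨c, rfl⟩ := Submodule.mem_span_singleton.1 hw
    have hc : c ≠ 0 := by
      rintro rfl
      exact hz' (by simpa using hu)
    refine sup_le le_sup_left ((Submodule.span_singleton_le_iff_mem _ _).2 ?_)
    have : y = c⁻¹ • ((u + c • y) - u) := by
      rw [add_sub_cancel_left, inv_smul_smul₀ hc]
    rw [this]
    refine Submodule.smul_mem _ _ (sub_mem ?_ (Submodule.mem_sup_left hu))
    rw [← this]
    exact Submodule.mem_sup_right (Submodule.mem_span_singleton_self _)

variable [Fintype V]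

open Classical in
/-- number of vectors of a subspace with a property -/
noncomputable def cnt (W : Submodule F V) (p : V → Prop) : ℕ :=
  (Finset.univ.filter fun y => y ∈ W ∧ p y).card

open Classical in
/-- the extensions of `U` by one dimension inside `W` -/
noncomputable def exts (U W : Submodule F V) : Finset (Submodule F V) :=
  (Finset.univ.filter fun y => y ∈ W ∧ y ∉ U).image fun y => U ⊔ F ∙ y

theorem mem_exts {U W P : Submodule F V} :
    P ∈ exts U W ↔ ∃ y ∈ W, y ∉ U ∧ U ⊔ F ∙ y = P := by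
  simp [exts, and_assoc]

theorem cnt_congr {W W' : Submodule F V} {p p' : V → Prop}
    (h : ∀ y, (y ∈ W ∧ p y) ↔ (y ∈ W' ∧ p' y)) : cnt W p = cnt W' p' := by
  unfold cnt
  congr 1
  ext y
  simp only [Finset.mem_filter, Finset.mem_univ, true_and, h]

theorem cnt_fiber {U W : Submodule F V} (hUW : U ≤ W) (p : V → Prop) :
    cnt W (fun y => y ∉ U ∧ p y) = ∑ P ∈ exts U W, cnt P (fun y => y ∉ U ∧ p y) := by
  classical
  unfold cnt
  rw [Finset.card_eq_sum_card_fiberwise (f := fun y => U ⊔ F ∙ y) (t := exts U W)]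
  · refine Finset.sum_congr rfl fun P hP => ?_
    obtain ⟨y, hy, hy', rfl⟩ := mem_exts.1 hP
    congr 1
    ext z
    simp only [Finset.mem_filter, Finset.mem_univ, true_and]
    constructor
    · rintro ⟨⟨-, h2⟩, h3⟩
      exact ⟨h3 ▸ Submodule.mem_sup_right (Submodule.mem_span_singleton_self _), h2⟩
    · rintro ⟨h1, h2⟩
      exact ⟨⟨sup_le hUW ((Submodule.span_singleton_le_iff_mem _ _).2 hy) h1, h2⟩,
        sup_eq_of_mem h1 h2.1⟩
  · intro y hy
    simp only [Finset.coe_filter, Finset.mem_univ, true_and, Set.mem_ofPred_eq] at hy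
    exact mem_exts.2 ⟨y, hy.1, hy.2.1, rfl⟩

theorem cnt_split (W : Submodule F V) (p r : V → Prop) :
    cnt W p = cnt W (fun y => r y ∧ p y) + cnt W (fun y => ¬r y ∧ p y) := by
  classical
  unfold cnt
  rw [← Finset.card_filter_add_card_filter_not (p := r), Finset.filter_filter,
    Finset.filter_filter]
  congr 2 <;> ext y <;> simp only [Finset.mem_filter, Finset.mem_univ, true_and] <;> tauto

theorem cnt_split' {U W : Submodule F V} (hUW : U ≤ W) (p : V → Prop) :
    cnt W p = cnt U p + cnt W (fun y => y ∉ U ∧ p y) := by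
  rw [cnt_split W p (· ∈ U)]
  congr 1
  exact cnt_congr fun y => ⟨fun h => h.2, fun h => ⟨hUW h.1, h⟩⟩

theorem cnt_eq_zero {W : Submodule F V} {p : V → Prop} : cnt W p = 0 ↔ ∀ y ∈ W, ¬p y := by
  simp [cnt]

theorem cnt_mono {W : Submodule F V} {p r : V → Prop} (h : ∀ y ∈ W, p y → r y) :
    cnt W p ≤ cnt W r := by
  classical
  refine Finset.card_le_card fun y hy => ?_
  simp only [Finset.mem_filter, Finset.mem_univ, true_and] at hy ⊢
  exact ⟨hy.1, h y hy.1 hy.2⟩

variable [Fintype F]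

theorem cnt_true (W : Submodule F V) : cnt W (fun _ => True) = Fintype.card F ^ finrank F W := by
  classical
  rw [← Nat.card_eq_fintype_card, ← Module.natCard_eq_pow_finrank, Nat.card_eq_fintype_card,
    Fintype.card_subtype]
  simp [cnt]

theorem finrank_of_mem_exts {U W P : Submodule F V} (h : P ∈ exts U W) :
    finrank F P = finrank F U + 1 := by
  obtain ⟨y, -, hy', rfl⟩ := mem_exts.1 h
  exact Submodule.finrank_sup_span_singleton hy'

theorem le_of_mem_exts {U W P : Submodule F V} (hUW : U ≤ W) (h : P ∈ exts U W) :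
    U ≤ P ∧ P ≤ W := by
  obtain ⟨y, hy, -, rfl⟩ := mem_exts.1 h
  exact ⟨le_sup_left, sup_le hUW ((Submodule.span_singleton_le_iff_mem _ _).2 hy)⟩

theorem card_exts {U W : Submodule F V} (hUW : U ≤ W) {d : ℕ}
    (hd : finrank F W = finrank F U + d) : (exts U W).card = GLn.qInt (Fintype.card F) d := by
  have h1 := cnt_split' hUW (fun _ => True)
  rw [cnt_fiber hUW, Finset.sum_congr rfl (g := fun _ => Fintype.card F ^ (finrank F U + 1) -
    Fintype.card F ^ finrank F U) fun P hP => by
      have := cnt_split' (le_of_mem_exts hUW hP).1 (fun _ => True)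
      rw [cnt_true, cnt_true, finrank_of_mem_exts hP] at this
      omega] at h1
  rw [cnt_true, cnt_true, Finset.sum_const, smul_eq_mul, hd] at h1
  have hq : 1 < Fintype.card F := Fintype.one_lt_card
  have h2 := qInt_mul ℤ (Fintype.card F) d
  zify [Nat.pow_le_pow_right hq.le (Nat.le_succ (finrank F U))] at h1
  have h3 : ((Fintype.card F : ℤ) - 1) * (Fintype.card F : ℤ) ^ finrank F U ≠ 0 :=
    mul_ne_zero (by omega) (by positivity)
  zify
  apply mul_left_cancel₀ h3
  linear_combination -h1 - (Fintype.card F : ℤ) ^ finrank F U * h2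

theorem cnt_point {O : V → Prop} (hs : ∀ (c : F) v, c ≠ 0 → O v → O (c • v)) (h0 : ¬O 0) {u : V}
    (hu : O u) : cnt (F ∙ u) O = Fintype.card F - 1 := by
  have hu0 : u ≠ 0 := by rintro rfl; exact h0 hu
  have h1 := cnt_split' (bot_le (a := F ∙ u)) (fun _ => True)
  rw [cnt_true, cnt_true, finrank_span_singleton hu0, finrank_bot] at h1
  have : cnt (F ∙ u) O = cnt (F ∙ u) (fun y => y ∉ (⊥ : Submodule F V) ∧ True) :=
    cnt_congr fun y => and_congr_right fun hy => by
      obtain ⟨c, rfl⟩ := Submodule.mem_span_singleton.1 hy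
      by_cases hc : c = 0
      · simp [hc, h0]
      · simp [hc, hu0, hs c u hc hu]
  rw [this]
  simp only [pow_one, pow_zero] at h1
  omega

omit [Fintype F] in
theorem cnt_point_zero {O : V → Prop} (hs : ∀ (c : F) v, c ≠ 0 → O v → O (c • v)) (h0 : ¬O 0)
    {u : V} (hu : ¬O u) : cnt (F ∙ u) O = 0 := by
  rw [cnt_eq_zero]
  intro y hy h
  obtain ⟨c, rfl⟩ := Submodule.mem_span_singleton.1 hy
  by_cases hc : c = 0
  · exact h0 (by simpa [hc] using h)
  · exact hu (by simpa [hc] using hs c⁻¹ _ (inv_ne_zero hc) h)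

theorem dvd_cnt {O : V → Prop} (hs : ∀ (c : F) v, c ≠ 0 → O v → O (c • v)) (h0 : ¬O 0)
    (W : Submodule F V) : Fintype.card F - 1 ∣ cnt W O := by
  have e : ∀ P : Submodule F V, cnt P (fun y => y ∉ (⊥ : Submodule F V) ∧ O y) = cnt P O :=
    fun P => cnt_congr fun y => and_congr_right fun _ =>
      ⟨fun h => h.2, fun h => ⟨fun h' => h0 ((Submodule.mem_bot F).1 h' ▸ h), h⟩⟩
  rw [← e, cnt_fiber bot_le]
  refine Finset.dvd_sum fun P hP => ?_
  obtain ⟨y, -, -, rfl⟩ := mem_exts.1 hP
  rw [e, bot_sup_eq]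
  by_cases hy : O y
  · rw [cnt_point hs h0 hy]
  · rw [cnt_point_zero hs h0 hy]; exact dvd_zero _

omit [Fintype V] [Fintype F] in
theorem exists_ext [FiniteDimensional F V] (U : Submodule F V) (h : finrank F U < finrank F V) :
    ∃ W : Submodule F V, U ≤ W ∧ finrank F W = finrank F U + 1 := by
  have : U ≠ ⊤ := by rintro rfl; simp at h
  obtain ⟨y, -, hy⟩ := SetLike.exists_of_lt this.lt_top
  exact ⟨_, le_sup_left, Submodule.finrank_sup_span_singleton hy⟩

/-- maximal arcs in projective spaces of dimension at least three -/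
theorem arc (hV : 4 ≤ finrank F V) {O : V → Prop} (hs : ∀ (c : F) v, c ≠ 0 → O v → O (c • v))
    (h0 : ¬O 0) {M : ℕ} (hM : ∀ L : Submodule F V, finrank F L = 2 → cnt L O = 0 ∨ cnt L O = M)
    {u y : V} (hu : O u) (hy : ¬O y) (hy0 : y ≠ 0) :
    (∀ v w, O v → O w → ∃ c : F, w = c • v) ∨ ∀ v w, ¬O v → ¬O w → ¬O (v + w) := by
  set q := Fintype.card F with hq
  have hq1 : 1 < q := Fintype.one_lt_card
  have hline : ∀ L : Submodule F V, finrank F L = 2 → ∀ v ∈ L, O v → cnt L O = M :=
    fun L hL v hv hO => (hM L hL).resolve_left fun h => cnt_eq_zero.1 h v hv hO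
  have hne : ∀ v, O v → v ≠ 0 := by rintro v hv rfl; exact h0 hv
  have hcount : ∀ (W : Submodule F V) (d : ℕ), finrank F W = 1 + d → ∀ v ∈ W, O v →
      cnt W O = (q - 1) + GLn.qInt q d * (M - (q - 1)) := by
    intro W d hd v hv hO
    have hle : F ∙ v ≤ W := (Submodule.span_singleton_le_iff_mem _ _).2 hv
    have hr := finrank_span_singleton (K := F) (hne v hO)
    rw [cnt_split' hle, cnt_point hs h0 hO, cnt_fiber hle,
      Finset.sum_congr rfl (g := fun _ => M - (q - 1)), Finset.sum_const,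
      card_exts hle (by rw [hr, hd]), smul_eq_mul]
    intro P hP
    have h1 := cnt_split' (le_of_mem_exts hle hP).1 O
    rw [cnt_point hs h0 hO, hline P (by rw [finrank_of_mem_exts hP, hr]) v
      ((le_of_mem_exts hle hP).1 (Submodule.mem_span_singleton_self v)) hO] at h1
    omega
  have huy : u ∉ F ∙ y := fun h => cnt_eq_zero.1 (cnt_point_zero hs h0 hy) u h hu
  have hry := finrank_span_singleton (K := F) hy0
  have hL0 : finrank F ((F ∙ y) ⊔ F ∙ u : Submodule F V) = 2 := by
    rw [Submodule.finrank_sup_span_singleton huy, hry]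
  have huL0 : u ∈ (F ∙ y) ⊔ F ∙ u := Submodule.mem_sup_right (Submodule.mem_span_singleton_self _)
  obtain ⟨m, hm⟩ := dvd_cnt hs h0 ((F ∙ y) ⊔ F ∙ u)
  rw [hline _ hL0 u huL0 hu, ← hq] at hm
  have hm1 : 1 ≤ m := by
    by_contra h
    have : m = 0 := by omega
    rw [this, mul_zero] at hm
    exact cnt_eq_zero.1 ((hline _ hL0 u huL0 hu).trans hm) u huL0 hu
  have hle : ∀ L : Submodule F V, finrank F L = 2 → ∀ v ∈ L, v ≠ 0 → ¬O v →
      cnt L O + q + cnt L (fun z => z ∉ F ∙ v ∧ ¬O z) = q ^ 2 := by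
    intro L hL v hv hv0 hO
    have hle : F ∙ v ≤ L := (Submodule.span_singleton_le_iff_mem _ _).2 hv
    have h1 := cnt_split L (fun _ => True) O
    have h2 := cnt_split' hle (fun z => ¬O z ∧ True)
    have h3 : cnt (F ∙ v) (fun z => ¬O z ∧ True) = cnt (F ∙ v) (fun _ => True) :=
      cnt_congr fun z => and_congr_right fun hz =>
        ⟨fun _ => trivial, fun _ => ⟨cnt_eq_zero.1 (cnt_point_zero hs h0 hO) z hz, trivial⟩⟩
    rw [h3, cnt_true, finrank_span_singleton hv0] at h2
    rw [cnt_true, hL, h2] at h1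
    simp only [and_true, pow_one, ← hq] at h1
    change _ = cnt L O + _ at h1
    omega
  have hmq : m ≤ q := by
    have := hle _ hL0 y (Submodule.mem_sup_left (Submodule.mem_span_singleton_self _)) hy0 hy
    rw [hline _ hL0 u huL0 hu, hm] at this
    by_contra h
    have h2 : (q - 1) * (q + 1) ≤ (q - 1) * m := Nat.mul_le_mul_left _ (by omega)
    obtain ⟨q', hq'⟩ := Nat.exists_eq_add_of_lt hq1
    rw [hq'] at this h2
    simp only [Nat.add_sub_cancel] at this h2
    nlinarith
  obtain ⟨m, rfl⟩ := Nat.exists_eq_add_of_le' hm1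
  have hMs : M - (q - 1) = (q - 1) * m := by rw [hm, mul_add, mul_one, Nat.add_sub_cancel]
  rw [hMs] at hcount
  obtain ⟨W₃, hW₃, hr₃⟩ := exists_ext ((F ∙ y) ⊔ F ∙ u) (by omega)
  obtain ⟨W₄, hW₄, hr₄⟩ := exists_ext W₃ (by omega)
  have hyW : F ∙ y ≤ W₃ := le_sup_left.trans hW₃
  obtain ⟨l, hl, hl0⟩ : ∃ l ∈ exts (F ∙ y) W₃, cnt l O = 0 := by
    by_contra hcon
    push Not at hcon
    have h1 := hcount W₃ 2 (by omega) u (hW₃ huL0) hu
    rw [cnt_split' hyW, cnt_point_zero hs h0 hy, cnt_fiber hyW,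
      Finset.sum_congr rfl (g := fun _ => M), Finset.sum_const,
      card_exts hyW (d := 2) (by omega), smul_eq_mul, hm, ← hq] at h1
    · have h2 : GLn.qInt q 2 = q + 1 := by simp [GLn.qInt, Finset.sum_range_succ, add_comm]
      rw [h2] at h1
      obtain ⟨q', hq'⟩ := Nat.exists_eq_add_of_lt hq1
      rw [hq'] at h1
      simp only [Nat.add_sub_cancel] at h1
      nlinarith
    · intro P hP
      have h1 := cnt_split' (le_of_mem_exts hyW hP).1 O
      rw [cnt_point_zero hs h0 hy, (hM P (by rw [finrank_of_mem_exts hP, hry])).resolve_left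
        (hcon P hP)] at h1
      omega
  have hrl : finrank F l = 2 := by rw [finrank_of_mem_exts hl, hry]
  have hlW : l ≤ W₄ := (le_of_mem_exts hyW hl).2.trans hW₄
  have hdvd : (q - 1) + GLn.qInt q 2 * ((q - 1) * m) ∣ (q - 1) + GLn.qInt q 3 * ((q - 1) * m) := by
    rw [← hcount W₄ 3 (by omega) u (hW₄ (hW₃ huL0)) hu, cnt_split' hlW, hl0, zero_add,
      cnt_fiber hlW]
    refine Finset.dvd_sum fun P hP => ?_
    have h1 := cnt_split' (le_of_mem_exts hlW hP).1 O
    rw [hl0, zero_add] at h1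
    rw [← h1]
    by_cases h : cnt P O = 0
    · rw [h]; exact dvd_zero _
    · rw [cnt_eq_zero] at h
      push Not at h
      obtain ⟨v, hv, hO⟩ := h
      rw [hcount P 2 (by rw [finrank_of_mem_exts hP, hrl]) v hv hO]
  have hdvd2 : 1 + (q + 1) * m ∣ q ^ 2 := by
    have h2 : GLn.qInt q 2 = q + 1 := by simp [GLn.qInt, Finset.sum_range_succ, add_comm]
    have h3 : GLn.qInt q 3 = q ^ 2 + q + 1 := by
      simp only [GLn.qInt, Finset.sum_range_succ, Finset.range_zero, Finset.sum_empty]; ring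
    rw [h2, h3, show (q - 1) + (q + 1) * ((q - 1) * m) = (q - 1) * (1 + (q + 1) * m) by ring,
      show (q - 1) + (q ^ 2 + q + 1) * ((q - 1) * m) = (q - 1) * ((1 + (q + 1) * m) + q ^ 2 * m) by
        ring] at hdvd
    have h4 := (Nat.dvd_add_right (dvd_refl _)).1 (Nat.dvd_of_mul_dvd_mul_left (by omega) hdvd)
    exact Nat.Coprime.dvd_of_dvd_mul_right (by simp) h4
  by_cases hm0 : m = 0
  · left
    intro v w hv hw
    by_contra hcon
    have hwv : w ∉ F ∙ v := fun h => by
      obtain ⟨c, hc⟩ := Submodule.mem_span_singleton.1 h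
      exact hcon ⟨c, hc.symm⟩
    have h1 := cnt_split' (le_sup_left (a := F ∙ v) (b := F ∙ w)) O
    rw [cnt_point hs h0 hv, hline _ (by
      rw [Submodule.finrank_sup_span_singleton hwv, finrank_span_singleton (hne v hv)]) v
      (Submodule.mem_sup_left (Submodule.mem_span_singleton_self _)) hv, hm, hm0, ← hq] at h1
    exact (cnt_eq_zero (W := (F ∙ v) ⊔ F ∙ w) (p := fun z => z ∉ F ∙ v ∧ O z)).1 (by omega) w
      (Submodule.mem_sup_right (Submodule.mem_span_singleton_self _)) ⟨hwv, hw⟩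
  · right
    have hmq' : m + 1 = q := by
      obtain ⟨p, hp⟩ := CharP.exists F
      obtain ⟨e, hpp, he⟩ := FiniteField.card F p
      rw [hq, he, ← pow_mul] at hdvd2
      obtain ⟨j, -, hj⟩ := (Nat.dvd_prime_pow hpp).1 hdvd2
      rw [← he, ← hq] at hj
      have h1 : q ∣ 1 + (q + 1) * m := by
        rw [hj, hq, he]
        refine pow_dvd_pow _ ?_
        by_contra hcon
        have h2 : p ^ j ≤ q := by
          rw [hq, he]; exact Nat.pow_le_pow_right hpp.pos (by omega)
        have : 1 ≤ m := by omega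
        nlinarith
      rw [show 1 + (q + 1) * m = q * m + (m + 1) by ring] at h1
      have := Nat.le_of_dvd (by omega) ((Nat.dvd_add_right (Dvd.intro _ rfl)).1 h1)
      omega
    intro v w hv hw hvw
    by_cases hv0 : v = 0
    · exact hw (by simpa [hv0] using hvw)
    by_cases hwv : w ∈ F ∙ v
    · exact cnt_eq_zero.1 (cnt_point_zero hs h0 hv) _
        (add_mem (Submodule.mem_span_singleton_self _) hwv) hvw
    have hr : finrank F ((F ∙ v) ⊔ F ∙ w : Submodule F V) = 2 := by
      rw [Submodule.finrank_sup_span_singleton hwv, finrank_span_singleton hv0]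
    have h1 := hle _ hr v (Submodule.mem_sup_left (Submodule.mem_span_singleton_self _)) hv0 hv
    rw [hline _ hr (v + w) (Submodule.add_mem_sup (Submodule.mem_span_singleton_self _)
      (Submodule.mem_span_singleton_self _)) hvw, hm, hmq'] at h1
    refine (cnt_eq_zero (W := (F ∙ v) ⊔ F ∙ w) (p := fun z => z ∉ F ∙ v ∧ ¬O z)).1 ?_ w
      (Submodule.mem_sup_right (Submodule.mem_span_singleton_self _)) ⟨hwv, hw⟩
    obtain ⟨q', hq'⟩ := Nat.exists_eq_add_of_lt hq1
    rw [hq'] at h1
    simp only [Nat.add_sub_cancel] at h1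
    nlinarith

end Cfsg.Agent.R3L
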