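import Cfsg.Agent.Lib.R3L.Num

/-!
# Numerical conditions for the strongly regular graph
-/

set_option autoImplicit false

namespace Cfsg.Agent.R3L

open GLn

theorem qInt_lt_two {q : ℕ} (hq : 2 ≤ q) (j : ℕ) : qInt q (j + 1) < 2 * q ^ j := by
  have := qInt_lt hq j
  rw [qInt_succ]; omega

theorem sum_tail_three {m : ℕ} (f : Fin (m + 3) → ℕ) (h : ∀ i : Fin (m + 3), i.val < m → f i = 0) :
    ∑ i, f i = f ⟨m, by omega⟩ + f ⟨m + 1, by omega⟩ + f ⟨m + 2, by omega⟩ := by
  rw [Fin.sum_univ_add, Finset.sum_eq_zero fun i _ => h _ (by simp), Fin.sum_univ_three, zero_add]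
  rfl

theorem rho_facts {q m : ℕ} (hq : 2 ≤ q) (hm : 2 ≤ m) {ν : Fin (m + 3) → ℕ} (hmono : Monotone ν)
    (hν : ∑ i, ν i = m + 3) (hne : ν ≠ nu3 m 0 0 (m + 3)) {ρ : ℕ}
    (hρ : ρ = ∑ i : Fin (m + 3), q ^ i.val * qInt q (ν i)) :
    qInt q (m + 3) ≤ ρ ∧ ∃ i ≤ m + 1, (∃ u, ρ = q ^ i * (1 + q * u)) ∧
      (m ≤ i → q ^ (m + 3) + 2 * q ^ (m + 2) ≤ ρ) := by
  have hlast : q ^ (m + 2) * qInt q (ν (Fin.last _)) ≤ ρ := by
    rw [hρ]
    exact Finset.single_le_sum (f := fun i : Fin (m + 3) => q ^ i.val * qInt q (ν i))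
      (fun _ _ => Nat.zero_le _) (Finset.mem_univ (Fin.last _))
  constructor
  · by_cases h : 2 ≤ ν (Fin.last _)
    · have h1 := qInt_mono q h
      have h2 := qInt_lt_two hq (m + 2)
      rw [qInt_two] at h1
      have : q ^ (m + 2) * 2 ≤ q ^ (m + 2) * qInt q (ν (Fin.last _)) :=
        Nat.mul_le_mul_left _ (by omega)
      change qInt q (m + 3) < _ at h2
      omega
    · have h1 : ∀ i ∈ Finset.univ, ν i ≤ 1 := fun i _ => by
        have := hmono (Fin.le_last i); omega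
      have h2 := (Finset.sum_eq_sum_iff_of_le h1).1 (by simpa using hν)
      rw [hρ, Finset.sum_congr rfl fun i hi => by rw [h2 i hi, qInt_one, mul_one],
        Fin.sum_univ_eq_sum_range (fun i => q ^ i)]
      rfl
  obtain ⟨i, hi, hmin⟩ := Finset.exists_min_image (Finset.univ.filter fun i => ν i ≠ 0) id (by
    by_contra h
    rw [Finset.not_nonempty_iff_eq_empty, Finset.filter_eq_empty_iff] at h
    rw [Finset.sum_eq_zero fun i hi => not_not.1 (h hi)] at hν
    omega)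
  simp only [Finset.mem_filter, Finset.mem_univ, true_and, id] at hi hmin
  have hz : ∀ j : Fin (m + 3), j.val < i.val → ν j = 0 := fun j hj => by
    by_contra h
    exact absurd (hmin j h) (not_le.2 hj)
  refine ⟨i.val, ?_, ?_, fun hmi => ?_⟩
  · by_contra h
    have := i.2
    apply hne
    have h1 := sum_tail_three ν fun j hj => hz j (by omega)
    rw [hz ⟨m, _⟩ (by simp only; omega), hz ⟨m + 1, _⟩ (by simp only; omega), hν] at h1
    ext j
    rw [nu3_apply]
    by_cases hj : j.val = m + 2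
    · have : j = ⟨m + 2, by omega⟩ := Fin.ext hj
      rw [if_neg (by omega), if_neg (by omega), if_pos hj, this]
      omega
    · have := j.2
      rw [hz j (by omega)]
      split_ifs <;> rfl
  · obtain ⟨a, ha⟩ := Nat.exists_eq_add_one_of_ne_zero hi
    have h1 : q ^ (i.val + 1) ∣ ∑ j ∈ Finset.univ.erase i, q ^ j.val * qInt q (ν j) := by
      refine Finset.dvd_sum fun j hj => ?_
      have hj' : j.val ≠ i.val := fun e => (Finset.mem_erase.1 hj).1 (Fin.ext e)
      by_cases h : j.val < i.val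
      · rw [hz j h, qInt_zero, mul_zero]; exact dvd_zero _
      · exact (pow_dvd_pow q (by omega)).mul_right _
    obtain ⟨t, ht⟩ := h1
    refine ⟨qInt q a + t, ?_⟩
    rw [hρ, ← Finset.add_sum_erase _ _ (Finset.mem_univ i), ht, ha, qInt_succ']
    ring
  · have h1 := sum_tail_three ν fun j hj => hz j (by omega)
    have h2 := sum_tail_three (fun j => q ^ j.val * qInt q (ν j)) fun j hj => by
      rw [hz j (by omega), qInt_zero, mul_zero]
    have h3 : ν ⟨m, by omega⟩ ≤ ν ⟨m + 1, by omega⟩ := hmono (by simp [Fin.le_def])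
    have h4 : ν ⟨m + 1, by omega⟩ ≤ ν ⟨m + 2, by omega⟩ := hmono (by simp [Fin.le_def])
    rw [← hρ] at h2
    simp only at h2
    by_cases h5 : 3 ≤ ν ⟨m + 2, by omega⟩
    · have h6 := Nat.mul_le_mul_left (q ^ (m + 2)) (qInt_mono q h5)
      rw [qInt_three] at h6
      have h7 : q ^ (m + 2) * (q + 2) ≤ q ^ (m + 2) * (q ^ 2 + q + 1) :=
        Nat.mul_le_mul_left _ (by nlinarith)
      rw [pow_succ q (m + 2)]
      rw [mul_add] at h7
      omega
    · have h6 := Nat.mul_le_mul_left (q ^ (m + 2)) (qInt_mono q (show 2 ≤ ν ⟨m + 2, by omega⟩ by omega))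
      have h7 := Nat.mul_le_mul_left (q ^ (m + 1)) (qInt_mono q (show 2 ≤ ν ⟨m + 1, by omega⟩ by omega))
      rw [qInt_two] at h6 h7
      rw [pow_succ q (m + 2)]
      rw [mul_add] at h6 h7
      rw [← pow_succ] at h7
      have e : q ^ (m + 1 + 1) = q ^ (m + 2) := rfl
      omega

theorem isCoprime_qInt (q j : ℕ) : IsCoprime (q : ℤ) (qInt q (j + 1)) :=
  ⟨-qInt q j, 1, by rw [qInt_succ']; push_cast; ring⟩

theorem eq_zero_or_of_dvd {Q x : ℤ} (h : Q ∣ x) (h0 : 0 ≤ x) (h1 : x < 2 * Q) : x = 0 ∨ x = Q := by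
  obtain ⟨c, rfl⟩ := h
  have hQ : 0 < Q := by omega
  have : 0 ≤ c := by
    by_contra hc
    have := mul_neg_of_pos_of_neg hQ (not_le.1 hc)
    omega
  have : c < 2 := by
    by_contra hc
    have := mul_le_mul_of_nonneg_left (not_lt.1 hc) hQ.le
    omega
  interval_cases c <;> simp

theorem srg_sign {f g v k r s : ℤ} (hf : 0 < f) (hg : 0 < g) (hv : v = 1 + f + g)
    (h1 : k + f * r + g * s = 0) (hk : 0 < k) (hvk : k + 2 ≤ v) (hs : s ≤ r) : s < 0 ∧ 0 ≤ r := by
  constructor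
  · by_contra h
    have := mul_nonneg hg.le (not_lt.1 h)
    have := mul_nonneg hf.le ((not_lt.1 h).trans hs)
    omega
  · by_contra h
    have := mul_le_mul_of_nonneg_left (show r ≤ -1 by omega) hf.le
    have := mul_le_mul_of_nonneg_left (show s ≤ -1 by omega) hg.le
    omega

theorem pos_of_srg {v k r s : ℤ} (hv : 0 < v) (hr : r < k) (hs : s < k)
    (h : v * (k + r * s) = (k - r) * (k - s)) : 0 < k + r * s := by
  have : 0 < v * (k + r * s) := by rw [h]; exact mul_pos (by omega) (by omega)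
  exact (pos_iff_pos_of_mul_pos this).1 hv

theorem num_N2 {q m : ℕ} (hq : 2 ≤ q) {v k r s : ℤ} {ρ i u : ℕ} (hv : 0 < v)
    (hk : k = qInt q (m + 3) * (q ^ (m + 2) - 1)) (hd : (q : ℤ) ^ (2 * m + 3) ∣ v)
    (hr : r = ρ - qInt q (m + 3)) (hrk : r < k) (hr0 : 0 ≤ r) (hs : s < 0)
    (hs' : -(qInt q (m + 3) : ℤ) ≤ s) (h : v * (k + r * s) = (k - r) * (k - s)) (hi : i ≤ m + 1)
    (hu : ρ = q ^ i * (1 + q * u)) (hρ : m ≤ i → q ^ (m + 3) + 2 * q ^ (m + 2) ≤ ρ) : False := by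
  have hμ := pos_of_srg hv hrk (by omega) h
  have hq0 : (q : ℤ) ≠ 0 := by exact_mod_cast (by omega : q ≠ 0)
  have hq' : (2 : ℤ) ≤ q := by exact_mod_cast hq
  obtain ⟨d, hd'⟩ := Nat.exists_eq_add_of_le hi
  have e1 : k - r = q ^ i * (q * (qInt q (m + 3) * q ^ d - u) - 1) := by
    rw [hk, hr, hu, show m + 2 = i + d + 1 by omega]
    push_cast
    ring
  have h1 : (q : ℤ) ^ i * q ^ (m + 2 + d) ∣ q ^ i * ((q * (qInt q (m + 3) * q ^ d - u) - 1) *
      (k - s)) := by
    rw [← pow_add, show i + (m + 2 + d) = 2 * m + 3 by omega, ← mul_assoc, ← e1, ← h]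
    exact hd.mul_right _
  have h2 : (q : ℤ) ^ (m + 2 + d) ∣ k - s :=
    IsCoprime.dvd_of_dvd_mul_left (IsCoprime.pow_left ⟨qInt q (m + 3) * q ^ d - u, -1, by ring⟩)
      ((mul_dvd_mul_iff_left (pow_ne_zero _ hq0)).1 h1)
  have hN : (qInt q (m + 3) : ℤ) < 2 * q ^ (m + 2) := by exact_mod_cast qInt_lt_two hq (m + 2)
  have hN' : (qInt q (m + 3) : ℤ) = qInt q (m + 2) + q ^ (m + 2) := by
    exact_mod_cast qInt_succ q (m + 2)
  have hN'' : (qInt q (m + 3) : ℤ) = q * qInt q (m + 2) + 1 := by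
    exact_mod_cast qInt_succ' q (m + 2)
  have hI : (0 : ℤ) < qInt q (m + 2) := by exact_mod_cast qInt_pos q _
  have hQ : (0 : ℤ) < q ^ (m + 2) := by positivity
  have hqQ : (q : ℤ) ^ (m + 3) = q ^ (m + 2) * q := pow_succ _ _
  have h3 : (q : ℤ) ^ (m + 2) ∣ s + qInt q (m + 3) := by
    have := dvd_sub (Dvd.intro_left (qInt q (m + 3) : ℤ) rfl)
      ((pow_dvd_pow (q : ℤ) (Nat.le_add_right (m + 2) d)).trans h2)
    refine this.trans (dvd_of_eq (Eq.symm ?_))
    rw [hk]; ring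
  have hnd : ∀ j, ¬(q : ℤ) ∣ qInt q (j + 1) := fun j hj => by
    have := Int.isUnit_iff.1 ((isCoprime_qInt q j).isUnit_of_dvd' dvd_rfl hj)
    omega
  have h4 : m ≤ i → (q : ℤ) ^ (m + 2) * q + 2 * q ^ (m + 2) ≤ ρ := fun hh => by
    rw [← hqQ]
    exact_mod_cast hρ hh
  rcases eq_zero_or_of_dvd h3 (by omega) (by omega) with h5 | h5
  · have e2 : k - s = q ^ (m + 2) * qInt q (m + 3) := by rw [hk]; linear_combination -h5
    have hd0 : d = 0 := by
      by_contra hd0
      rw [e2, pow_add, mul_dvd_mul_iff_left hQ.ne'] at h2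
      exact hnd _ ((dvd_pow_self _ hd0).trans h2)
    have h6 := h4 (by omega)
    have h7 : (qInt q (m + 3) : ℤ) * r < qInt q (m + 3) * (q ^ (m + 2) - 1) := by
      have : s = -qInt q (m + 3) := by omega
      rw [this, hk] at hμ
      linarith
    have h8 := lt_of_mul_lt_mul_left h7 (by omega)
    nlinarith
  · have e2 : k - s = q ^ (m + 2) * (q * qInt q (m + 2)) := by
      rw [hk]; linear_combination -h5 + (q : ℤ) ^ (m + 2) * hN''
    have hd0 : d ≤ 1 := by
      by_contra hd0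
      rw [e2, pow_add, mul_dvd_mul_iff_left hQ.ne', show d = d - 1 + 1 by omega, pow_succ',
        mul_dvd_mul_iff_left hq0] at h2
      exact hnd _ ((dvd_pow_self _ (by omega)).trans h2)
    have h6 := h4 (by omega)
    have h7 : (qInt q (m + 2) : ℤ) * r < qInt q (m + 2) * (q ^ (m + 3) - 1) := by
      have : s = -qInt q (m + 2) := by omega
      rw [this, hk, ← qInt_mul ℤ q (m + 2)] at hμ
      rw [← qInt_mul ℤ q (m + 3)]
      linarith
    have h8 := lt_of_mul_lt_mul_left h7 hI.le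
    omega

theorem le_of_dvd_sub {P x y : ℤ} (h : P ∣ x - y) (h0 : 0 ≤ x) (h1 : y < P) : y ≤ x := by
  by_contra hc
  have := Int.le_of_dvd (by omega) ((dvd_neg).2 h)
  omega

set_option maxHeartbeats 1000000 in
theorem num_N3 {p ε q m : ℕ} (hp : p.Prime) (hε : 1 ≤ ε) (hq : q = p ^ ε) {v k r s : ℤ}
    (hm : 2 ≤ m) (hv : 0 < v)
    (hk : k = qInt q (m + 3) * (q ^ (m + 2) - 1)) (hd : (q : ℤ) ^ (2 * m + 5) ∣ v)
    (hne : v ≠ q ^ (2 * m + 6)) (hrk : r < k) (hr0 : 0 ≤ r) (hs : s < 0)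
    (hs' : -(qInt q (m + 3) : ℤ) ≤ s) (h : v * (k + r * s) = (k - r) * (k - s)) : False := by
  have hμ := pos_of_srg hv hrk (by omega) h
  have hq2 : 2 ≤ q := by
    rw [hq]; exact hp.two_le.trans (Nat.le_self_pow (by omega) p)
  have hq0 : (q : ℤ) ≠ 0 := by exact_mod_cast (by omega : q ≠ 0)
  have hq' : (2 : ℤ) ≤ q := by exact_mod_cast hq2
  have hN : (qInt q (m + 3) : ℤ) < 2 * q ^ (m + 2) := by exact_mod_cast qInt_lt_two hq2 (m + 2)
  have hN' : (qInt q (m + 3) : ℤ) = qInt q (m + 2) + q ^ (m + 2) := by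
    exact_mod_cast qInt_succ q (m + 2)
  have hN'' : (qInt q (m + 3) : ℤ) = q * qInt q (m + 2) + 1 := by
    exact_mod_cast qInt_succ' q (m + 2)
  have hI : (0 : ℤ) < qInt q (m + 2) := by exact_mod_cast qInt_pos q _
  have hI' : (qInt q (m + 2) : ℤ) < q ^ (m + 2) := by exact_mod_cast qInt_lt hq2 _
  have hQ : (0 : ℤ) < q ^ (m + 2) := by positivity
  have hqQ : (q : ℤ) ^ (m + 3) = q ^ (m + 2) * q := pow_succ _ _
  have hQ2 : (q : ℤ) ^ (m + 2) * 2 ≤ q ^ (m + 2) * q := mul_le_mul_of_nonneg_left hq' hQ.le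
  have hd2 : (q : ℤ) ^ (2 * m + 5) ∣ (k - r) * (k - s) := h ▸ hd.mul_right _
  by_cases c1 : s + qInt q (m + 3) = 0
  · have e2 : k - s = q ^ (m + 2) * qInt q (m + 3) := by rw [hk]; linear_combination -c1
    rw [e2, show 2 * m + 5 = m + 2 + (m + 3) by omega, pow_add, mul_left_comm,
      mul_dvd_mul_iff_left hQ.ne'] at hd2
    have h1 := (isCoprime_qInt q (m + 2)).pow_left.dvd_of_dvd_mul_right hd2
    have h7 : (qInt q (m + 3) : ℤ) * r < qInt q (m + 3) * (q ^ (m + 2) - 1) := by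
      have : s = -qInt q (m + 3) := by omega
      rw [this, hk] at hμ
      linarith
    have h8 := lt_of_mul_lt_mul_left h7 (by omega)
    have h2 : (q : ℤ) ^ (m + 3) ∣ qInt q (m + 2) + r := by
      have := dvd_sub (Dvd.intro (qInt q (m + 2) : ℤ) rfl) h1
      refine this.trans (dvd_of_eq (Eq.symm ?_))
      rw [hk, hqQ]
      linear_combination (q : ℤ) ^ (m + 2) * hN'' - hN'
    have := Int.le_of_dvd (by omega) h2
    omega
  by_cases c2 : s + qInt q (m + 3) = q ^ (m + 2)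
  · have e2 : k - s = q ^ (m + 3) * qInt q (m + 2) := by
      rw [hk, hqQ]; linear_combination -c2 + (q : ℤ) ^ (m + 2) * hN''
    have es : s = -qInt q (m + 2) := by omega
    have hd3 := hd2
    rw [e2, show 2 * m + 5 = m + 3 + (m + 2) by omega, pow_add, mul_left_comm,
      mul_dvd_mul_iff_left (pow_ne_zero _ hq0)] at hd3
    obtain ⟨x, hx⟩ := (isCoprime_qInt q (m + 1)).pow_left.dvd_of_dvd_mul_right hd3
    obtain ⟨v, rfl⟩ := hd
    have e3 : k + r * s = qInt q (m + 2) * (q ^ (m + 3) - 1 - r) := by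
      rw [es, hk, ← qInt_mul ℤ q (m + 2), ← qInt_mul ℤ q (m + 3)]; ring
    have e4 : v * (q ^ (m + 3) - 1 - r) = x := by
      apply mul_left_cancel₀ (mul_ne_zero (pow_ne_zero (2 * m + 5) hq0) hI.ne')
      rw [e3, hx, e2] at h
      linear_combination h
    have hI1 : (qInt q (m + 2) : ℤ) = q * qInt q (m + 1) + 1 := by
      exact_mod_cast qInt_succ' q (m + 1)
    have e5 : (q : ℤ) ^ (m + 3) - 1 - r =
        q * ((q + 1 - (qInt q (m + 3) - x)) * q ^ (m + 1) + qInt q (m + 1)) := by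
      rw [hk] at hx
      linear_combination hx + hN' + hI1
    have h8 : 0 < (q : ℤ) ^ (m + 3) - 1 - r := by
      rw [e3] at hμ
      exact (pos_iff_pos_of_mul_pos hμ).1 hI
    have e6 : (qInt q (m + 3) - x) * (q : ℤ) ^ (m + 2) = r + qInt q (m + 3) := by
      rw [hk] at hx
      linear_combination hx
    have h9 : 1 < qInt q (m + 3) - x := by
      by_contra hc
      have := mul_le_mul_of_nonneg_right (not_lt.1 hc) hQ.le
      omega
    have h10 : qInt q (m + 3) - x < q + 2 := by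
      by_contra hc
      have := mul_le_mul_of_nonneg_right (not_lt.1 hc) hQ.le
      nlinarith
    have h11 : (q : ℤ) ∣ qInt q (m + 3) - x - 1 := by
      rw [← e4, e5]
      exact ⟨qInt q (m + 2) - v * ((q + 1 - (qInt q (m + 3) - x)) * q ^ (m + 1) + qInt q (m + 1)),
        by linear_combination hN''⟩
    have h12 : qInt q (m + 3) - x = q + 1 := by
      have := Int.le_of_dvd (by omega) h11
      omega
    rw [h12] at e5
    rw [e5] at e4
    have h13 : (0 : ℤ) < qInt q (m + 1) := by exact_mod_cast qInt_pos q _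
    have h14 : v = q := by
      apply mul_right_cancel₀ (mul_ne_zero hq0 h13.ne')
      linear_combination e4 - h12 + hN'' + q * hI1
    exact hne (by rw [h14]; ring)
  obtain ⟨ρ, hρ⟩ := Int.eq_ofNat_of_zero_le (show 0 ≤ s + qInt q (m + 3) by omega)
  obtain ⟨e, u, hu, rfl⟩ := Nat.exists_eq_pow_mul_and_not_dvd (show ρ ≠ 0 by omega) p hp.ne_one
  have hqp : ∀ j, (q : ℤ) ^ j = p ^ (ε * j) := fun j => by rw [hq]; push_cast; rw [pow_mul]
  have hp0 : (p : ℤ) ≠ 0 := by exact_mod_cast hp.ne_zero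
  have he : e < ε * (m + 2) := by
    by_contra hc
    have : (q : ℤ) ^ (m + 2) ∣ s + qInt q (m + 3) := by
      rw [hρ, hqp]
      push_cast
      exact (pow_dvd_pow _ (not_lt.1 hc)).mul_right _
    rcases eq_zero_or_of_dvd this (by omega) (by omega) with h | h
    exacts [c1 h, c2 h]
  obtain ⟨d, hd'⟩ := Nat.exists_eq_add_of_lt he
  have e1 : k - s = p ^ e * (p * (p ^ d * qInt q (m + 3)) - u) := by
    have := hqp (m + 2)
    rw [hd'] at this
    push_cast at hρ
    rw [hk]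
    linear_combination -hρ + qInt q (m + 3) * this
  have hcop : IsCoprime (p : ℤ) (p * (p ^ d * qInt q (m + 3)) - u) := by
    have : IsCoprime (p : ℤ) u := Nat.isCoprime_iff_coprime.2 ((Nat.Prime.coprime_iff_not_dvd hp).2 hu)
    rw [← IsCoprime.neg_right_iff, neg_sub, sub_eq_add_neg, ← mul_neg]
    exact this.add_mul_left_right _
  have key : ∀ a b : ℕ, (p : ℤ) ^ a ∣ k + r * s → b + e ≤ ε * (2 * m + 5) + a →
      (p : ℤ) ^ b ∣ k - r := by
    intro a b ha hb
    have h1 : (p : ℤ) ^ (e + b) ∣ (k - r) * (k - s) := by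
      rw [← h]
      refine (pow_dvd_pow _ (show e + b ≤ ε * (2 * m + 5) + a by omega)).trans ?_
      rw [pow_add, ← hqp]
      exact mul_dvd_mul hd ha
    rw [e1, pow_add, mul_left_comm, mul_dvd_mul_iff_left (pow_ne_zero _ hp0)] at h1
    exact hcop.pow_left.dvd_of_dvd_mul_right h1
  have key2 : ∀ a : ℕ, a ≤ e → a ≤ ε → (p : ℤ) ^ a ∣ k + r * s := by
    intro a h1 h2
    have a1 := key 0 a (by simp) (by nlinarith)
    have a2 : (p : ℤ) ^ a ∣ -s - 1 := by
      have b1 : (p : ℤ) ^ a ∣ q := by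
        have := hqp 1
        rw [pow_one, mul_one] at this
        rw [this]
        exact pow_dvd_pow _ h2
      have b2 : (p : ℤ) ^ a ∣ s + qInt q (m + 3) := by
        rw [hρ]; push_cast; exact (pow_dvd_pow _ h1).mul_right _
      have := dvd_sub (b1.mul_right (qInt q (m + 2))) b2
      refine this.trans (dvd_of_eq (Eq.symm ?_))
      linear_combination hN''
    have := dvd_sub (a1.mul_left (-s)) (a2.mul_right k)
    refine this.trans (dvd_of_eq (Eq.symm ?_))
    ring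
  have hW : k - r < q ^ (2 * m + 5) := by
    have : (qInt q (m + 3) : ℤ) < q ^ (m + 3) := by exact_mod_cast qInt_lt hq2 _
    have := mul_lt_mul_of_pos_right this hQ
    rw [← pow_add, show m + 3 + (m + 2) = 2 * m + 5 by omega] at this
    rw [hk]
    linarith
  by_cases c3 : e ≤ ε
  · have := Int.le_of_dvd (by omega) (key e (ε * (2 * m + 5)) (key2 e le_rfl c3) le_rfl)
    rw [← hqp] at this
    omega
  obtain ⟨j, hj1, hj2⟩ : ∃ j, ε * (j + 1) < e ∧ e ≤ ε * (j + 2) := by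
    have a1 := Nat.div_add_mod (e - 1) ε
    have a2 := Nat.mod_lt (e - 1) (show 0 < ε by omega)
    have a3 : 1 ≤ (e - 1) / ε := (Nat.le_div_iff_mul_le (by omega)).2 (by omega)
    obtain ⟨j, hj⟩ := Nat.exists_eq_add_of_le' a3
    rw [hj] at a1
    refine ⟨j, by omega, ?_⟩
    rw [show j + 2 = j + 1 + 1 by ring, mul_add ε (j + 1)]
    omega
  have hjm : j ≤ m := by
    by_contra hc
    have := Nat.mul_le_mul_left ε (show m + 2 ≤ j + 1 by omega)
    omega
  obtain ⟨t, rfl⟩ := Nat.exists_eq_add_of_le hjm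
  have a1 : (q : ℤ) ^ (j + t + 2 + (t + 2)) ∣ k - r := by
    rw [hqp]
    exact key ε _ (key2 ε (by omega) le_rfl) (by nlinarith)
  have a2 : (qInt q (j + t + 3) : ℤ) = qInt q (t + 2) + q ^ (t + 2) * qInt q (j + 1) := by
    rw [show j + t + 3 = t + 2 + (j + 1) by ring]
    exact_mod_cast qInt_add q (t + 2) (j + 1)
  have a3 : (q : ℤ) ^ (j + t + 2) * qInt q (t + 2) ≤ r + qInt q (j + t + 3) := by
    refine le_of_dvd_sub (P := q ^ (j + t + 2 + (t + 2))) ?_ (by omega) ?_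
    · have := dvd_sub (Dvd.intro (qInt q (j + 1) : ℤ) rfl) a1
      refine this.trans (dvd_of_eq (Eq.symm ?_))
      rw [hk]
      linear_combination (q : ℤ) ^ (j + t + 2) * a2
    · rw [pow_add _ (j + t + 2)]
      exact mul_lt_mul_of_pos_left (by exact_mod_cast qInt_lt hq2 _) hQ
  have a4 : (qInt q (j + t + 3) : ℤ) = qInt q (j + 2) + q ^ (j + 2) * qInt q (t + 1) := by
    rw [show j + t + 3 = j + 2 + (t + 1) by ring]
    exact_mod_cast qInt_add q (j + 2) (t + 1)
  have a5 : (p : ℤ) ^ e ∣ -s - qInt q (j + 2) := by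
    have b1 : (p : ℤ) ^ e ∣ q ^ (j + 2) := by rw [hqp]; exact pow_dvd_pow _ hj2
    have b2 : (p : ℤ) ^ e ∣ s + qInt q (j + t + 3) := by
      rw [hρ]; push_cast; exact Dvd.intro _ rfl
    have := dvd_sub (b1.mul_right (qInt q (t + 1))) b2
    refine this.trans (dvd_of_eq (Eq.symm ?_))
    linear_combination a4
  have a6 : (qInt q (j + 2) : ℤ) < p ^ e := by
    have b1 : (qInt q (j + 2) : ℤ) < 2 * q ^ (j + 1) := by exact_mod_cast qInt_lt_two hq2 (j + 1)
    have b2 : (p : ℤ) ^ (ε * (j + 1) + 1) ≤ p ^ e :=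
      pow_le_pow_right₀ (by exact_mod_cast hp.one_le) hj1
    rw [pow_succ, ← hqp] at b2
    have b3 : (2 : ℤ) ≤ p := by exact_mod_cast hp.two_le
    have b4 : (q : ℤ) ^ (j + 1) * 2 ≤ q ^ (j + 1) * p :=
      mul_le_mul_of_nonneg_left b3 (by positivity)
    omega
  have a7 := le_of_dvd_sub a5 (by omega) a6
  rcases t with _ | t
  · simp only [add_zero, zero_add, qInt_two] at *
    have b1 := Int.le_of_dvd (by omega) a5
    push_cast at a3
    have b2 : ((q : ℤ) ^ (j + 2) * q - qInt q (j + 2)) * (2 * qInt q (j + 2)) ≤ r * -s :=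
      mul_le_mul (by linarith) (by omega) (by omega) hr0
    have b3 : k = (q ^ (j + 2) * q - 1) * qInt q (j + 2) := by
      rw [hk, ← qInt_mul ℤ q (j + 2), ← hqQ, ← qInt_mul ℤ q (j + 3)]; ring
    have b4 : ((q : ℤ) ^ (j + 2) * q - 1) * qInt q (j + 2) ≤
        (2 * (q ^ (j + 2) * q - qInt q (j + 2))) * qInt q (j + 2) :=
      mul_le_mul_of_nonneg_right (by omega) hI.le
    linarith
  · have b1 : (qInt q (t + 1 + 2) : ℤ) * qInt q (j + 2) =
        qInt q (j + (t + 1) + 3) + q * qInt q (t + 2) * qInt q (j + 1) := by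
      rw [show j + (t + 1) + 3 = (t + 2) + (j + 1) + 1 by ring]
      exact_mod_cast qInt_mul_qInt q (t + 2) (j + 1)
    have b2 : (qInt q (j + 2) : ℤ) = q * qInt q (j + 1) + 1 := by
      exact_mod_cast qInt_succ' q (j + 1)
    have b3 : (q : ℤ) + 1 ≤ qInt q (t + 2) := by
      exact_mod_cast qInt_two q ▸ qInt_mono q (by omega : 2 ≤ t + 2)
    have b3' : (q : ℤ) + 1 ≤ qInt q (t + 1 + 2) := by
      exact_mod_cast qInt_two q ▸ qInt_mono q (by omega : 2 ≤ t + 1 + 2)
    have b4 : ((q : ℤ) ^ (j + (t + 1) + 2) * qInt q (t + 1 + 2) - qInt q (j + (t + 1) + 3)) *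
        qInt q (j + 2) ≤ r * -s :=
      mul_le_mul (by linarith) a7 (by positivity) hr0
    have b5 : (qInt q (j + (t + 1) + 3) : ℤ) * (q * qInt q (j + 1)) ≤
        (q ^ (j + (t + 1) + 2) * qInt q (t + 2)) * (q * qInt q (j + 1)) := by
      refine mul_le_mul_of_nonneg_right ?_ (by positivity)
      have := mul_le_mul_of_nonneg_left (show (2 : ℤ) ≤ qInt q (t + 2) by omega) hQ.le
      omega
    have b6 : ((q : ℤ) ^ (j + (t + 1) + 2) * qInt q (t + 1 + 2) - qInt q (j + (t + 1) + 3)) *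
        qInt q (j + 2) = k + (q ^ (j + (t + 1) + 2) * qInt q (t + 2)) * (q * qInt q (j + 1)) -
          qInt q (j + (t + 1) + 3) * (q * qInt q (j + 1)) := by
      rw [hk]
      linear_combination (q : ℤ) ^ (j + (t + 1) + 2) * b1 - qInt q (j + (t + 1) + 3) * b2
    linarith

end Cfsg.Agent.R3L
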