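import Cfsg.Agent.Lib.R3L.Red
import Cfsg.Agent.Lib.R3L.Num2

/-!
# Primitive rank three actions of `SL_n(q)`, `n ≥ 5`
-/

set_option autoImplicit false

namespace Cfsg.Agent.R3L

open Matrix SLn Module GLn
open scoped MatrixGroups

section abstract

variable {G X : Type*} [Group G] [MulAction G X]

theorem card_dvd_of_conj [Finite G] [Finite X] [MulAction.IsPretransitive G X] (x : X)
    (H : Subgroup G) (h : ∀ g : G, ∀ a ∈ H, g * a * g⁻¹ ∈ MulAction.stabilizer G x →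
      g * a * g⁻¹ = 1) : Nat.card H ∣ Nat.card X := by
  refine card_dvd_of_semiregular H fun a ha y hy => ?_
  obtain ⟨g, rfl⟩ := MulAction.exists_smul_eq G x y
  have := h g⁻¹ a ha (by
    rw [MulAction.mem_stabilizer_iff, inv_inv, mul_smul, mul_smul, hy, inv_smul_smul])
  exact conj_eq_one_iff.1 this

theorem inner_of_decomp [Fintype G] {π χ ψ θ : G → ℂ} (hχ : IsIrrCharacter G χ)
    (hψ : IsIrrCharacter G ψ) (hne : χ ≠ ψ) (he : π = 1 + χ + ψ) (hθ : IsIrrCharacter G θ)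
    (h1 : θ ≠ 1) [Decidable (θ = χ ∨ θ = ψ)] :
    classInner π θ = if θ = χ ∨ θ = ψ then 1 else 0 := by
  rw [he, Char.inner_add_left, Char.inner_add_left, Char.inner_irr_ne Char.isIrr_one hθ h1.symm]
  split_ifs with h
  · rcases h with rfl | rfl
    · rw [Char.inner_irr_self hχ, Char.inner_irr_ne hψ hχ hne.symm]; simp
    · rw [Char.inner_irr_self hψ, Char.inner_irr_ne hχ hψ hne]; simp
  · push Not at h
    rw [Char.inner_irr_ne hχ hθ h.1.symm, Char.inner_irr_ne hψ hθ h.2.symm]; simp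

theorem eq_of_two {π χ ψ θ θ' : G → ℂ} (he : π = 1 + χ + ψ) (h : θ = χ ∨ θ = ψ)
    (h' : θ' = χ ∨ θ' = ψ) (hne : θ ≠ θ') : π = 1 + θ + θ' := by
  rcases h with rfl | rfl <;> rcases h' with rfl | rfl
  · exact absurd rfl hne
  · exact he
  · rw [he, add_right_comm]
  · exact absurd rfl hne

theorem card_le_of_caseA [Fintype X] [DecidableEq X] {T : Finset G} {x : X}
    (h : ∀ y, y = x ∨ ∃ t ∈ T, y = t • x) : Fintype.card X ≤ 1 + T.card := by
  have : (Finset.univ : Finset X) ⊆ insert x (T.image (· • x)) := fun y _ => by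
    rcases h y with rfl | ⟨t, ht, rfl⟩
    · simp
    · exact Finset.mem_insert_of_mem (Finset.mem_image_of_mem _ ht)
  have h1 := (Finset.card_le_card this).trans (Finset.card_insert_le _ _)
  have h2 := Finset.card_image_le (s := T) (f := (· • x))
  rw [Finset.card_univ] at h1
  omega

theorem le_card_of_inj [Fintype X] [DecidableEq X] {T : Finset G} {x : X}
    (h0 : ∀ t ∈ T, t • x ≠ x) (hi : ∀ t ∈ T, ∀ t' ∈ T, t • x = t' • x → t = t') :
    1 + T.card ≤ Fintype.card X ∧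
      ∀ y, y ≠ x → (∀ t ∈ T, y ≠ t • x) → T.card + 2 ≤ Fintype.card X := by
  have h1 : (T.image (· • x)).card = T.card := Finset.card_image_of_injOn hi
  have h2 : x ∉ T.image (· • x) := by
    simp only [Finset.mem_image, not_exists, not_and]
    exact h0
  refine ⟨?_, fun y hy hy' => ?_⟩
  · have := Finset.card_le_univ (insert x (T.image (· • x)))
    rw [Finset.card_insert_of_notMem h2] at this
    omega
  · have := Finset.card_le_univ (insert y (insert x (T.image (· • x))))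
    rw [Finset.card_insert_of_notMem, Finset.card_insert_of_notMem h2] at this
    · omega
    · simp only [Finset.mem_insert, Finset.mem_image, not_or, not_exists, not_and]
      exact ⟨hy, fun t ht => (hy' t ht).symm⟩

end abstract

section linear

variable {ι F : Type*} [Fintype ι] [DecidableEq ι] [Field F]

theorem U3.conj' {y : SpecialLinearGroup ι F} {u w z φ : ι → F} (h : U3 y u w z φ)
    (g : SpecialLinearGroup ι F) :
    U3 (g * y * g⁻¹) (g.1 *ᵥ u) (g.1 *ᵥ w) (g.1 *ᵥ z) (φ ᵥ* (g⁻¹).1) := by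
  obtain ⟨ψ, χ, a1, a2, a3, a4, a5, a6, e⟩ := h
  refine ⟨ψ ᵥ* (g⁻¹).1, χ ᵥ* (g⁻¹).1, ?_, ?_, ?_, ?_, ?_, ?_, ?_⟩
  any_goals rwa [dot_conj]
  rw [coe_conj_sub g y (N := vecMulVec z φ + vecMulVec w ψ + vecMulVec u χ) (by rw [e]; abel)]
  simp only [mul_add, add_mul, conj_vecMulVec]
  abel

theorem NoRk2.conj {K : Subgroup (SpecialLinearGroup ι F)} (h : NoRk2 K) {a b : ι → F}
    (g : SpecialLinearGroup ι F) (y : SpecialLinearGroup ι F)
    (hy : y ∈ DL ⊤ (Submodule.span F {a, b})) (hm : g * y * g⁻¹ ∈ K) : g * y * g⁻¹ = 1 := by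
  refine h _ hm (g.1 *ᵥ a) (g.1 *ᵥ b) fun u => ?_
  obtain ⟨s, t, e⟩ := Submodule.mem_span_pair.1 (hy.2 ((g⁻¹).1 *ᵥ u))
  refine Submodule.mem_span_pair.2 ⟨s, t, ?_⟩
  have e4 := congrArg (g.1 *ᵥ ·) e
  simp only [mulVec_add, mulVec_smul, mulVec_sub, mulVec_mulVec, coe_mul_inv, one_mulVec] at e4
  rw [Matrix.SpecialLinearGroup.coe_mul, Matrix.SpecialLinearGroup.coe_mul, mul_assoc, e4]

theorem mem_DL_of_tv {t : SpecialLinearGroup ι F} {w φ : ι → F} (e : t.1 = 1 + vecMulVec w φ)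
    {L : Submodule F (ι → F)} (hw : w ∈ L) : t ∈ DL ⊤ L :=
  ⟨Subgroup.mem_top _, fun u => by
    rw [e, add_mulVec, one_mulVec, add_sub_cancel_left, vecMulVec_mulVec, op_smul_eq_smul]
    exact L.smul_mem _ hw⟩

end linear

variable {F : Type*} [Field F] [Fintype F] [DecidableEq F] {m : ℕ} {X : Type*} [Fintype X]
  [MulAction (SpecialLinearGroup (Fin (m + 3)) F) X]
  [MulAction.IsPretransitive (SpecialLinearGroup (Fin (m + 3)) F) X] {x : X}

local notation "SLm" => SpecialLinearGroup (Fin (m + 3)) F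
local notation "Kx" => MulAction.stabilizer (SpecialLinearGroup (Fin (m + 3)) F) x
local notation "qq" => Fintype.card F

omit [DecidableEq F] in
theorem dvd_one (h : NoTv Kx) : qq ^ (m + 2) ∣ Fintype.card X := by
  have := card_dvd_of_conj x (Ysub F (m + 3) 1) fun g a ha hm => by
    obtain ⟨φ, ψ, χ, -, -, -, -, -, -, e, h1, h2⟩ := u3_of_mem_Ysub (by omega) ha
    rw [h1 (by omega), h2 le_rfl] at e
    exact h.eq_one hm (coe_conj_of_eq g (w := Pi.single 0 1) (φ := χ) (by simp [e]))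
  rw [card_Ysub, Nat.card_eq_fintype_card] at this
  simpa [Fin.sum_univ_succ] using this

omit [DecidableEq F] in
theorem dvd_two (h : NoRk2 Kx) : qq ^ (2 * m + 3) ∣ Fintype.card X := by
  have := card_dvd_of_conj x (Ysub F (m + 3) 2) fun g a ha hm => by
    obtain ⟨φ, ψ, χ, -, -, -, -, -, -, e, h1, -⟩ := u3_of_mem_Ysub (by omega) ha
    rw [h1 le_rfl] at e
    refine h.conj (a := Pi.single 0 1) (b := Pi.single 1 1) g a ⟨Subgroup.mem_top _, fun u => ?_⟩ hm
    refine Submodule.mem_span_pair.2 ⟨χ ⬝ᵥ u, ψ ⬝ᵥ u, ?_⟩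
    simp [e, add_mulVec, vecMulVec_mulVec]
    abel
  rw [card_Ysub, Nat.card_eq_fintype_card] at this
  refine (pow_dvd_pow _ ?_).trans this
  simp [Fin.sum_univ_succ]
  omega

omit [DecidableEq F] in
theorem dvd_three (hm : 2 ≤ m) (h : NoRk2 Kx) (h' : Flag3Tr Kx) :
    qq ^ (2 * m + 5) ∣ Fintype.card X := by
  have := card_dvd_of_conj x (Ysub F (m + 3) 3) fun g a ha hm => by
    obtain ⟨φ, ψ, χ, a1, a2, a3, a4, a5, a6, e, -⟩ := u3_of_mem_Ysub le_rfl ha
    refine no_unip_three h h' hm ?_ (U3.conj' ⟨ψ, χ, a1, a2, a3, a4, a5, a6, e⟩ g)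
    rw [li_three]
    intro a b c h0
    rw [← mulVec_smul, ← mulVec_smul, ← mulVec_smul, ← mulVec_add, ← mulVec_add] at h0
    have h1 := mulVec_SL_injective g (h0.trans (mulVec_zero _).symm)
    have e2 : (2 : Fin (m + 3)).val = 2 := rfl
    have e1 : (1 : Fin (m + 3)).val = 1 := rfl
    have e0 : (0 : Fin (m + 3)).val = 0 := rfl
    have h02 : (0 : Fin (m + 3)) ≠ 2 := fun e => by have := congrArg Fin.val e; omega
    have h12 : (1 : Fin (m + 3)) ≠ 2 := fun e => by have := congrArg Fin.val e; omega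
    exact ⟨by simpa [h02] using congrFun h1 0, by simpa [h12] using congrFun h1 1,
      by simpa [h02.symm, h12.symm] using congrFun h1 2⟩
  rw [card_Ysub, Nat.card_eq_fintype_card] at this
  refine (pow_dvd_pow _ ?_).trans this
  simp [Fin.sum_univ_succ]
  omega

omit [DecidableEq F] in
theorem card_ne_pow (h : NoRk2 Kx) (j : ℕ) : Fintype.card X ≠ qq ^ j := by
  intro e
  obtain ⟨p, hp⟩ := CharP.exists F
  obtain ⟨ε, hpp, he⟩ := FiniteField.card F p
  have : Fact p.Prime := ⟨hpp⟩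
  have h1 := card_dvd_of_conj x (DL ⊤ (Submodule.span F {Pi.single 0 1, Pi.single 1 1})) h.conj
  let z : SLm := tv (Pi.single 0 1) (Pi.single 1 1) (by simp) *
    tv (Pi.single 1 1) (Pi.single 0 1) (by simp)
  have hz : z ∈ DL ⊤ (Submodule.span F {Pi.single 0 1, Pi.single 1 1}) :=
    mul_mem (mem_DL_of_tv rfl (Submodule.subset_span (by simp)))
      (mem_DL_of_tv rfl (Submodule.subset_span (by simp)))
  have h2 := (Subgroup.orderOf_dvd_natCard _ hz).trans h1
  rw [Nat.card_eq_fintype_card, e, he, ← pow_mul, orderOf_dvd_iff_pow_eq_one] at h2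
  have h3 := (trace_eq_zero_of_pow p h2).2
  simp only [z, Matrix.SpecialLinearGroup.coe_mul, coe_tv, one_add_mul_one_add, trace_sub,
    trace_add, trace_smul, trace_vecMulVec] at h3
  simp at h3

theorem ne_top_of_rank (h3 : Nat.card (MulAction.orbitRel.Quotient Kx X) = 3) : Kx ≠ ⊤ := by
  intro e
  refine not_rank_two x h3 fun y z hy _ => ?_
  obtain ⟨g, rfl⟩ := MulAction.exists_smul_eq SLm x y
  exact absurd (e ▸ Subgroup.mem_top g : g ∈ Kx) hy

theorem numerics (h3 : Nat.card (MulAction.orbitRel.Quotient Kx X) = 3) (h0 : NoTv Kx)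
    {χ ψ : SLm → ℂ} (hχ : IsIrrCharacter _ χ) (hψ : IsIrrCharacter _ ψ) (hne : χ ≠ ψ)
    (hχ1 : χ ≠ 1) (hψ1 : ψ ≠ 1) (he : pch SLm X = 1 + χ + ψ) :
    ∃ f g w w' k v : ℤ, χ 1 = f ∧ ψ 1 = g ∧ om (TS (Fin (m + 3)) F) χ = w ∧
      om (TS (Fin (m + 3)) F) ψ = w' ∧ k = qInt qq (m + 3) * (qq ^ (m + 2) - 1) ∧
      v = Fintype.card X ∧ 0 < f ∧ 0 < g ∧ v = 1 + f + g ∧ k + f * w + g * w' = 0 ∧
      -(qInt qq (m + 3) : ℤ) ≤ w ∧ -(qInt qq (m + 3) : ℤ) ≤ w' ∧ w < k ∧ w' < k ∧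
      ((v ≤ 1 + k ∨ ∃ a : ℤ, 0 < a ∧ a ∣ w' ∧ k ^ 2 + f * w ^ 2 + g * w' ^ 2 = v * a * k) ∧
        (NoRk2 Kx → v = 1 + k ∨ (k + 2 ≤ v ∧ k ^ 2 + f * w ^ 2 + g * w' ^ 2 = v * 1 * k))) := by
  classical
  have hT := genClass_TS (ι := Fin (m + 3)) (F := F) (by simp)
  have h0' : ∀ t ∈ TS (Fin (m + 3)) F, t • x ≠ x := fun t ht h => by
    obtain ⟨w, φ, hw, hφ, e⟩ := mem_TS.1 ht
    rcases h0 w φ ⟨t, h, e⟩ with h | h
    exacts [hw h, hφ h]
  obtain ⟨f, hf, hf'⟩ := Char.exists_pos_degree hχ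
  obtain ⟨g, hg, hg'⟩ := Char.exists_pos_degree hψ
  obtain ⟨w, hw, hw'⟩ := exists_int_om (by simp) hχ
  obtain ⟨w', hw2, hw2'⟩ := exists_int_om (by simp) hψ
  have hk := card_TS (ι := Fin (m + 3)) (F := F)
  simp only [Fintype.card_fin, Nat.add_succ_sub_one] at hk hw' hw2'
  have hv := congrFun he 1
  rw [pch_one, Pi.add_apply, Pi.add_apply, hf', hg', Pi.one_apply] at hv
  have h1 := hT.moment_one h0' hχ hψ he
  rw [hf', hg', hw, hw2] at h1
  have h2 : ∀ a : ℕ, (∀ t₀ ∈ TS (Fin (m + 3)) F,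
      ((TS (Fin (m + 3)) F).filter fun t => t • x = t₀ • x).card = a) →
      ((TS (Fin (m + 3)) F).card : ℤ) ^ 2 + f * w ^ 2 + g * w' ^ 2 =
        Fintype.card X * a * (TS (Fin (m + 3)) F).card := fun a ha => by
    have := hT.moment_two ha hχ hψ he
    rw [hf', hg', hw, hw2] at this
    exact_mod_cast this
  obtain ⟨t₀, ht₀⟩ : ∃ t, t ∈ TS (Fin (m + 3)) F :=
    ⟨tv (Pi.single 0 1) (Pi.single 1 1) (by simp), mem_TS.2 ⟨_, _, by simp, by simp, rfl⟩⟩
  refine ⟨f, g, w, w', (TS (Fin (m + 3)) F).card, Fintype.card X, by simpa using hf',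
    by simpa using hg', hw, hw2, hk, rfl, by exact_mod_cast hf, by exact_mod_cast hg,
    by exact_mod_cast hv, by exact_mod_cast h1, hw', hw2', hT.om_lt hχ hχ1 hw,
    hT.om_lt hψ hψ1 hw2, ?_, fun hR => ?_⟩
  · rcases hT.dichotomy h3 h0' with hA | ⟨a, ha, -⟩
    · exact Or.inl (by exact_mod_cast card_le_of_caseA hA)
    · have ha0 : a ≠ 0 := by
        rw [← ha t₀ ht₀]
        exact (Finset.card_pos.2 ⟨t₀, by simp [ht₀]⟩).ne'
      refine Or.inr ⟨a, by omega, ?_, h2 a ha⟩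
      have := hT.isIntegral_div ha ha0 hψ (by
        rw [inner_of_decomp hχ hψ hne he hψ hψ1]; simp)
      rw [hw2] at this
      exact Char.dvd_of_isIntegral_div (by omega) (by simpa using this)
  · have hi : ∀ t ∈ TS (Fin (m + 3)) F, ∀ t' ∈ TS (Fin (m + 3)) F, t • x = t' • x → t = t' := by
      intro t ht t' ht' e
      obtain ⟨a, φ, -, -, e1⟩ := mem_TS.1 ht
      obtain ⟨b, φ', -, -, e2⟩ := mem_TS.1 ht'
      have := hR.conj (a := a) (b := b) 1 (t'⁻¹ * t) (mul_mem (inv_mem (mem_DL_of_tv e2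
        (Submodule.subset_span (by simp)))) (mem_DL_of_tv e1 (Submodule.subset_span (by simp))))
        (by rw [MulAction.mem_stabilizer_iff, one_mul, inv_one, mul_one, mul_smul, e, inv_smul_smul])
      rw [one_mul, inv_one, mul_one, inv_mul_eq_one] at this
      exact this.symm
    obtain ⟨b1, b2⟩ := le_card_of_inj h0' hi
    rcases hT.dichotomy h3 h0' with hA | ⟨a, ha, y, hy, hy'⟩
    · exact Or.inl (by exact_mod_cast le_antisymm (card_le_of_caseA hA) b1)
    · refine Or.inr ⟨by exact_mod_cast b2 y hy hy', ?_⟩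
      have ha1 : a = 1 := by
        rw [← ha t₀ ht₀, Finset.card_eq_one]
        refine ⟨t₀, Finset.eq_singleton_iff_unique_mem.2 ⟨by simp [ht₀], fun t ht => ?_⟩⟩
        exact hi t (Finset.mem_filter.1 ht).1 t₀ ht₀ (Finset.mem_filter.1 ht).2
      simpa [ha1] using h2 a ha

theorem last_case (hm : 2 ≤ m) (h3 : Nat.card (MulAction.orbitRel.Quotient Kx X) = 3)
    (h0 : NoTv Kx) (hR : NoRk2 Kx)
    {χ ψ : SLm → ℂ} (hχ : IsIrrCharacter _ χ) (hψ : IsIrrCharacter _ ψ) (hne : χ ≠ ψ)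
    (hχ1 : χ ≠ 1) (hψ1 : ψ ≠ 1) (he : pch SLm X = 1 + χ + ψ) : False := by
  classical
  wlog hle : (om (TS (Fin (m + 3)) F) ψ).re ≤ (om (TS (Fin (m + 3)) F) χ).re generalizing χ ψ
  · exact this hψ hχ hne.symm hψ1 hχ1 (by rw [he, add_right_comm]) (le_of_not_ge hle)
  obtain ⟨f, g, r, s, k, v, -, -, hr, hs, hk, hv, hf, hg, hv', h1, -, hs', hrk, hsk, -, h2⟩ :=
    numerics h3 h0 hχ hψ hne hχ1 hψ1 he
  have hq2 : 2 ≤ qq := Fintype.one_lt_card
  have hq' : (2 : ℤ) ≤ qq := by exact_mod_cast hq2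
  have hd : (qq : ℤ) ^ (2 * m + 3) ∣ v := by rw [hv]; exact_mod_cast dvd_two hR
  rcases h2 hR with h2 | ⟨h2, h4⟩
  · have a1 : (qq : ℤ) * qq ∣ v := by
      rw [← pow_two]; exact (pow_dvd_pow _ (by omega)).trans hd
    have a2 : v = qq * (qq * (qInt qq (m + 3) * qq ^ m) - qInt qq (m + 2)) := by
      have : (qInt qq (m + 3) : ℤ) = qq * qInt qq (m + 2) + 1 := by
        exact_mod_cast qInt_succ' qq (m + 2)
      rw [h2, hk]
      linear_combination -this
    rw [a2, mul_dvd_mul_iff_left (by omega)] at a1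
    have a3 : (qq : ℤ) ∣ qInt qq (m + 2) := (dvd_sub_right (Dvd.intro _ rfl)).1 a1
    have := Int.isUnit_iff.1 ((isCoprime_qInt qq (m + 1)).isUnit_of_dvd' dvd_rfl a3)
    omega
  rw [hr, hs] at hle
  have hsr : s ≤ r := by exact_mod_cast hle
  have hk0 : 0 < k := by
    have a1 : (0 : ℤ) < qInt qq (m + 3) := by exact_mod_cast qInt_pos _ _
    have a4 : (1 : ℤ) < qq ^ (m + 2) := by exact_mod_cast Nat.one_lt_pow (by omega) hq2
    rw [hk]
    exact mul_pos a1 (by omega)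
  obtain ⟨hs0, hr0⟩ := srg_sign hf hg hv' h1 hk0 h2 hsr
  have hid := num_ident hv' h1 h4
  rw [one_mul] at hid
  by_cases hfl : dc Kx (fun _ => 1) = 1
  · obtain ⟨p, hp⟩ := CharP.exists F
    obtain ⟨ε, hpp, hε⟩ := FiniteField.card F p
    refine num_N3 hpp ε.2 hε hm (by omega) hk ?_ ?_ hrk hr0 hs0 hs' hid
    · rw [hv]; exact_mod_cast dvd_three hm hR (flag3Tr_of_dc (by omega) hfl)
    · rw [hv]; exact_mod_cast card_ne_pow hR _
  have key : ∀ θ : SLm → ℂ, IsIrrCharacter _ θ → θ ≠ 1 →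
      classInner θ (res (piG F fun _ => 1)) ≠ 0 → ∀ w : ℤ, om (TS (Fin (m + 3)) F) θ = w →
      ∃ ρ : ℕ, w = ρ - qInt qq (m + 3) ∧ qInt qq (m + 3) ≤ ρ ∧ ∃ i ≤ m + 1,
        (∃ u, ρ = qq ^ i * (1 + qq * u)) ∧ (m ≤ i → qq ^ (m + 3) + 2 * qq ^ (m + 2) ≤ ρ) := by
    intro θ hθ hθ1 hi w hw
    obtain ⟨ν, hν1, hν2, rfl⟩ := exists_chiS_of_inner hθ (μ := fun _ => 1) (by simp) (by
      rwa [Char.inner_char_comm (isChar_res (isChar_piG _)) (Char.isChar_of_irr hθ)])
    refine ⟨_, ?_, rho_facts hq2 hm hν1 hν2 (by rintro rfl; exact hθ1 (chiS_triv m)) rfl⟩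
    have := om_chiS (F := F) hν1 hν2
    rw [hw] at this
    rw [eq_sub_iff_add_eq]
    exact_mod_cast this
  have hsum : classInner χ (res (piG F fun _ => 1)) + classInner ψ (res (piG F fun _ => 1)) ≠ 0 := by
    intro h
    have a1 := inner_dc Kx (fun _ => 1)
    have a2 : classInner 1 (res (piG F fun _ : Fin (m + 3) => 1)) = 1 := by
      rw [Char.inner_char_comm Char.isChar_one (isChar_res (isChar_piG _)), res_piG,
        Char.inner_fixedPointCharacter_left _ Char.isClass_one]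
      exact Char.inner_one_one
    rw [← pch_eq x, he, Char.inner_add_left, Char.inner_add_left, add_assoc, h, a2, add_zero] at a1
    exact hfl (by exact_mod_cast a1.symm)
  by_cases hc : classInner χ (res (piG F fun _ => 1)) = 0
  · obtain ⟨ρ, a1, a2, -⟩ := key ψ hψ hψ1 (by simpa [hc] using hsum) s hs
    omega
  · obtain ⟨ρ, a1, -, i, hi, ⟨u, hu⟩, a2⟩ := key χ hχ hχ1 hc r hr
    exact num_N2 hq2 (by omega) hk hd a1 hrk hr0 hs0 hs' hid hi hu a2

theorem main (hm : 2 ≤ m) (hK : IsCoatom Kx)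
    (h3 : Nat.card (MulAction.orbitRel.Quotient Kx X) = 3) :
    Fintype.card X * (qq + 1) = qInt qq (m + 3) * qInt qq (m + 2) := by
  classical
  obtain ⟨χ, ψ, hχ, hψ, hne, hχ1, hψ1, he⟩ := exists_decomp x h3
  have hq2 : 2 ≤ qq := Fintype.one_lt_card
  have hq' : (2 : ℤ) ≤ qq := by exact_mod_cast hq2
  have iA := inner_of_decomp hχ hψ hne he (isIrr_chA (F := F) (m := m)) chA_ne_one
  have iB := inner_of_decomp hχ hψ hne he (isIrr_chB (F := F) (m := m) (by omega))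
    (chB_ne_one (by omega))
  have iC := inner_of_decomp hχ hψ hne he (isIrr_chC (F := F) (m := m)) chC_ne_one
  have i1 := inner_pch_one (G := SLm) x
  have d1 := inner_dc Kx (mu3 m 1 (m + 2) 0)
  have d2 := inner_dc Kx (mu3 m (m + 2) 1 0)
  have d3 := inner_dc Kx (mu3 m 2 (m + 1) 0)
  have d4 := inner_dc Kx (mu3 m 1 1 (m + 1))
  have d5 := inner_dc Kx (mu3 m 1 (m + 1) 1)
  rw [← pch_eq x] at d1 d2 d3 d4 d5
  simp only [res_pt, res_hyp, res_line, res_ptline, res_pthyp, Char.inner_add_right, i1, iA, iB,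
    iC] at d1 d2 d3 d4 d5
  have hv1 := pch_one (G := SLm) (X := X)
  by_cases hAB : (chA F m = χ ∨ chA F m = ψ) ∧ (chB F m = χ ∨ chB F m = ψ)
  · have := line_one (F := F) (m := m)
    rw [res_line, ← eq_of_two he hAB.1 hAB.2 (chA_ne_chB (by omega)), hv1] at this
    exact_mod_cast this
  exfalso
  have hirr : ∀ U : Submodule F (Fin (m + 3) → F), Kx ≤ stabU U → U ≠ ⊥ → U ≠ ⊤ → False := by
    intro U h1 h2 h4
    have := three_le_dc h3 hK h1 h2 h4
    have h5 : (dc Kx (mu3 m 2 (m + 1) 0) : ℂ) = 1 ∨ (dc Kx (mu3 m 2 (m + 1) 0) : ℂ) = 2 := by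
      rw [← d3]
      split_ifs with h1 h2
      · exact absurd ⟨h1, h2⟩ hAB
      all_goals norm_num
    rcases h5 with h | h
    · have : dc Kx (mu3 m 2 (m + 1) 0) = 1 := by exact_mod_cast h
      omega
    · have : dc Kx (mu3 m 2 (m + 1) 0) = 2 := by exact_mod_cast h
      omega
  have hqB : ∀ f : ℤ, chB F m 1 = f → (qq : ℤ) ∣ f := fun f hf => by
    have := chB_one (F := F) (m := m)
    rw [hf] at this
    have h1 : f * (qq + 1) = qq ^ 2 * qInt qq (m + 3) * qInt qq m := by exact_mod_cast this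
    exact ⟨qq * qInt qq (m + 3) * qInt qq m - f, by linear_combination h1⟩
  have hqC : ∀ f : ℤ, chC F m 1 = f → (qq : ℤ) ∣ f := fun f hf => by
    have := chC_one (F := F) (m := m)
    rw [hf] at this
    have h1 : f * (qq + 1) = qq ^ 3 * qInt qq (m + 2) * qInt qq (m + 1) := by exact_mod_cast this
    exact ⟨qq ^ 2 * qInt qq (m + 2) * qInt qq (m + 1) - f, by linear_combination h1⟩
  by_cases hA : chA F m = χ ∨ chA F m = ψ
  · have hB : ¬(chB F m = χ ∨ chB F m = ψ) := fun h => hAB ⟨hA, h⟩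
    by_cases hC : chC F m = χ ∨ chC F m = ψ
    · obtain ⟨p, hp⟩ := CharP.exists F
      obtain ⟨ε, hpp, hε⟩ := FiniteField.card F p
      have : Fact p.Prime := ⟨hpp⟩
      have hP : IsPGroup p (Ysub F (m + 3) 1) :=
        IsPGroup.of_card (by rw [card_Ysub, hε, ← pow_mul])
      obtain ⟨y, hy⟩ := hP.nonempty_fixed_point_of_prime_not_dvd_card X (by
        intro hd
        obtain ⟨f, -, hf⟩ := Char.exists_pos_degree (isIrr_chC (F := F) (m := m))
        have a1 := congrFun (eq_of_two he hA hC chA_ne_chC) 1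
        rw [hv1, Pi.add_apply, Pi.add_apply, chA_one, hf, Pi.one_apply] at a1
        have a2 : (Fintype.card X : ℤ) = 1 + qq * qInt qq (m + 2) + f := by exact_mod_cast a1
        have a3 : (p : ℤ) ∣ qq := by
          rw [hε]; exact_mod_cast dvd_pow_self p ε.2.ne'
        have a4 : (p : ℤ) ∣ Fintype.card X := by
          rw [← Nat.card_eq_fintype_card]; exact_mod_cast hd
        rw [a2, add_assoc] at a4
        have a5 := (dvd_add_left (dvd_add (a3.mul_right _)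
          (a3.trans (hqC f (by simpa using hf))))).1 a4
        exact hpp.ne_one (by exact_mod_cast Int.eq_one_of_dvd_one (by omega) a5))
      obtain ⟨g, rfl⟩ := MulAction.exists_smul_eq SLm x y
      refine hirr (centreSub Kx) (fun k hk w hw => HasCentre.conj hw hk) ?_
        fun e => ne_top_of_rank h3 (eq_top_of_centreSub _ e)
      rw [Submodule.ne_bot_iff]
      refine ⟨(g⁻¹).1 *ᵥ Pi.single 0 1, fun φ hφ => ?_, SL_mulVec_ne_zero _ (by simp)⟩
      have b1 : (φ ᵥ* (g⁻¹).1) ⬝ᵥ Pi.single 0 1 = 0 := by rwa [← dotProduct_mulVec]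
      have b2 : tv _ _ b1 ∈ Ysub F (m + 3) 1 := fun i j hij => by
        rw [coe_tv, Matrix.add_apply, vecMulVec_apply, add_eq_left]
        by_cases hi : i = 0
        · have : j = 0 := by
            by_contra hj
            exact hij ⟨by simp [hi], hi ▸ Fin.pos_iff_ne_zero.2 hj⟩
          simpa [this, hi] using b1
        · simp [hi]
      rw [← hasTv_stabilizer_smul_iff g, mulVec_mulVec, coe_mul_inv, one_mulVec]
      exact HasTv.of_tv_mem (h0 := b1) (hy ⟨_, b2⟩)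
    · rw [if_pos hA, if_neg hB, if_neg hC] at d4
      rw [if_pos hA] at d1
      obtain ⟨U, a1, a2, a3⟩ := red_of_arc (K := Kx) (by omega) (le_of_eq (by
        have : (dc Kx (mu3 m 1 1 (m + 1)) : ℂ) = 3 := by rw [← d4]; norm_num
        exact_mod_cast this)) (fun h => by
          rw [dc_pt_of_ptTr h] at d1
          norm_num at d1)
      exact hirr U a1 a2 a3
  rw [if_neg hA] at d1 d2 d4 d5
  have hp : PtTr Kx := ptTr_of_dc (by rw [add_zero] at d1; exact_mod_cast d1.symm)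
  have hh : HypTr Kx := hypTr_of_dc (by rw [add_zero] at d2; exact_mod_cast d2.symm)
  have h0 : NoTv Kx := by
    intro w φ h
    by_contra hc
    push Not at hc
    refine ne_top_of_rank h3 (eq_top_of_hasTv (by simp; omega) hp hh ⟨w, φ, hc.1, hc.2, h⟩
      fun g => ?_)
    obtain ⟨t₁, t₂, a1, a2, e⟩ := (genClass_TS (ι := Fin (m + 3)) (F := F) (by simp)).diam_two x h3
      (g • x)
    refine ⟨t₁, t₂, (t₁ * t₂)⁻¹ * g, a1.imp_right mem_TS.1, a2.imp_right mem_TS.1, ?_, by group⟩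
    rw [MulAction.mem_stabilizer_iff, mul_smul, e, ← mul_smul t₁, inv_smul_smul]
  have hsw : ∀ θ : SLm → ℂ, (θ = χ ∨ θ = ψ) → ∃ θ', IsIrrCharacter _ θ' ∧ θ ≠ θ' ∧ θ' ≠ 1 ∧
      pch SLm X = 1 + θ + θ' := by
    rintro θ (rfl | rfl)
    · exact ⟨ψ, hψ, hne, hψ1, he⟩
    · exact ⟨χ, hχ, hne.symm, hχ1, by rw [he, add_right_comm]⟩
  by_cases hB : chB F m = χ ∨ chB F m = ψ
  · obtain ⟨θ, a1, a2, a3, a4⟩ := hsw _ hB
    obtain ⟨f, g, w, w', k, v, hf, -, hw, -, rfl, -, hf0, hg0, hv, h1, -, hw', -, -, h2, -⟩ :=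
      numerics h3 h0 (isIrr_chB (by omega)) a1 a2 (chB_ne_one (by omega)) a3 a4
    have b1 := chB_one (F := F) (m := m)
    rw [hf] at b1
    rw [om_chB (by omega)] at hw
    have b2 : w = (qq ^ (m + 2) - 1) * qInt qq (m + 1) := by exact_mod_cast hw.symm
    subst b2
    rcases h2 with h2 | ⟨a, ha, hd, h2⟩
    · exact num_B_A hq2 hm (by exact_mod_cast b1) hg0 hv h1 hw' h2
    · exact num_B_B hq2 hm (by exact_mod_cast b1) hf0 hg0 hv h1 hw' ha hd h2
  by_cases hC : chC F m = χ ∨ chC F m = ψ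
  · obtain ⟨θ, a1, a2, a3, a4⟩ := hsw _ hC
    obtain ⟨f, g, w, w', k, v, hf, -, hw, -, rfl, -, hf0, hg0, hv, h1, -, hw', -, -, h2, -⟩ :=
      numerics h3 h0 isIrr_chC a1 a2 chC_ne_one a3 a4
    have b1 := chC_one (F := F) (m := m)
    rw [hf] at b1
    rw [om_chC] at hw
    have b2 : w = (qq ^ (m + 3) - 1) * qInt qq m := by exact_mod_cast hw.symm
    subst b2
    rcases h2 with h2 | ⟨a, ha, hd, h2⟩
    · exact num_C_A hq2 hm (by exact_mod_cast b1) hf0 hg0 hv h1 hw' h2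
    · exact num_C_B hq2 hm (by exact_mod_cast b1) hf0 hg0 hv h1 hw' ha hd h2
  rw [if_neg hB, if_neg hC] at d4 d5
  have hl : PtLineTr Kx := ptLineTr_of_dc (by simp only [add_zero] at d4; exact_mod_cast d4.symm)
  have hph : PtHypTr Kx := ptHypTr_of_dc (by simp only [add_zero] at d5; exact_mod_cast d5.symm)
  exact last_case hm h3 h0 (noRk2_of (by simp; omega) h0
    (fun y hy v w φ ψ => no_unip_two (k := m + 2) (by omega) h0 hp hl hph hy) hl)
    hχ hψ hne hχ1 hψ1 he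

end Cfsg.Agent.R3L
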