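import Cfsg.Agent.Lib.R3L.Theta

/-!
# Transitive families of transvections
-/

set_option autoImplicit false

namespace Cfsg.Agent.R3L

open Matrix SLn

variable {ι F : Type*} [Fintype ι] [DecidableEq ι] [Field F]

/-- a family of transvections closed under the group operations, transitive on centres and axes -/
structure McL (good : (ι → F) → (ι → F) → Prop) : Prop where
  dot : ∀ {w φ}, good w φ → φ ⬝ᵥ w = 0
  zero_left : ∀ φ, good 0 φ
  zero_right : ∀ w, good w 0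
  add_left : ∀ {w w' φ}, good w φ → good w' φ → good (w + w') φ
  add_right : ∀ {w φ φ'}, good w φ → good w φ' → good w (φ + φ')
  neg : ∀ {w φ}, good w φ → good w (-φ)
  swap : ∀ {w φ} (c : F), good (c • w) φ ↔ good w (c • φ)
  comm : ∀ {w φ w' φ'}, good w φ → good w' φ' → φ' ⬝ᵥ w = 0 → good ((φ ⬝ᵥ w') • w) φ'
  tr_pt : ∀ v v' : ι → F, v ≠ 0 → v' ≠ 0 → ∃ A B : (ι → F) →ₗ[F] (ι → F),
    (∀ φ w, B φ ⬝ᵥ A w = φ ⬝ᵥ w) ∧ (∀ w φ, good w φ → good (A w) (B φ)) ∧ ∃ c : F, A v = c • v'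
  tr_hyp : ∀ v v' : ι → F, v ≠ 0 → v' ≠ 0 → ∃ A B : (ι → F) →ₗ[F] (ι → F),
    (∀ φ w, B φ ⬝ᵥ A w = φ ⬝ᵥ w) ∧ (∀ w φ, good w φ → good (A w) (B φ)) ∧ ∃ c : F, B v = c • v'
  ex : ∃ w φ, w ≠ 0 ∧ φ ≠ 0 ∧ good w φ

theorem inj_of_pair {A B : (ι → F) →ₗ[F] (ι → F)} (h : ∀ φ w, B φ ⬝ᵥ A w = φ ⬝ᵥ w) :
    Function.Injective A ∧ Function.Injective B := by
  constructor
  · rw [injective_iff_map_eq_zero]
    intro w hw
    by_contra h0
    obtain ⟨φ, hφ⟩ := exists_dot_ne_zero h0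
    apply hφ
    rw [dotProduct_comm, ← h, hw, dotProduct_zero]
  · rw [injective_iff_map_eq_zero]
    intro w hw
    by_contra h0
    obtain ⟨φ, hφ⟩ := exists_dot_ne_zero h0
    apply hφ
    rw [← h, hw, zero_dotProduct]

omit [DecidableEq ι] in
theorem good_iff_of_inj [Finite F] {good : (ι → F) → (ι → F) → Prop}
    {A B : (ι → F) →ₗ[F] (ι → F)} (hA : Function.Injective A) (hB : Function.Injective B)
    (h : ∀ w φ, good w φ → good (A w) (B φ)) {w φ : ι → F} (h' : good (A w) (B φ)) : good w φ := by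
  let f : {p : (ι → F) × (ι → F) // good p.1 p.2} → {p : (ι → F) × (ι → F) // good p.1 p.2} :=
    fun p => ⟨(A p.1.1, B p.1.2), h _ _ p.2⟩
  have hf : Function.Injective f := fun p p' e => by
    have := congrArg Subtype.val e
    exact Subtype.ext (Prod.ext (hA (congrArg Prod.fst this)) (hB (congrArg Prod.snd this)))
  obtain ⟨p, hp⟩ := Finite.surjective_of_injective hf ⟨(A w, B φ), h'⟩
  have := congrArg Subtype.val hp
  rw [← hA (congrArg Prod.fst this), ← hB (congrArg Prod.snd this)]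
  exact p.2

theorem card_filter_dot_two [Fintype F] [DecidableEq F] {u v : ι → F} (hv : v ≠ 0)
    (h : ∀ c : F, u ≠ c • v) :
    (Finset.univ.filter (fun w : ι → F => w ⬝ᵥ v = 0 ∧ w ⬝ᵥ u = 0)).card * Fintype.card F =
      Fintype.card F ^ (Fintype.card ι - 1) := by
  obtain ⟨w, h1, h2⟩ := (exists_dot_eq_zero_dot_eq_one v u).resolve_left (by simpa using h)
  have h3 := card_inf_kerv_mul (kerv v) (ψ := u) (w := w) h1 (by rw [h2]; exact one_ne_zero)
  rw [← card_filter_dot hv, ← Fintype.card_subtype, ← Fintype.card_subtype,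
    ← Nat.card_eq_fintype_card, ← Nat.card_eq_fintype_card, ← Nat.card_eq_fintype_card]
  refine Eq.trans ?_ h3
  congr 1
  refine Nat.card_congr (Equiv.subtypeEquivRight fun w => ?_)
  rw [Submodule.mem_inf, mem_kerv, mem_kerv, dotProduct_comm v, dotProduct_comm u]

namespace McL

variable {good : (ι → F) → (ι → F) → Prop}

omit [DecidableEq ι] in
theorem dual (h : McL good) : McL fun φ w => good w φ where
  dot hh := by rw [dotProduct_comm]; exact h.dot hh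
  zero_left := h.zero_right
  zero_right := h.zero_left
  add_left := h.add_right
  add_right := h.add_left
  neg hh := by
    have := (h.swap (-1)).2 (by simpa using h.neg hh)
    simpa using this
  swap c := (h.swap c).symm
  comm h1 h2 h0 := by
    rw [← h.swap, dotProduct_comm]
    exact h.comm h2 h1 (by rw [dotProduct_comm]; exact h0)
  tr_pt v v' hv hv' := by
    obtain ⟨A, B, h1, h2, h3⟩ := h.tr_hyp v v' hv hv'
    exact ⟨B, A, fun φ w => by rw [dotProduct_comm, h1, dotProduct_comm], fun w φ => h2 φ w, h3⟩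
  tr_hyp v v' hv hv' := by
    obtain ⟨A, B, h1, h2, h3⟩ := h.tr_pt v v' hv hv'
    exact ⟨B, A, fun φ w => by rw [dotProduct_comm, h1, dotProduct_comm], fun w φ => h2 φ w, h3⟩
  ex := by
    obtain ⟨w, φ, h1, h2, h3⟩ := h.ex
    exact ⟨φ, w, h2, h1, h3⟩

theorem exists_axis (h : McL good) {v : ι → F} (hv : v ≠ 0) : ∃ φ, φ ≠ 0 ∧ good v φ := by
  obtain ⟨w, φ, hw, hφ, hg⟩ := h.ex
  obtain ⟨A, B, h1, h2, c, h3⟩ := h.tr_pt w v hw hv
  obtain ⟨hA, hB⟩ := inj_of_pair h1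
  have hc : c ≠ 0 := by
    rintro rfl
    exact hw (hA (by rw [h3, zero_smul, map_zero]))
  refine ⟨c • B φ, smul_ne_zero hc fun h0 => hφ (hB (by rw [h0, map_zero])), ?_⟩
  rw [← h.swap, ← h3]
  exact h2 _ _ hg

theorem exists_centre (h : McL good) {φ : ι → F} (hφ : φ ≠ 0) : ∃ v, v ≠ 0 ∧ good v φ :=
  h.dual.exists_axis hφ

variable [Fintype F] [DecidableEq F]

open Classical in
theorem card_rel_le (h : McL good) {w₁ w₂ ψ₀ : ι → F} (hψ₀ : ψ₀ ≠ 0) (hw₁ : w₁ ≠ 0)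
    (hw₂ : ∀ c : F, w₂ ≠ c • w₁) (g₁ : good w₁ ψ₀) (g₂ : good w₂ ψ₀) {φ : ι → F} (hφ : φ ≠ 0) :
    ((Finset.univ.filter fun ψ => ψ ≠ 0 ∧ ∀ w, good w ψ → φ ⬝ᵥ w = 0).card + 1) * Fintype.card F ≤
      Fintype.card F ^ (Fintype.card ι - 1) := by
  let S := Finset.univ.filter fun ψ : ι → F => ψ ≠ 0
  let c : (ι → F) → ℕ := fun φ =>
    (Finset.univ.filter fun ψ => ψ ≠ 0 ∧ ∀ w, good w ψ → φ ⬝ᵥ w = 0).card
  let r : (ι → F) → ℕ := fun ψ =>
    (Finset.univ.filter fun φ => φ ≠ 0 ∧ ∀ w, good w ψ → φ ⬝ᵥ w = 0).card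
  have hc : ∀ φ' ∈ S, c φ ≤ c φ' := by
    intro φ' hφ'
    obtain ⟨A, B, h1, h2, d, h3⟩ := h.tr_hyp φ φ' hφ (Finset.mem_filter.1 hφ').2
    obtain ⟨hA, hB⟩ := inj_of_pair h1
    have hd : d ≠ 0 := by
      rintro rfl
      exact hφ (hB (by rw [h3, zero_smul, map_zero]))
    refine Finset.card_le_card_of_injOn B (fun ψ hψ => ?_) hB.injOn
    simp only [Finset.coe_filter, Finset.mem_univ, true_and, Set.mem_ofPred_eq] at hψ ⊢
    refine ⟨fun h0 => hψ.1 (hB (by rw [h0, map_zero])), fun w' hw' => ?_⟩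
    obtain ⟨w, rfl⟩ := Finite.surjective_of_injective hA w'
    have := hψ.2 w (good_iff_of_inj hA hB h2 hw')
    rw [← h1, h3, smul_dotProduct, smul_eq_mul] at this
    exact (mul_eq_zero.1 this).resolve_left hd
  have hr : ∀ ψ ∈ S, (r ψ + 1) * Fintype.card F ≤ Fintype.card F ^ (Fintype.card ι - 1) := by
    intro ψ hψ
    obtain ⟨A, B, h1, h2, d, h3⟩ := h.tr_hyp ψ₀ ψ hψ₀ (Finset.mem_filter.1 hψ).2
    obtain ⟨hA, hB⟩ := inj_of_pair h1
    have hd : d ≠ 0 := by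
      rintro rfl
      exact hψ₀ (hB (by rw [h3, zero_smul, map_zero]))
    have k₁ : good (d • A w₁) ψ := by rw [h.swap, ← h3]; exact h2 _ _ g₁
    have k₂ : good (d • A w₂) ψ := by rw [h.swap, ← h3]; exact h2 _ _ g₂
    rw [← card_filter_dot_two (v := d • A w₁) (u := d • A w₂)
      (smul_ne_zero hd fun h0 => hw₁ (hA (by rw [h0, map_zero]))) (fun e he => hw₂ e (hA (by
        rw [smul_comm] at he
        rw [smul_right_injective _ hd he, map_smul])))]
    refine Nat.mul_le_mul_right _ ?_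
    rw [← Finset.card_insert_of_notMem (a := 0) (by simp)]
    refine Finset.card_le_card fun φ hφ => ?_
    simp only [Finset.mem_insert, Finset.mem_filter, Finset.mem_univ, true_and] at hφ ⊢
    rcases hφ with rfl | hφ
    · simp
    · exact ⟨hφ.2 _ k₁, hφ.2 _ k₂⟩
  have hs : ∑ φ ∈ S, c φ = ∑ ψ ∈ S, r ψ := by
    have e1 : ∀ φ, c φ = ∑ ψ ∈ S, if ∀ w, good w ψ → φ ⬝ᵥ w = 0 then 1 else 0 := fun φ => by
      rw [← Finset.card_filter, Finset.filter_filter]
    have e2 : ∀ ψ, r ψ = ∑ φ ∈ S, if ∀ w, good w ψ → φ ⬝ᵥ w = 0 then 1 else 0 := fun φ => by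
      rw [← Finset.card_filter, Finset.filter_filter]
    simp only [e1, e2]
    exact Finset.sum_comm
  by_contra hcon
  have : ∑ ψ ∈ S, r ψ < ∑ φ ∈ S, c φ := by
    refine Finset.sum_lt_sum_of_nonempty ⟨φ, by simpa [S] using hφ⟩ fun ψ hψ => ?_
    have h1 := hr ψ hψ
    have h2 := hc ψ hψ
    have h3 : (r ψ + 1) * Fintype.card F < (c φ + 1) * Fintype.card F := lt_of_le_of_lt h1
      (not_le.1 hcon)
    have := Nat.lt_of_mul_lt_mul_right h3
    omega
  omega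

theorem all_of_two (h : McL good) (hn : 3 ≤ Fintype.card ι) {w₁ w₂ ψ₀ : ι → F} (hψ₀ : ψ₀ ≠ 0)
    (hw₁ : w₁ ≠ 0) (hw₂ : ∀ c : F, w₂ ≠ c • w₁) (g₁ : good w₁ ψ₀) (g₂ : good w₂ ψ₀)
    (v ψ : ι → F) (h0 : ψ ⬝ᵥ v = 0) : good v ψ := by
  classical
  set q := Fintype.card F with hq
  have hq1 : 1 < q := Fintype.one_lt_card
  have c1 : ∀ v u : ι → F, v ≠ 0 → (∀ φ, good v φ → φ ⬝ᵥ u = 0) → ∃ c : F, u = c • v := by
    intro v u hv hu
    by_contra hcon
    push Not at hcon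
    obtain ⟨φ, hφ, hg⟩ := h.exists_axis hv
    have h1 := h.card_rel_le hψ₀ hw₁ hw₂ g₁ g₂ hφ
    have h2 := card_filter_dot_two hv hcon
    have h3 := card_filter_dot hv
    have h4 : (Finset.univ.filter fun w : ι → F => v ⬝ᵥ w = 0) ⊆
        (Finset.univ.filter fun w : ι → F => w ⬝ᵥ v = 0 ∧ w ⬝ᵥ u = 0) ∪
        (Finset.univ.filter fun ψ => ψ ≠ 0 ∧ ∀ w, good w ψ → φ ⬝ᵥ w = 0) := by
      intro ψ hψ
      simp only [Finset.mem_union, Finset.mem_filter, Finset.mem_univ, true_and] at hψ ⊢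
      rw [dotProduct_comm] at hψ
      by_cases hψ0 : ψ = 0
      · left; simp [hψ0]
      by_cases hr : ∀ w, good w ψ → φ ⬝ᵥ w = 0
      · exact Or.inr ⟨hψ0, hr⟩
      push Not at hr
      obtain ⟨w, hw, hw'⟩ := hr
      have := hu _ ((h.swap _).1 (h.comm hg hw hψ))
      rw [smul_dotProduct, smul_eq_mul] at this
      exact Or.inl ⟨hψ, (mul_eq_zero.1 this).resolve_left hw'⟩
    have h5 := (Finset.card_le_card h4).trans (Finset.card_union_le _ _)
    rw [h3] at h5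
    rw [← hq] at h1 h2 h5
    nlinarith
  have c2 : ∀ v ψ : ι → F, v ≠ 0 → ψ ≠ 0 → ψ ⬝ᵥ v = 0 → ∃ c : F, c ≠ 0 ∧ good v (c • ψ) := by
    intro v ψ hv hψ h0
    obtain ⟨w, hw, hg⟩ := h.exists_centre hψ
    by_cases hr : ∀ φ, good v φ → φ ⬝ᵥ w = 0
    · obtain ⟨c, rfl⟩ := c1 v w hv hr
      exact ⟨c, left_ne_zero_of_smul hw, (h.swap c).1 hg⟩
    · push Not at hr
      obtain ⟨φ, h1, h2⟩ := hr
      exact ⟨_, h2, (h.swap _).1 (h.comm h1 hg h0)⟩
  by_cases hv : v = 0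
  · exact hv ▸ h.zero_left ψ
  by_cases hψ : ψ = 0
  · exact hψ ▸ h.zero_right v
  let κ : (ι → F) → ℕ := fun ψ => (Finset.univ.filter fun c : F => c ≠ 0 ∧ good v (c • ψ)).card
  have c3 : ∀ ψ₁ ψ₂ : ι → F, ψ₁ ≠ 0 → ψ₂ ≠ 0 → ψ₂ ⬝ᵥ v = 0 → κ ψ₁ ≤ κ ψ₂ := by
    intro ψ₁ ψ₂ h1 h2 h3
    suffices ∃ d : F, d ≠ 0 ∧ ∀ s : F, good v (s • ψ₁) → good v ((s * d) • ψ₂) by
      obtain ⟨d, hd, hd'⟩ := this
      refine Finset.card_le_card_of_injOn (· * d) (fun s hs => ?_) (mul_left_injective₀ hd).injOn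
      simp only [Finset.coe_filter, Finset.mem_univ, true_and, Set.mem_ofPred_eq] at hs ⊢
      exact ⟨mul_ne_zero hs.1 hd, hd' s hs.2⟩
    rcases exists_dot_eq_zero_dot_eq_one ψ₂ ψ₁ with ⟨c, rfl⟩ | ⟨w, hw, hw'⟩
    · exact ⟨c, left_ne_zero_of_smul h1, fun s hs => by rwa [mul_smul]⟩
    · obtain ⟨d, hd, hg⟩ := c2 w ψ₂ (by rintro rfl; simp at hw') h2 hw
      refine ⟨d, hd, fun s hs => ?_⟩
      have := h.comm hs hg (by simp [h3])
      rw [smul_dotProduct, hw', smul_eq_mul, mul_one, h.swap, smul_smul] at this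
      exact this
  let R : AddSubgroup (ι → F) :=
    { carrier := {φ | good v φ}
      add_mem' := h.add_right
      zero_mem' := h.zero_right v
      neg_mem' := h.neg }
  let S := Finset.univ.filter fun ψ : ι → F => ψ ≠ 0 ∧ ψ ⬝ᵥ v = 0
  have hS : S.card + 1 = q ^ (Fintype.card ι - 1) := by
    rw [← card_filter_dot hv, ← Finset.card_insert_of_notMem (a := 0) (by simp [S])]
    congr 1
    ext ψ
    by_cases h : ψ = 0 <;> simp [S, h, dotProduct_comm]
  have hR : (Finset.univ.filter fun φ : ι → F => φ ≠ 0 ∧ good v φ).card + 1 = Nat.card R := by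
    rw [← Finset.card_insert_of_notMem (a := 0) (by simp), Nat.card_eq_fintype_card,
      Fintype.card_subtype]
    congr 1
    ext φ
    by_cases hφ : φ = 0
    · simp [hφ]
    · simp only [Finset.mem_insert, hφ, Finset.mem_filter, Finset.mem_univ, true_and, false_or,
        ne_eq, not_false_eq_true]
      rfl
  have hsum : S.card * κ ψ =
      (q - 1) * (Finset.univ.filter fun φ : ι → F => φ ≠ 0 ∧ good v φ).card := by
    have e1 : S.card * κ ψ = ∑ ψ' ∈ S, κ ψ' := by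
      rw [Finset.sum_congr rfl (g := fun _ => κ ψ) fun ψ' hψ' => by
        have := (Finset.mem_filter.1 hψ').2
        exact le_antisymm (c3 _ _ this.1 hψ h0) (c3 _ _ hψ this.1 this.2)]
      simp
    have e2 : ∀ ψ', κ ψ' = ∑ c ∈ Finset.univ.filter (fun c : F => c ≠ 0),
        if good v (c • ψ') then 1 else 0 := fun ψ' => by
      rw [← Finset.card_filter, Finset.filter_filter]
    rw [e1]
    simp only [e2]
    rw [Finset.sum_comm, Finset.sum_congr rfl (g := fun _ =>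
      (Finset.univ.filter fun φ : ι → F => φ ≠ 0 ∧ good v φ).card)]
    · rw [Finset.sum_const, Finset.filter_ne', Finset.card_erase_of_mem (Finset.mem_univ _)]
      rfl
    · intro c hc
      have hc0 : c ≠ 0 := (Finset.mem_filter.1 hc).2
      rw [← Finset.card_filter, Finset.filter_filter]
      refine Finset.card_bij' (fun φ _ => c • φ) (fun φ _ => c⁻¹ • φ) ?_ ?_ ?_ ?_
      · intro φ hφ
        simp only [Finset.mem_filter, Finset.mem_univ, true_and] at hφ ⊢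
        exact ⟨smul_ne_zero hc0 hφ.1.1, hφ.2⟩
      · intro φ hφ
        simp only [Finset.mem_filter, Finset.mem_univ, true_and] at hφ ⊢
        refine ⟨⟨smul_ne_zero (inv_ne_zero hc0) hφ.1, by simp [h.dot hφ.2]⟩, ?_⟩
        rw [smul_inv_smul₀ hc0]
        exact hφ.2
      · intro φ _; exact inv_smul_smul₀ hc0 φ
      · intro φ _; exact smul_inv_smul₀ hc0 φ
  have hκ1 : 1 ≤ κ ψ := by
    obtain ⟨c, hc, hg⟩ := c2 v ψ hv hψ h0
    exact Finset.card_pos.2 ⟨c, by simp [hc, hg]⟩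
  have hκ2 : κ ψ ≤ q - 1 := by
    refine (Finset.card_le_card (t := Finset.univ.erase 0) fun c hc => ?_).trans ?_
    · simpa using (Finset.mem_filter.1 hc).2.1
    · rw [Finset.card_erase_of_mem (Finset.mem_univ _)]
      rfl
  set r := (Finset.univ.filter fun φ : ι → F => φ ≠ 0 ∧ good v φ).card
  have hdvd : q ∣ r + 1 := by
    obtain ⟨p, hp⟩ := CharP.exists F
    obtain ⟨e, hpp, he⟩ := FiniteField.card F p
    have h1 : Nat.card R ∣ p ^ (e * Fintype.card ι) := by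
      have := AddSubgroup.card_addSubgroup_dvd_card R
      rwa [Nat.card_eq_fintype_card (α := ι → F), Fintype.card_fun, he, ← pow_mul] at this
    obtain ⟨j, -, hj⟩ := (Nat.dvd_prime_pow hpp).1 h1
    rw [hR, hj, hq, he]
    refine pow_dvd_pow _ ?_
    by_contra hcon
    have h2 : p ^ j ≤ q := by
      rw [hq, he]; exact Nat.pow_le_pow_right hpp.pos (by omega)
    have h3 : q ^ 2 ≤ q ^ (Fintype.card ι - 1) := Nat.pow_le_pow_right (by omega) (by omega)
    have h4 : S.card ≤ S.card * κ ψ := Nat.le_mul_of_pos_right _ hκ1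
    obtain ⟨q', hq'⟩ := Nat.exists_eq_add_of_lt hq1
    rw [hq'] at hsum h2 h3 hS
    simp only [Nat.add_sub_cancel] at hsum
    nlinarith
  have hκ : κ ψ = q - 1 := by
    obtain ⟨a, ha⟩ := hdvd
    obtain ⟨k, hk⟩ : ∃ k, Fintype.card ι - 1 = k + 1 := ⟨Fintype.card ι - 2, by omega⟩
    rw [hk, pow_succ] at hS
    have h1 : (q : ℤ) ∣ κ ψ + 1 := by
      refine ⟨q ^ k * κ ψ - (q - 1) * a + 1, ?_⟩
      zify [hq1.le] at hsum hS ha
      linear_combination -hsum + (κ ψ : ℤ) * hS - (q - 1 : ℤ) * ha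
    have h2 : q ∣ κ ψ + 1 := by exact_mod_cast h1
    have := Nat.le_of_dvd (by omega) h2
    omega
  have : (Finset.univ.filter fun c : F => c ≠ 0 ∧ good v (c • ψ)) = Finset.univ.erase 0 := by
    refine Finset.eq_of_subset_of_card_le (fun c hc => ?_) ?_
    · simpa using (Finset.mem_filter.1 hc).2.1
    · rw [Finset.card_erase_of_mem (Finset.mem_univ _)]
      exact hκ.ge
  have h1 : (1 : F) ∈ Finset.univ.filter fun c : F => c ≠ 0 ∧ good v (c • ψ) := by
    rw [this]; simp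
  simpa using h1

theorem result (h : McL good) (hn : 3 ≤ Fintype.card ι) :
    (∀ w φ, φ ⬝ᵥ w = 0 → good w φ) ∨
      ((∀ w φ φ', w ≠ 0 → φ ≠ 0 → good w φ → good w φ' → ∃ c : F, φ' = c • φ) ∧
        ∀ w w' φ, w ≠ 0 → φ ≠ 0 → good w φ → good w' φ → ∃ c : F, w' = c • w) := by
  by_cases hall : ∀ w φ, φ ⬝ᵥ w = 0 → good w φ
  · exact Or.inl hall
  refine Or.inr ⟨fun w φ φ' hw hφ h1 h2 => ?_, fun w w' φ hw hφ h1 h2 => ?_⟩
  · by_contra hc
    push Not at hc
    exact hall fun w' ψ h0 =>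
      h.dual.all_of_two hn hw hφ hc h1 h2 ψ w' (by rw [dotProduct_comm]; exact h0)
  · by_contra hc
    push Not at hc
    exact hall (h.all_of_two hn hφ hw hc h1 h2)

omit [Fintype F] [DecidableEq F] [DecidableEq ι] in
/-- symmetry of the polarity -/
theorem polar_symm (h : McL good)
    (hu : ∀ w w' φ, w ≠ 0 → φ ≠ 0 → good w φ → good w' φ → ∃ c : F, w' = c • w)
    {v w φ ψ : ι → F} (hv : v ≠ 0) (hψ : ψ ≠ 0) (h1 : good v φ) (h2 : good w ψ)
    (h0 : ψ ⬝ᵥ v = 0) : φ ⬝ᵥ w = 0 := by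
  by_contra hc
  obtain ⟨c, e⟩ := hu _ w ψ (smul_ne_zero hc hv) hψ (h.comm h1 h2 h0) h2
  apply hc
  rw [e, dotProduct_smul, dotProduct_smul, h.dot h1, smul_zero, smul_zero]

end McL

end Cfsg.Agent.R3L
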