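import Cfsg.Agent.Lib.R3L.Spec

/-!
# Numerical conditions
-/

set_option autoImplicit false

namespace Cfsg.Agent.R3L

open GLn

theorem qInt_add (q a b : ℕ) : qInt q (a + b) = qInt q a + q ^ a * qInt q b := by
  unfold qInt
  rw [Finset.sum_range_add, Finset.mul_sum]
  simp [pow_add]

theorem qInt_mul_qInt (q a b : ℕ) :
    qInt q (a + 1) * qInt q (b + 1) = qInt q (a + b + 1) + q * qInt q a * qInt q b := by
  induction b with
  | zero => simp [qInt_one, qInt_zero]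
  | succ b ih =>
    rw [qInt_succ q (b + 1), mul_add, ih, show a + (b + 1) + 1 = (a + b + 1) + 1 by ring,
      qInt_succ q (a + b + 1), qInt_succ q b]
    have h1 := qInt_succ q a
    have h2 := qInt_succ' q a
    zify at h1 h2 ⊢
    linear_combination (q : ℤ) ^ (b + 1) * h1

theorem qInt_lt {q : ℕ} (hq : 2 ≤ q) (j : ℕ) : qInt q j < q ^ j := by
  induction j with
  | zero => simp [qInt_zero]
  | succ j ih => rw [qInt_succ, pow_succ]; nlinarith

theorem qInt_mono (q : ℕ) {a b : ℕ} (h : a ≤ b) : qInt q a ≤ qInt q b := by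
  obtain ⟨c, rfl⟩ := Nat.exists_eq_add_of_le h
  rw [qInt_add]; omega

theorem pow_mul_qInt_le (q a b : ℕ) : q ^ a * qInt q b ≤ qInt q (a + b) := by
  rw [qInt_add]; omega

theorem qInt_three (q : ℕ) : qInt q 3 = q ^ 2 + q + 1 := by
  rw [qInt_succ', qInt_two]; ring

theorem qInt_add_two (q j : ℕ) : qInt q (j + 2) = q ^ 2 * qInt q j + q + 1 := by
  rw [qInt_succ', qInt_succ']; ring

section betagamma

variable {q m : ℕ} {f g v w' a : ℤ}

theorem num_B_A (hq : 2 ≤ q) (hm : 2 ≤ m) (hf : f * (q + 1) = q ^ 2 * qInt q (m + 3) * qInt q m)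
    (hg : 0 < g) (hv : v = 1 + f + g)
    (h1 : (qInt q (m + 3) : ℤ) * (q ^ (m + 2) - 1) + f * ((q ^ (m + 2) - 1) * qInt q (m + 1)) +
      g * w' = 0) (hw : -(qInt q (m + 3) : ℤ) ≤ w')
    (hA : v ≤ 1 + qInt q (m + 3) * (q ^ (m + 2) - 1)) : False := by
  have a1 : (qInt q (m + 3) : ℤ) = q ^ 2 * qInt q (m + 1) + q + 1 := by
    exact_mod_cast qInt_add_two q (m + 1)
  have a2 : (q : ℤ) + 1 ≤ qInt q m := by exact_mod_cast qInt_two q ▸ qInt_mono q hm
  have a3 : (q : ℤ) ^ (m + 2) ≤ qInt q (m + 3) := by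
    have : qInt q (m + 3) = _ := qInt_succ q (m + 2)
    exact_mod_cast (by omega : q ^ (m + 2) ≤ qInt q (m + 3))
  have a4 : (1 : ℤ) < q ^ (m + 2) := by exact_mod_cast Nat.one_lt_pow (by omega) hq
  have a5 : (0 : ℤ) ≤ qInt q (m + 1) := by positivity
  have hq' : (2 : ℤ) ≤ q := by exact_mod_cast hq
  generalize (qInt q (m + 3) : ℤ) = N at *
  generalize (qInt q (m + 1) : ℤ) = I₁ at *
  generalize (qInt q m : ℤ) = I₀ at *
  generalize (q : ℤ) ^ (m + 2) = Q at *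
  generalize (q : ℤ) = q at *
  have b1 : N * (Q - 1) + f * ((Q - 1) * I₁) ≤ g * N := by nlinarith
  have b2 : N * ((q + 1) * (Q - 1) + q ^ 2 * I₀ * ((Q - 1) * I₁)) ≤ N * ((q + 1) * g) := by
    have := mul_le_mul_of_nonneg_left b1 (by omega : 0 ≤ q + 1)
    linear_combination this - (Q - 1) * I₁ * hf
  have b3 := le_of_mul_le_mul_left b2 (by omega)
  have b4 : (q + 1) * (f + g) ≤ (q + 1) * (N * (Q - 1)) :=
    mul_le_mul_of_nonneg_left (by omega) (by omega)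
  have b5 : (q + 1) * (q ^ 2 * ((Q - 1) * I₁)) ≤ I₀ * (q ^ 2 * ((Q - 1) * I₁)) :=
    mul_le_mul_of_nonneg_right a2 (by have : 0 ≤ Q - 1 := by omega
                                      positivity)
  have b6 : q * ((q + 1) * Q) ≤ q ^ 2 * (I₀ * N) := by
    have : (q + 1) * Q ≤ I₀ * N := mul_le_mul a2 a3 (by omega) (by omega)
    exact mul_le_mul (by nlinarith) this (by positivity) (by positivity)
  have b7 : (q + 1) * (N * (Q - 1)) = (q + 1) * (q ^ 2 * ((Q - 1) * I₁)) +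
    (q + 1) * (q + 1) * (Q - 1) := by rw [a1]; ring
  nlinarith

theorem num_C_aux (hq : 2 ≤ q) (hm : 2 ≤ m)
    (hf : f * (q + 1) = q ^ 3 * qInt q (m + 2) * qInt q (m + 1)) :
    (q : ℤ) ^ 3 * qInt q (m + 1) * (q ^ (m + 2) - 1) ≤ f * (q - 1) * qInt q m := by
  have a2 : (q : ℤ) + 1 ≤ qInt q m := by exact_mod_cast qInt_two q ▸ qInt_mono q hm
  have a3 := qInt_mul ℤ q (m + 2)
  have a4 : (1 : ℤ) < q ^ (m + 2) := by exact_mod_cast Nat.one_lt_pow (by omega) hq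
  have hq' : (2 : ℤ) ≤ q := by exact_mod_cast hq
  have b1 : f * (q - 1) * (q + 1) = (q : ℤ) ^ 3 * qInt q (m + 1) * (q ^ (m + 2) - 1) := by
    linear_combination (q - 1 : ℤ) * hf + (q : ℤ) ^ 3 * qInt q (m + 1) * a3
  have b2 : 0 ≤ f * (q - 1) := by
    by_contra h
    have : f * (q - 1) * (q + 1) < 0 := mul_neg_of_neg_of_pos (not_le.1 h) (by omega)
    have h2 : (0 : ℤ) ≤ q ^ (m + 2) - 1 := by omega
    have : 0 ≤ (q : ℤ) ^ 3 * qInt q (m + 1) * (q ^ (m + 2) - 1) := by positivity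
    omega
  rw [← b1]
  exact mul_le_mul_of_nonneg_left a2 b2

theorem num_C_A (hq : 2 ≤ q) (hm : 2 ≤ m)
    (hf : f * (q + 1) = q ^ 3 * qInt q (m + 2) * qInt q (m + 1)) (hf0 : 0 < f)
    (hg : 0 < g) (hv : v = 1 + f + g)
    (h1 : (qInt q (m + 3) : ℤ) * (q ^ (m + 2) - 1) + f * ((q ^ (m + 3) - 1) * qInt q m) +
      g * w' = 0) (hw : -(qInt q (m + 3) : ℤ) ≤ w')
    (hA : v ≤ 1 + qInt q (m + 3) * (q ^ (m + 2) - 1)) : False := by
  have a0 := num_C_aux hq hm hf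
  have a1 : (qInt q (m + 3) : ℤ) = q ^ 2 * qInt q (m + 1) + q + 1 := by
    exact_mod_cast qInt_add_two q (m + 1)
  have a2 : (q : ℤ) + 1 ≤ qInt q (m + 1) := by
    exact_mod_cast qInt_two q ▸ qInt_mono q (by omega : 2 ≤ m + 1)
  have a4 : (1 : ℤ) < q ^ (m + 2) := by exact_mod_cast Nat.one_lt_pow (by omega) hq
  rw [← qInt_mul ℤ q (m + 3)] at h1
  have hq' : (2 : ℤ) ≤ q := by exact_mod_cast hq
  generalize (qInt q (m + 3) : ℤ) = N at *
  generalize (qInt q (m + 1) : ℤ) = I₁ at *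
  generalize (qInt q m : ℤ) = I₀ at *
  generalize (q : ℤ) ^ (m + 2) = Q at *
  generalize (q : ℤ) = q at *
  have hN : 0 < N := by nlinarith
  have b1 : N * ((Q - 1) + f * (q - 1) * I₀) ≤ N * g := by nlinarith
  have b3 := le_of_mul_le_mul_left b1 hN
  have b4 : N ≤ q ^ 3 * I₁ := by
    have : 1 * I₁ ≤ q ^ 2 * (q - 1) * I₁ := mul_le_mul_of_nonneg_right (by nlinarith) (by omega)
    nlinarith
  have b5 : N * (Q - 1) ≤ q ^ 3 * I₁ * (Q - 1) := mul_le_mul_of_nonneg_right b4 (by omega)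
  nlinarith

theorem num_ident {k w : ℤ} (hv : v = 1 + f + g) (h1 : k + f * w + g * w' = 0)
    (h2 : k ^ 2 + f * w ^ 2 + g * w' ^ 2 = v * a * k) :
    v * (a * k + w * w') = (k - w) * (k - w') := by
  subst hv
  linear_combination -h2 + (w + w') * h1

theorem num_ident2 {k w μ : ℤ} (hv : v = 1 + f + g) (h1 : k + f * w + g * -(a * μ) = 0)
    (h2 : k ^ 2 + f * w ^ 2 + g * (-(a * μ)) ^ 2 = v * a * k) :
    (a * μ * (1 + f) + k + f * w) * (k - w * μ) = μ * (k - w) * (k + a * μ) := by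
  have := num_ident hv h1 h2
  subst hv
  linear_combination μ * this + (k - w * μ) * h1

set_option maxHeartbeats 1000000 in
theorem num_B_B (hq : 2 ≤ q) (hm : 2 ≤ m) (hf : f * (q + 1) = q ^ 2 * qInt q (m + 3) * qInt q m)
    (hf0 : 0 < f) (hg : 0 < g) (hv : v = 1 + f + g)
    (h1 : (qInt q (m + 3) : ℤ) * (q ^ (m + 2) - 1) + f * ((q ^ (m + 2) - 1) * qInt q (m + 1)) +
      g * w' = 0) (hw : -(qInt q (m + 3) : ℤ) ≤ w') (ha : 0 < a) (hd : a ∣ w')
    (h2 : ((qInt q (m + 3) : ℤ) * (q ^ (m + 2) - 1)) ^ 2 +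
      f * ((q ^ (m + 2) - 1) * qInt q (m + 1)) ^ 2 + g * w' ^ 2 =
      v * a * (qInt q (m + 3) * (q ^ (m + 2) - 1))) : False := by
  obtain ⟨μ, rfl⟩ : ∃ μ, w' = -(a * μ) := by
    obtain ⟨c, rfl⟩ := hd
    exact ⟨-c, by ring⟩
  have key := num_ident2 hv h1 h2
  obtain ⟨m, rfl⟩ := Nat.exists_eq_add_of_le' hm
  have a1 : (qInt q (m + 2 + 3) : ℤ) = q ^ 2 * qInt q (m + 2 + 1) + q + 1 := by
    exact_mod_cast qInt_add_two q (m + 2 + 1)
  have a1' : (qInt q (m + 2 + 3) : ℤ) = qInt q (m + 2 + 1) + q ^ m * q ^ 3 * (q + 1) := by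
    have := qInt_add q (m + 2 + 1) 2
    rw [qInt_two] at this
    rw [this]; push_cast; ring
  have a2 : (q : ℤ) ^ m * (q + 1) ≤ qInt q (m + 2) := by
    exact_mod_cast qInt_two q ▸ pow_mul_qInt_le q m 2
  have a3 : (q : ℤ) ^ m * (q ^ 2 + q + 1) ≤ qInt q (m + 2 + 1) := by
    exact_mod_cast qInt_three q ▸ pow_mul_qInt_le q m 3
  have a4 : (1 : ℤ) ≤ q ^ m := by exact_mod_cast Nat.one_le_pow _ _ (by omega)
  have a5 : (q : ℤ) ^ (m + 2 + 2) = q ^ m * q ^ 4 := by ring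
  rw [a5] at key h1
  have hq' : (2 : ℤ) ≤ q := by exact_mod_cast hq
  clear h2
  generalize (qInt q (m + 2 + 3) : ℤ) = N at *
  generalize (qInt q (m + 2 + 1) : ℤ) = I₁ at *
  generalize (qInt q (m + 2) : ℤ) = I₀ at *
  generalize (q : ℤ) ^ m = R at *
  generalize (q : ℤ) = q at *
  have hq4 : 16 ≤ q ^ 4 := by
    calc (16 : ℤ) = 2 ^ 4 := by norm_num
      _ ≤ q ^ 4 := pow_le_pow_left₀ (by norm_num) hq' 4
  have hQ : 0 < R * q ^ 4 - 1 := by nlinarith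
  have hI₁ : q ^ 2 + q + 1 ≤ I₁ := by nlinarith
  have hI₁' : q + 1 < I₁ := by nlinarith
  have hN : 0 < N := by nlinarith
  have hk : 0 < N * (R * q ^ 4 - 1) := mul_pos hN hQ
  have hfw : 0 < f * ((R * q ^ 4 - 1) * I₁) := mul_pos hf0 (mul_pos hQ (by omega))
  have hμ : 0 < μ := by
    by_contra h
    have : 0 ≤ g * -(a * μ) := mul_nonneg hg.le (by nlinarith)
    omega
  have haμ : 0 < a * μ := mul_pos ha hμ
  have key2 : (a * μ * (1 + f) + N * (R * q ^ 4 - 1) + f * ((R * q ^ 4 - 1) * I₁)) * (N - μ * I₁) =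
      μ * (R * q ^ 3 * (q + 1)) * (N * (R * q ^ 4 - 1) + a * μ) := by
    apply mul_left_cancel₀ hQ.ne'
    linear_combination key + (R * q ^ 4 - 1) * μ * (N * (R * q ^ 4 - 1) + a * μ) * a1'
  have hL : 0 < a * μ * (1 + f) := by positivity
  have hD : 0 < N - μ * I₁ := by
    have : 0 < μ * (R * q ^ 3 * (q + 1)) * (N * (R * q ^ 4 - 1) + a * μ) := by positivity
    rw [← key2] at this
    exact (pos_iff_pos_of_mul_pos this).1 (by omega)
  have hμ2 : μ ≤ q ^ 2 := by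
    by_contra h
    have : (q ^ 2 + 1) * I₁ ≤ μ * I₁ := mul_le_mul_of_nonneg_right (by omega) (by omega)
    nlinarith
  rcases hμ2.eq_or_lt with rfl | hμ3
  · have e1 : N - q ^ 2 * I₁ = q + 1 := by omega
    rw [e1] at key2
    have e2 : a * q ^ 2 * (1 + f) + N * (R * q ^ 4 - 1) + f * ((R * q ^ 4 - 1) * I₁) =
        q ^ 2 * (R * q ^ 3) * (N * (R * q ^ 4 - 1) + a * q ^ 2) := by
      apply mul_right_cancel₀ (by omega : q + 1 ≠ 0)
      linear_combination key2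
    have e3 : f = q * (q * N * I₀ - f) := by linear_combination hf
    have e4 : q ∣ 1 := by
      refine ⟨a * q * (1 + f) + N * R * q ^ 3 - (q * I₁ + 1) +
        (q * N * I₀ - f) * ((R * q ^ 4 - 1) * I₁) -
        q * (R * q ^ 3) * (N * (R * q ^ 4 - 1) + a * q ^ 2), ?_⟩
      linear_combination -e2 - a1 + ((R * q ^ 4 - 1) * I₁) * e3
    have := Int.le_of_dvd one_pos e4
    omega
  · have c1 : I₁ ≤ N - μ * I₁ := by nlinarith
    have c2 : f * ((R * q ^ 4 - 1) * I₁) * I₁ ≤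
        (q ^ 2 - 1) * (R * q ^ 3 * (q + 1)) * (N * (R * q ^ 4)) := by
      calc _ ≤ (a * μ * (1 + f) + N * (R * q ^ 4 - 1) + f * ((R * q ^ 4 - 1) * I₁)) *
            (N - μ * I₁) := mul_le_mul (by omega) c1 (by omega) (by omega)
        _ = _ := key2
        _ ≤ _ := mul_le_mul (mul_le_mul_of_nonneg_right (by omega) (by positivity)) (by linarith)
            (by omega) (mul_nonneg (by omega) (by positivity))
    have c3 : N * (q ^ 2 * I₀ * ((R * q ^ 4 - 1) * I₁ * I₁)) ≤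
        N * ((q + 1) * (q ^ 2 - 1) * (R * q ^ 3 * (q + 1)) * (R * q ^ 4)) := by
      have := mul_le_mul_of_nonneg_left c2 (by omega : 0 ≤ q + 1)
      linear_combination this - ((R * q ^ 4 - 1) * I₁ * I₁) * hf
    have c4 := le_of_mul_le_mul_left c3 hN
    have c5 : q ^ 2 * (R * (q + 1)) * ((q ^ 4 - 1) * (R * (q ^ 2 + q + 1)) * (q ^ 2 + q + 1)) ≤
        q ^ 2 * I₀ * ((R * q ^ 4 - 1) * I₁ * I₁) := by
      have : 0 ≤ q ^ 4 - 1 := by omega
      have : q ^ 4 - 1 ≤ R * q ^ 4 - 1 := by nlinarith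
      have : 0 ≤ R := by omega
      have : 0 ≤ I₁ := by omega
      have : 0 ≤ I₀ := le_trans (by positivity) a2
      gcongr
    have c6 : 0 < R ^ 2 * q ^ 2 * (q + 1) * (q ^ 2 - 1) := mul_pos (by positivity) (by omega)
    have c7 : R ^ 2 * q ^ 2 * (q + 1) * (q ^ 2 - 1) * ((q ^ 2 + 1) * (q ^ 2 + q + 1) ^ 2) ≤
        R ^ 2 * q ^ 2 * (q + 1) * (q ^ 2 - 1) * ((q + 1) * q ^ 5) := by
      linear_combination c5.trans c4
    have c8 := le_of_mul_le_mul_left c7 c6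
    have : 0 < q := by omega
    have : 0 < q ^ 5 + 4 * q ^ 4 + 4 * q ^ 3 + 4 * q ^ 2 + 2 * q + 1 := by positivity
    linarith [show (q ^ 2 + 1) * (q ^ 2 + q + 1) ^ 2 = (q + 1) * q ^ 5 +
      (q ^ 5 + 4 * q ^ 4 + 4 * q ^ 3 + 4 * q ^ 2 + 2 * q + 1) by ring]

theorem poly_aux {q : ℤ} (hq : 2 ≤ q) : q ^ 5 < (q ^ 2 + q + 1) * (q ^ 4 - 1) := by
  have h1 : q + 1 < q ^ 2 := by nlinarith
  have : q ^ 2 + q + 1 < q ^ 4 := by nlinarith
  have : 0 < q ^ 6 := by positivity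
  linarith [show (q ^ 2 + q + 1) * (q ^ 4 - 1) = q ^ 5 + q ^ 6 + (q ^ 4 - (q ^ 2 + q + 1)) by ring]

set_option maxHeartbeats 1000000 in
theorem num_C_B (hq : 2 ≤ q) (hm : 2 ≤ m)
    (hf : f * (q + 1) = q ^ 3 * qInt q (m + 2) * qInt q (m + 1))
    (hf0 : 0 < f) (hg : 0 < g) (hv : v = 1 + f + g)
    (h1 : (qInt q (m + 3) : ℤ) * (q ^ (m + 2) - 1) + f * ((q ^ (m + 3) - 1) * qInt q m) +
      g * w' = 0) (hw : -(qInt q (m + 3) : ℤ) ≤ w') (ha : 0 < a) (hd : a ∣ w')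
    (h2 : ((qInt q (m + 3) : ℤ) * (q ^ (m + 2) - 1)) ^ 2 +
      f * ((q ^ (m + 3) - 1) * qInt q m) ^ 2 + g * w' ^ 2 =
      v * a * (qInt q (m + 3) * (q ^ (m + 2) - 1))) : False := by
  obtain ⟨μ, rfl⟩ : ∃ μ, w' = -(a * μ) := by
    obtain ⟨c, rfl⟩ := hd
    exact ⟨-c, by ring⟩
  have key := num_ident2 hv h1 h2
  have a0 := num_C_aux hq hm hf
  obtain ⟨m, rfl⟩ := Nat.exists_eq_add_of_le' hm
  have a1 : (qInt q (m + 2 + 2) : ℤ) = q ^ 2 * qInt q (m + 2) + q + 1 := by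
    exact_mod_cast qInt_add_two q (m + 2)
  have a1' : (qInt q (m + 2 + 2) : ℤ) = qInt q (m + 2) + q ^ m * q ^ 2 * (q + 1) := by
    have := qInt_add q (m + 2) 2
    rw [qInt_two] at this
    rw [this]; push_cast; ring
  have a2 : (q : ℤ) ^ m * (q + 1) ≤ qInt q (m + 2) := by
    exact_mod_cast qInt_two q ▸ pow_mul_qInt_le q m 2
  have a3 : (q : ℤ) ^ m * (q ^ 2 + q + 1) ≤ qInt q (m + 2 + 1) := by
    exact_mod_cast qInt_three q ▸ pow_mul_qInt_le q m 3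
  have a4 : (1 : ℤ) ≤ q ^ m := by exact_mod_cast Nat.one_le_pow _ _ (by omega)
  have a5 : (q : ℤ) ^ (m + 2 + 2) = q ^ m * q ^ 4 := by ring
  have a6 := qInt_mul ℤ q (m + 2 + 2)
  have a7 : (0 : ℤ) < qInt q (m + 2 + 3) := by exact_mod_cast qInt_pos q _
  rw [← qInt_mul ℤ q (m + 2 + 3)] at key h1
  rw [a5] at key h1 a0 a6
  have hq' : (2 : ℤ) ≤ q := by exact_mod_cast hq
  clear h2 hf
  generalize (qInt q (m + 2 + 3) : ℤ) = N at *
  generalize (qInt q (m + 2 + 2) : ℤ) = I₂ at *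
  generalize (qInt q (m + 2 + 1) : ℤ) = I₁ at *
  generalize (qInt q (m + 2) : ℤ) = I₀ at *
  generalize (q : ℤ) ^ m = R at *
  generalize (q : ℤ) = q at *
  have hq4 : 16 ≤ q ^ 4 := by
    calc (16 : ℤ) = 2 ^ 4 := by norm_num
      _ ≤ q ^ 4 := pow_le_pow_left₀ (by norm_num) hq' 4
  have hQ : 0 < R * q ^ 4 - 1 := by nlinarith
  have hI₀ : q + 1 ≤ I₀ := by nlinarith
  have hk : 0 < N * (R * q ^ 4 - 1) := mul_pos a7 hQ
  have hqN : 0 < (q - 1) * N := mul_pos (by omega) a7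
  have hfw : 0 < f * ((q - 1) * N * I₀) := mul_pos hf0 (mul_pos hqN (by omega))
  have hμ : 0 < μ := by
    by_contra h
    have : 0 ≤ g * -(a * μ) := mul_nonneg hg.le (by nlinarith)
    omega
  have haμ : 0 < a * μ := mul_pos ha hμ
  have key2 : (a * μ * (1 + f) + N * (R * q ^ 4 - 1) + f * ((q - 1) * N * I₀)) * (I₂ - μ * I₀) =
      μ * (R * q ^ 2 * (q + 1)) * (N * (R * q ^ 4 - 1) + a * μ) := by
    apply mul_left_cancel₀ hqN.ne'
    linear_combination key + (q - 1) * N * μ * (N * (R * q ^ 4 - 1) + a * μ) * a1' +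
      N * ((a * μ * (1 + f) + N * (R * q ^ 4 - 1) + f * ((q - 1) * N * I₀)) -
        μ * (N * (R * q ^ 4 - 1) + a * μ)) * a6
  have hL : 0 < a * μ * (1 + f) := by positivity
  have hD : 0 < I₂ - μ * I₀ := by
    have : 0 < μ * (R * q ^ 2 * (q + 1)) * (N * (R * q ^ 4 - 1) + a * μ) := by positivity
    rw [← key2] at this
    exact (pos_iff_pos_of_mul_pos this).1 (by omega)
  have hμ2 : μ ≤ q ^ 2 := by
    by_contra h
    have : (q ^ 2 + 1) * I₀ ≤ μ * I₀ := mul_le_mul_of_nonneg_right (by omega) (by omega)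
    nlinarith
  have c1 : q + 1 ≤ I₂ - μ * I₀ := by nlinarith
  have c2 : f * ((q - 1) * N * I₀) * (q + 1) ≤
      q ^ 2 * (R * q ^ 2 * (q + 1)) * (N * (R * q ^ 4)) := by
    calc _ ≤ (a * μ * (1 + f) + N * (R * q ^ 4 - 1) + f * ((q - 1) * N * I₀)) *
          (I₂ - μ * I₀) := mul_le_mul (by omega) c1 (by omega) (by omega)
      _ = _ := key2
      _ ≤ _ := mul_le_mul (mul_le_mul_of_nonneg_right hμ2 (by positivity)) (by linarith)
          (by omega) (by positivity)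
  have c3 : N * (q + 1) * (f * (q - 1) * I₀) ≤ N * (q + 1) * (R ^ 2 * q ^ 8) := by
    linear_combination c2
  have c4 := a0.trans (le_of_mul_le_mul_left c3 (by positivity))
  have c5 : q ^ 3 * (R * (q ^ 2 + q + 1)) * (R * (q ^ 4 - 1)) ≤ q ^ 3 * I₁ * (R * q ^ 4 - 1) := by
    have : 0 ≤ q ^ 4 - 1 := by omega
    have : R * (q ^ 4 - 1) ≤ R * q ^ 4 - 1 := by nlinarith
    have : 0 ≤ R := by omega
    have : 0 ≤ I₁ := le_trans (by positivity) a3
    gcongr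
  have c6 : R ^ 2 * q ^ 3 * ((q ^ 2 + q + 1) * (q ^ 4 - 1)) ≤ R ^ 2 * q ^ 3 * q ^ 5 := by
    linear_combination c5.trans c4
  have c7 := le_of_mul_le_mul_left c6 (by positivity)
  exact absurd c7 (not_le.2 (poly_aux hq'))

end betagamma

end Cfsg.Agent.R3L
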