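import Cfsg.Agent.Lib.R3L.Spec

/-!
# Orbits on flags in terms of vectors
-/

set_option autoImplicit false

namespace Cfsg.Agent.R3L

open Matrix GLn SLn Deg
open scoped MatrixGroups

section defs

variable {ι F : Type*} [Fintype ι] [DecidableEq ι] [Field F]

/-- transitive on points -/
def PtTr (K : Subgroup (SpecialLinearGroup ι F)) : Prop :=
  ∀ v w : ι → F, v ≠ 0 → w ≠ 0 → ∃ k ∈ K, ∃ c : F, k.1 *ᵥ v = c • w

/-- transitive on hyperplanes -/
def HypTr (K : Subgroup (SpecialLinearGroup ι F)) : Prop :=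
  ∀ v w : ι → F, v ≠ 0 → w ≠ 0 → ∃ k ∈ K, ∃ c : F, v ᵥ* k.1 = c • w

/-- transitive on point-line flags -/
def PtLineTr (K : Subgroup (SpecialLinearGroup ι F)) : Prop :=
  ∀ u w u' w' : ι → F, u ≠ 0 → (∀ c : F, w ≠ c • u) → u' ≠ 0 → (∀ c : F, w' ≠ c • u') →
    ∃ k ∈ K, ∃ a b c : F, k.1 *ᵥ u = c • u' ∧ k.1 *ᵥ w = a • u' + b • w'

/-- transitive on point-hyperplane flags -/
def PtHypTr (K : Subgroup (SpecialLinearGroup ι F)) : Prop :=
  ∀ u φ u' φ' : ι → F, u ≠ 0 → φ ≠ 0 → φ ⬝ᵥ u = 0 → u' ≠ 0 → φ' ≠ 0 → φ' ⬝ᵥ u' = 0 →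
    ∃ k ∈ K, ∃ c d : F, k.1 *ᵥ u = c • u' ∧ φ' ᵥ* k.1 = d • φ

/-- transitive on point-line-plane flags -/
def Flag3Tr (K : Subgroup (SpecialLinearGroup ι F)) : Prop :=
  ∀ u w z z' : ι → F, LinearIndependent F ![u, w, z] → LinearIndependent F ![u, w, z'] →
    ∃ k ∈ K, ∃ a b c d e f : F, k.1 *ᵥ u = c • u ∧ k.1 *ᵥ w = a • u + b • w ∧
      k.1 *ᵥ z = d • u + e • w + f • z'

theorem exists_SL_vecMul (hn : 2 ≤ Fintype.card ι) {v v' : ι → F} (h0 : v ≠ 0) (h0' : v' ≠ 0) :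
    ∃ g : SpecialLinearGroup ι F, v ᵥ* g.1 = v' := by
  obtain ⟨g, hg⟩ := exists_SL_mulVec hn h0 h0'
  refine ⟨Matrix.SpecialLinearGroup.transpose g, ?_⟩
  change v ᵥ* g.1ᵀ = v'
  rw [vecMul_transpose, hg]

theorem vecMul_SL_injective (g : SpecialLinearGroup ι F) {u v : ι → F}
    (h : u ᵥ* g.1 = v ᵥ* g.1) : u = v := by
  rw [← vecMul_inv_of_eq h, vecMul_inv_of_eq rfl]

end defs

variable {F : Type*} [Field F] {m : ℕ}

theorem col_one {p : Matrix (Fin (m + 3)) (Fin (m + 3)) F} {j : Fin (m + 3)}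
    (h : ∀ i : Fin (m + 3), 1 ≤ i.val → p i j = 0) :
    p *ᵥ Pi.single j 1 = p 0 j • Pi.single 0 1 := by
  ext i
  rw [mulVec_single_one]
  by_cases h0 : i = 0
  · simp [h0]
  · simp [h0, h i (by have : i.val ≠ 0 := fun e => h0 (Fin.ext e); omega)]

theorem col_two {p : Matrix (Fin (m + 3)) (Fin (m + 3)) F} {j : Fin (m + 3)}
    (h : ∀ i : Fin (m + 3), 2 ≤ i.val → p i j = 0) :
    p *ᵥ Pi.single j 1 = p 0 j • Pi.single 0 1 + p 1 j • Pi.single 1 1 := by
  ext i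
  rw [mulVec_single_one]
  by_cases h0 : i = 0
  · simp [h0]
  by_cases h1 : i = 1
  · simp [h1]
  · have h0' : i.val ≠ 0 := fun e => h0 (Fin.ext e)
    have h1' : i.val ≠ 1 := fun e => h1 (Fin.ext e)
    simp [h0, h1, h i (by omega)]

theorem col_three {p : Matrix (Fin (m + 3)) (Fin (m + 3)) F} {j : Fin (m + 3)}
    (h : ∀ i : Fin (m + 3), 3 ≤ i.val → p i j = 0) :
    p *ᵥ Pi.single j 1 = p 0 j • Pi.single 0 1 + p 1 j • Pi.single 1 1 +
      p 2 j • Pi.single 2 1 := by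
  have e2 : (2 : Fin (m + 3)).val = 2 := rfl
  have h02 : (0 : Fin (m + 3)) ≠ 2 := fun e => by
    have := congrArg Fin.val e
    rw [e2] at this
    simp at this
  have h12 : (1 : Fin (m + 3)) ≠ 2 := fun e => by
    have := congrArg Fin.val e
    rw [e2] at this
    simp at this
  ext i
  rw [mulVec_single_one]
  by_cases h0 : i = 0
  · simp [h0, h02]
  by_cases h1 : i = 1
  · simp [h1, h12]
  by_cases h2 : i = 2
  · simp [h2, h02.symm, h12.symm]
  · have h0' : i.val ≠ 0 := fun e => h0 (Fin.ext e)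
    have h1' : i.val ≠ 1 := fun e => h1 (Fin.ext e)
    have h2' : i.val ≠ 2 := fun e => h2 (Fin.ext e)
    simp [h0, h1, h2, h i (by omega)]

theorem row_last {p : Matrix (Fin (m + 3)) (Fin (m + 3)) F}
    (h : ∀ j : Fin (m + 3), j.val < m + 2 → p (Fin.last _) j = 0) :
    Pi.single (Fin.last _) 1 ᵥ* p = p (Fin.last _) (Fin.last _) • Pi.single (Fin.last _) 1 := by
  ext j
  rw [single_one_vecMul]
  by_cases h0 : j = Fin.last _
  · simp [h0]
  · have : j.val ≠ m + 2 := fun e => h0 (Fin.ext e)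
    have := j.2
    simp [h0, h j (by omega)]

theorem dc_eq_one_SL {n : ℕ} {K : Subgroup (SpecialLinearGroup (Fin n) F)} {μ : Fin n → ℕ}
    (h : dc K μ = 1) (x y : SpecialLinearGroup (Fin n) F) :
    ∃ k ∈ K, ∃ p ∈ parabolicGL n F μ, k.1 * x.1 = y.1 * p.1 := by
  obtain ⟨k, hk, p, hp, e⟩ := dc_eq_one h (SpecialLinearGroup.toGL x) (SpecialLinearGroup.toGL y)
  exact ⟨k, hk, p, hp, congrArg Units.val e⟩

variable {K : Subgroup (SpecialLinearGroup (Fin (m + 3)) F)}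

theorem single_ne_zero' (i : Fin (m + 3)) : (Pi.single i 1 : Fin (m + 3) → F) ≠ 0 := by simp

theorem single_one_ne (c : F) :
    (Pi.single 1 1 : Fin (m + 3) → F) ≠ c • Pi.single 0 1 := fun h => by
  simpa using congrFun h 1

theorem ptTr_of_dc (h : dc K (mu3 m 1 (m + 2) 0) = 1) : PtTr K := by
  intro v w hv hw
  obtain ⟨x, hx⟩ := exists_SL_mulVec (by simp) (single_ne_zero' 0) hv
  obtain ⟨y, hy⟩ := exists_SL_mulVec (by simp) (single_ne_zero' 0) hw
  obtain ⟨k, hk, p, hp, e⟩ := dc_eq_one_SL h x y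
  refine ⟨k, hk, p.1 0 0, ?_⟩
  rw [← hx, mulVec_mulVec, e, ← mulVec_mulVec, col_one fun i hi =>
    parabolic_psum (by rw [sum_mu3]; omega) hp 1 (by simp [psum_mu3_one])
      (by rwa [psum_mu3_one]), mulVec_smul, hy]

theorem hypTr_of_dc (h : dc K (mu3 m (m + 2) 1 0) = 1) : HypTr K := by
  intro v w hv hw
  obtain ⟨x, hx⟩ := exists_SL_vecMul (by simp) hw (single_ne_zero' (Fin.last _))
  obtain ⟨y, hy⟩ := exists_SL_vecMul (by simp) hv (single_ne_zero' (Fin.last _))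
  obtain ⟨k, hk, p, hp, e⟩ := dc_eq_one_SL h x y
  refine ⟨k, hk, p.1 (Fin.last _) (Fin.last _), vecMul_SL_injective x ?_⟩
  rw [vecMul_vecMul, e, ← vecMul_vecMul, hy, smul_vecMul, hx]
  exact row_last fun j hj => parabolic_psum (by rw [sum_mu3]) hp 1 (by rwa [psum_mu3_one])
    (by simp [psum_mu3_one])

theorem ptLineTr_of_dc (h : dc K (mu3 m 1 1 (m + 1)) = 1) : PtLineTr K := by
  intro u w u' w' hu hw hu' hw'
  obtain ⟨x, hx, hx'⟩ := exists_SL_pair (by simp) (single_ne_zero' 0) single_one_ne hu hw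
  obtain ⟨y, hy, hy'⟩ := exists_SL_pair (by simp) (single_ne_zero' 0) single_one_ne hu' hw'
  obtain ⟨k, hk, p, hp, e⟩ := dc_eq_one_SL h x y
  refine ⟨k, hk, p.1 0 1, p.1 1 1, p.1 0 0, ?_, ?_⟩
  · rw [← hx, mulVec_mulVec, e, ← mulVec_mulVec, col_one fun i hi =>
      parabolic_psum (by rw [sum_mu3]; omega) hp 1 (by simp [psum_mu3_one])
        (by rwa [psum_mu3_one]), mulVec_smul, hy]
  · rw [← hx', mulVec_mulVec, e, ← mulVec_mulVec, col_two fun i hi =>
      parabolic_psum (by rw [sum_mu3]; omega) hp 2 (by simp [psum_mu3_two])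
        (by rwa [psum_mu3_two]), mulVec_add, mulVec_smul, mulVec_smul, hy, hy']

theorem ptHypTr_of_dc [Finite F] (h : dc K (mu3 m 1 (m + 1) 1) = 1) : PtHypTr K := by
  intro u φ u' φ' hu hφ h0 hu' hφ' h0'
  have h1 : (Pi.single (Fin.last _) 1 : Fin (m + 3) → F) ⬝ᵥ Pi.single 0 1 = 0 := by
    simp [Fin.ext_iff]
  obtain ⟨x, hx, hx'⟩ := exists_SL_incident (by simp) (single_ne_zero' 0)
    (single_ne_zero' (Fin.last _)) h1 hu hφ h0
  obtain ⟨y, hy, hy'⟩ := exists_SL_incident (by simp) (single_ne_zero' 0)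
    (single_ne_zero' (Fin.last _)) h1 hu' hφ' h0'
  obtain ⟨k, hk, p, hp, e⟩ := dc_eq_one_SL h x y
  refine ⟨k, hk, p.1 0 0, p.1 (Fin.last _) (Fin.last _), ?_, vecMul_SL_injective x ?_⟩
  · rw [← hx, mulVec_mulVec, e, ← mulVec_mulVec, col_one fun i hi =>
      parabolic_psum (by rw [sum_mu3]; omega) hp 1 (by simp [psum_mu3_one])
        (by rwa [psum_mu3_one]), mulVec_smul, hy]
  · rw [vecMul_vecMul, e, ← vecMul_vecMul, hy', smul_vecMul, hx']
    exact row_last fun j hj => parabolic_psum (by rw [sum_mu3]; omega) hp 2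
      (by rw [psum_mu3_two]; omega) (by rw [psum_mu3_two, Fin.val_last]; omega)

theorem psum_ones {n : ℕ} {k : ℕ} (hk : k ≤ n) : psum (fun _ : Fin n => 1) k = k := by
  simp [psum, card_filter_lt k hk]

theorem flag3Tr_of_dc (hm : 1 ≤ m) (h : dc K (fun _ => 1) = 1) : Flag3Tr K := by
  intro u w z z' hz hz'
  have e2 : (2 : Fin (m + 3)).val = 2 := rfl
  have hli : LinearIndependent F
      (![Pi.single 0 1, Pi.single 1 1, Pi.single 2 1] : Fin 3 → Fin (m + 3) → F) := by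
    have := (Pi.basisFun F (Fin (m + 3))).linearIndependent.comp (Fin.castLE (by omega : 3 ≤ m + 3))
      (Fin.castLE_injective _)
    convert this using 1
    ext1 i
    fin_cases i <;> simp <;> rfl
  obtain ⟨x, hx⟩ := exists_SL_family (by simp; omega) hli hz
  obtain ⟨y, hy⟩ := exists_SL_family (by simp; omega) hli hz'
  have hx0 := hx 0
  have hx1 := hx 1
  have hx2 := hx 2
  have hy0 := hy 0
  have hy1 := hy 1
  have hy2 := hy 2
  simp only [cons_val_zero, cons_val_one, cons_val_two, head_cons, tail_cons] at hx0 hx1 hx2 hy0 hy1 hy2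
  obtain ⟨k, hk, p, hp, e⟩ := dc_eq_one_SL h x y
  have hs : ∑ _i : Fin (m + 3), 1 = m + 3 := by simp
  refine ⟨k, hk, p.1 0 1, p.1 1 1, p.1 0 0, p.1 0 2, p.1 1 2, p.1 2 2, ?_, ?_, ?_⟩
  · conv_lhs => rw [← hx0]
    rw [mulVec_mulVec, e, ← mulVec_mulVec, col_one fun i hi =>
      parabolic_psum hs hp 1 (by simp [psum_ones]) (by rwa [psum_ones (by omega)]), mulVec_smul, hy0]
  · conv_lhs => rw [← hx1]
    rw [mulVec_mulVec, e, ← mulVec_mulVec, col_two fun i hi =>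
      parabolic_psum hs hp 2 (by simp [psum_ones]) (by rwa [psum_ones (by omega)]), mulVec_add,
      mulVec_smul, mulVec_smul, hy0, hy1]
  · rw [← hx2, mulVec_mulVec, e, ← mulVec_mulVec, col_three fun i hi =>
      parabolic_psum hs hp 3 (by rw [psum_ones (by omega), e2]; omega)
        (by rwa [psum_ones (by omega)]),
      mulVec_add, mulVec_add, mulVec_smul, mulVec_smul, mulVec_smul, hy0, hy1, hy2]

theorem dc_pt_of_ptTr (h : PtTr K) : dc K (mu3 m 1 (m + 2) 0) = 1 := by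
  have hμ : ∑ i, mu3 m 1 (m + 2) 0 i = m + 3 := by rw [sum_mu3]; omega
  refine Nat.card_eq_one_iff_unique.2 ⟨⟨fun a b => ?_⟩, inferInstance⟩
  induction a using Quotient.inductionOn with | _ x =>
  induction b using Quotient.inductionOn with | _ y =>
  have hne : ∀ x : GL (Fin (m + 3)) F, x.1 *ᵥ Pi.single 0 1 ≠ 0 := fun x h0 =>
    single_ne_zero' (F := F) (0 : Fin (m + 3)) (by
      rw [← one_mulVec (Pi.single 0 1), ← x.inv_val, ← mulVec_mulVec, h0, mulVec_zero])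
  obtain ⟨k, hk, c, e⟩ := h _ _ (hne x) (hne y)
  refine Quotient.sound (DoubleCoset.rel_iff.2 ⟨SpecialLinearGroup.toGL k, ⟨k, hk, rfl⟩,
    (y⁻¹ * SpecialLinearGroup.toGL k * x)⁻¹, inv_mem ?_, by group⟩)
  have e1 : (y⁻¹ * SpecialLinearGroup.toGL k * x).1 *ᵥ Pi.single 0 1 = c • Pi.single 0 1 := by
    rw [Units.val_mul, Units.val_mul, ← mulVec_mulVec, ← mulVec_mulVec]
    change _ *ᵥ k.1 *ᵥ _ = _
    rw [e, mulVec_smul, mulVec_mulVec, Units.inv_mul, one_mulVec]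
  rw [mem_parabolicGL]
  intro i j hij
  have h1 := (le_compLabel_iff hμ i 2).not.2 (by rw [psum_mu3_two]; omega)
  have h2 := (le_compLabel_iff hμ j 1).not.1 (by omega)
  have h3 := (le_compLabel_iff hμ i 1).1 (by omega)
  rw [psum_mu3_one] at h2 h3
  have hj : j = 0 := Fin.ext (by rw [Fin.val_zero]; omega)
  have hi : i ≠ 0 := fun e => by simp [e] at h3
  have := congrFun e1 i
  rw [mulVec_single_one] at this
  simpa [hj, hi] using this

/-- image of a subspace -/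
def img {ι : Type*} [Fintype ι] [DecidableEq ι] (k : SpecialLinearGroup ι F)
    (L : Submodule F (ι → F)) : Submodule F (ι → F) := L.map (toLin' k.1)

theorem span_one_mul {μ : Fin (m + 3) → ℕ} (hμ : ∑ i, μ i = m + 3) {k : ℕ} (hk : psum μ k = 1)
    {p : GL (Fin (m + 3)) F} (hp : p ∈ parabolicGL _ F μ) (g : GL (Fin (m + 3)) F) :
    F ∙ ((g * p).1 *ᵥ Pi.single 0 1) = F ∙ (g.1 *ᵥ Pi.single 0 1) := by
  suffices ∀ p ∈ parabolicGL _ F μ, ∀ g : GL (Fin (m + 3)) F,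
      F ∙ ((g * p).1 *ᵥ Pi.single 0 1) ≤ F ∙ (g.1 *ᵥ Pi.single 0 1) from
    le_antisymm (this p hp g) (by simpa using this p⁻¹ (inv_mem hp) (g * p))
  intro p hp g
  rw [Submodule.span_singleton_le_iff_mem, Units.val_mul, ← mulVec_mulVec, col_one fun i hi =>
    parabolic_psum hμ hp k (by simp [hk]) (by rwa [hk]), mulVec_smul]
  exact Submodule.smul_mem _ _ (Submodule.mem_span_singleton_self _)

theorem span_two_mul {μ : Fin (m + 3) → ℕ} (hμ : ∑ i, μ i = m + 3) {k : ℕ} (hk : psum μ k = 2)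
    {p : GL (Fin (m + 3)) F} (hp : p ∈ parabolicGL _ F μ) (g : GL (Fin (m + 3)) F) :
    Submodule.span F {(g * p).1 *ᵥ Pi.single 0 1, (g * p).1 *ᵥ Pi.single 1 1} =
      Submodule.span F {g.1 *ᵥ Pi.single 0 1, g.1 *ᵥ Pi.single 1 1} := by
  suffices ∀ p ∈ parabolicGL _ F μ, ∀ g : GL (Fin (m + 3)) F,
      Submodule.span F {(g * p).1 *ᵥ Pi.single 0 1, (g * p).1 *ᵥ Pi.single 1 1} ≤
      Submodule.span F {g.1 *ᵥ Pi.single 0 1, g.1 *ᵥ Pi.single 1 1} from
    le_antisymm (this p hp g) (by simpa using this p⁻¹ (inv_mem hp) (g * p))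
  intro p hp g
  rw [Submodule.span_le]
  rintro _ (rfl | rfl) <;>
  · rw [Units.val_mul, ← mulVec_mulVec, col_two fun i hi =>
      parabolic_psum hμ hp k (by simp [hk]) (by rwa [hk]), mulVec_add, mulVec_smul, mulVec_smul]
    exact Submodule.mem_span_pair.2 ⟨_, _, rfl⟩

theorem card_le_dc_line [Finite F] {α : Type*} (J : Submodule F (Fin (m + 3) → F) → α)
    (hJ : ∀ k ∈ K, ∀ L, J (img k L) = J L) (s : Finset α)
    (hs : ∀ a ∈ s, ∃ u w, u ≠ 0 ∧ (∀ c : F, w ≠ c • u) ∧ J (Submodule.span F {u, w}) = a) :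
    s.card ≤ dc K (mu3 m 2 (m + 1) 0) := by
  refine card_le_dc K _ (fun g => J (Submodule.span F {g.1 *ᵥ Pi.single 0 1, g.1 *ᵥ Pi.single 1 1}))
    (fun k hk g => ?_) (fun p hp g => ?_) s fun a ha => ?_
  · rw [← hJ k hk (Submodule.span F {g.1 *ᵥ Pi.single 0 1, g.1 *ᵥ Pi.single 1 1}), img,
      Submodule.map_span, Set.image_pair, toLin'_apply, toLin'_apply, mulVec_mulVec, mulVec_mulVec]
    rfl
  · rw [span_two_mul (by rw [sum_mu3]; omega) (psum_mu3_one _ _ _ _) hp]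
  · obtain ⟨u, w, hu, hw, rfl⟩ := hs a ha
    obtain ⟨x, hx, hx'⟩ := exists_SL_pair (by simp) (single_ne_zero' 0) single_one_ne hu hw
    exact ⟨SpecialLinearGroup.toGL x, by rw [← hx, ← hx']; rfl⟩

theorem card_le_dc_ptline [Finite F] {α : Type*}
    (J : Submodule F (Fin (m + 3) → F) → Submodule F (Fin (m + 3) → F) → α)
    (hJ : ∀ k ∈ K, ∀ P L, J (img k P) (img k L) = J P L) (s : Finset α)
    (hs : ∀ a ∈ s, ∃ u w, u ≠ 0 ∧ (∀ c : F, w ≠ c • u) ∧
      J (F ∙ u) (Submodule.span F {u, w}) = a) :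
    s.card ≤ dc K (mu3 m 1 1 (m + 1)) := by
  refine card_le_dc K _ (fun g => J (F ∙ (g.1 *ᵥ Pi.single 0 1))
    (Submodule.span F {g.1 *ᵥ Pi.single 0 1, g.1 *ᵥ Pi.single 1 1}))
    (fun k hk g => ?_) (fun p hp g => ?_) s fun a ha => ?_
  · rw [← hJ k hk _ (Submodule.span F {g.1 *ᵥ Pi.single 0 1, g.1 *ᵥ Pi.single 1 1}), img, img,
      Submodule.map_span, Submodule.map_span, Set.image_pair, Set.image_singleton,
      toLin'_apply, toLin'_apply, mulVec_mulVec, mulVec_mulVec]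
    rfl
  · rw [span_two_mul (by rw [sum_mu3]; omega) (psum_mu3_two _ _ _ _) hp,
      span_one_mul (by rw [sum_mu3]; omega) (psum_mu3_one _ _ _ _) hp]
  · obtain ⟨u, w, hu, hw, rfl⟩ := hs a ha
    obtain ⟨x, hx, hx'⟩ := exists_SL_pair (by simp) (single_ne_zero' 0) single_one_ne hu hw
    exact ⟨SpecialLinearGroup.toGL x, by rw [← hx, ← hx']; rfl⟩

end Cfsg.Agent.R3L
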