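import Cfsg.Agent.Lib.R3L.McL
import Cfsg.Agent.Lib.R3L.Trans

/-!
# Point stabilizers containing transvections
-/

set_option autoImplicit false

namespace Cfsg.Agent.R3L

open Matrix SLn
open scoped MatrixGroups

variable {ι F : Type*} [Fintype ι] [DecidableEq ι] [Field F]

theorem dot_conj (k : SpecialLinearGroup ι F) (φ w : ι → F) :
    (φ ᵥ* (k⁻¹ : SpecialLinearGroup ι F).1) ⬝ᵥ (k.1 *ᵥ w) = φ ⬝ᵥ w := by
  rw [dotProduct_mulVec, vecMul_vecMul, coe_inv_mul, vecMul_one]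

theorem mcL_hasTv {K : Subgroup (SpecialLinearGroup ι F)} (h1 : PtTr K) (h2 : HypTr K)
    (h3 : ∃ w φ, w ≠ 0 ∧ φ ≠ 0 ∧ HasTv K w φ) : McL (HasTv K) where
  dot := HasTv.dot
  zero_left := HasTv.zero_left
  zero_right := HasTv.zero_right
  add_left := HasTv.add_left
  add_right := HasTv.add_right
  neg := HasTv.neg_right
  swap := HasTv.smul_swap
  comm := HasTv.comm_left
  tr_pt v v' hv hv' := by
    obtain ⟨k, hk, c, e⟩ := h1 v v' hv hv'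
    exact ⟨mulVecLin k.1, vecMulLinear (k⁻¹).1, dot_conj k, fun w φ h => h.conj hk, c, e⟩
  tr_hyp v v' hv hv' := by
    obtain ⟨k, hk, c, e⟩ := h2 v v' hv hv'
    exact ⟨mulVecLin (k⁻¹).1, vecMulLinear k.1, fun φ w => by simpa using dot_conj k⁻¹ φ w,
      fun w φ h => h.conj_inv hk, c, e⟩
  ex := h3

/-- there is no null polarity in dimension five -/
theorem no_polarity_five (hn : Fintype.card ι = 5) (ax : (ι → F) → ι → F)
    (h0 : ∀ v, v ≠ 0 → ax v ≠ 0) (h1 : ∀ v, ax v ⬝ᵥ v = 0)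
    (h2 : ∀ v w, v ≠ 0 → w ≠ 0 → ax v ⬝ᵥ w = 0 → ax w ⬝ᵥ v = 0) : False := by
  have hex : ∀ s : Fin 4 → ι → F, ∃ z : ι → F, z ≠ 0 ∧ ∀ i, s i ⬝ᵥ z = 0 := by
    intro s
    obtain ⟨z, hz, hz'⟩ := (Submodule.ne_bot_iff _).1 (LinearMap.ker_ne_bot_of_finrank_lt
      (f := mulVecLin (of s)) (by simp [hn]))
    exact ⟨z, hz', fun i => congrFun hz i⟩
  obtain ⟨v₁, hv₁, -⟩ := hex 0
  obtain ⟨w₁, hw₁⟩ := exists_dot_ne_zero (h0 v₁ hv₁)
  have hw₁0 : w₁ ≠ 0 := by rintro rfl; simp at hw₁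
  have hw₁' : ax w₁ ⬝ᵥ v₁ ≠ 0 := fun h => hw₁ (h2 _ _ hw₁0 hv₁ h)
  obtain ⟨v₂, hv₂, hs⟩ := hex ![ax v₁, ax w₁, 0, 0]
  have a1 : ax v₁ ⬝ᵥ v₂ = 0 := hs 0
  have a2 : ax w₁ ⬝ᵥ v₂ = 0 := hs 1
  obtain ⟨y, hy⟩ := exists_dot_ne_zero (h0 v₂ hv₂)
  let w₂ := y - (ax w₁ ⬝ᵥ y / ax w₁ ⬝ᵥ v₁) • v₁ - (ax v₁ ⬝ᵥ y / ax v₁ ⬝ᵥ w₁) • w₁
  have b1 : ax v₁ ⬝ᵥ w₂ = 0 := by
    simp only [w₂, dotProduct_sub, dotProduct_smul, h1, smul_eq_mul]
    field_simp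
    ring
  have b2 : ax w₁ ⬝ᵥ w₂ = 0 := by
    simp only [w₂, dotProduct_sub, dotProduct_smul, h1, smul_eq_mul]
    field_simp
    ring
  have b3 : ax v₂ ⬝ᵥ w₂ ≠ 0 := by
    simpa only [w₂, dotProduct_sub, dotProduct_smul, h2 _ _ hv₁ hv₂ a1, h2 _ _ hw₁0 hv₂ a2,
      smul_zero, sub_zero] using hy
  have hw₂0 : w₂ ≠ 0 := by intro h; rw [h] at b3; simp at b3
  have b4 : ax w₂ ⬝ᵥ v₂ ≠ 0 := fun h => b3 (h2 _ _ hw₂0 hv₂ h)
  obtain ⟨z, hz, hs⟩ := hex ![ax v₁, ax w₁, ax v₂, ax w₂]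
  have c1 : ax v₁ ⬝ᵥ z = 0 := hs 0
  have c2 : ax w₁ ⬝ᵥ z = 0 := hs 1
  have c3 : ax v₂ ⬝ᵥ z = 0 := hs 2
  have c4 : ax w₂ ⬝ᵥ z = 0 := hs 3
  have hli : LinearIndependent F ![v₁, w₁, v₂, w₂, z] := by
    rw [Fintype.linearIndependent_iff]
    intro g hg
    simp only [Fin.sum_univ_five, cons_val_zero, cons_val_one, cons_val] at hg
    have e1 := congrArg (ax v₁ ⬝ᵥ ·) hg
    have e2 := congrArg (ax w₁ ⬝ᵥ ·) hg
    have e3 := congrArg (ax v₂ ⬝ᵥ ·) hg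
    have e4 := congrArg (ax w₂ ⬝ᵥ ·) hg
    simp only [dotProduct_add, dotProduct_smul, h1, a1, a2, b1, b2, c1, c2, c3, c4,
      h2 _ _ hv₁ hv₂ a1, h2 _ _ hw₁0 hv₂ a2, h2 _ _ hv₁ hw₂0 b1, h2 _ _ hw₁0 hw₂0 b2, smul_eq_mul,
      mul_zero, add_zero, zero_add, dotProduct_zero, mul_eq_zero, hw₁, hw₁', b3, b4,
      or_false] at e1 e2 e3 e4
    rw [e1, e2, e3, e4] at hg
    simp only [zero_smul, zero_add, smul_eq_zero, hz, or_false] at hg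
    intro i
    fin_cases i <;> assumption
  obtain ⟨u, hu⟩ := exists_dot_ne_zero (h0 z hz)
  have hsp := hli.span_eq_top_of_card_eq_finrank' (by simp [hn])
  apply hu
  have hu' : u ∈ Submodule.span F (Set.range ![v₁, w₁, v₂, w₂, z]) := hsp ▸ Submodule.mem_top
  refine (Submodule.span_le (p := kerv (ax z))).2 ?_ hu'
  rintro _ ⟨i, rfl⟩
  fin_cases i
  · exact h2 _ _ hv₁ hz c1
  · exact h2 _ _ hw₁0 hz c2
  · exact h2 _ _ hv₂ hz c3
  · exact h2 _ _ hw₂0 hz c4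
  · exact h1 z

/-- incident pairs -/
def Inc (ι F : Type*) [Fintype ι] [Field F] :=
  {p : (ι → F) × (ι → F) // p.1 ≠ 0 ∧ p.2 ≠ 0 ∧ p.2 ⬝ᵥ p.1 = 0}

instance instActInc : MulAction (SpecialLinearGroup ι F) (Inc ι F) where
  smul g p := ⟨(g.1 *ᵥ p.1.1, p.1.2 ᵥ* (g⁻¹).1), SL_mulVec_ne_zero g p.2.1,
    SL_vecMul_ne_zero _ p.2.2.1, by rw [dot_conj]; exact p.2.2.2⟩
  one_smul p := Subtype.ext (Prod.ext (one_mulVec _) (by
    change p.1.2 ᵥ* (1⁻¹ : SpecialLinearGroup ι F).1 = _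
    rw [inv_one]; exact vecMul_one _))
  mul_smul g h p := Subtype.ext (Prod.ext (mulVec_mulVec _ _ _).symm (by
    change p.1.2 ᵥ* ((g * h)⁻¹).1 = (p.1.2 ᵥ* (h⁻¹).1) ᵥ* (g⁻¹).1
    rw [_root_.mul_inv_rev, vecMul_vecMul]; rfl))

theorem smul_Inc (g : SpecialLinearGroup ι F) (p : Inc ι F) :
    (g • p).1 = (g.1 *ᵥ p.1.1, p.1.2 ᵥ* (g⁻¹).1) := rfl

theorem card_le_inf_kerv [Finite F] (W : Submodule F (ι → F)) (ψ : ι → F) :
    Nat.card W ≤ Nat.card (W ⊓ kerv ψ : Submodule F (ι → F)) * Nat.card F := by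
  by_cases h : ∃ w ∈ W, ψ ⬝ᵥ w ≠ 0
  · obtain ⟨w, hw, h⟩ := h
    exact (card_inf_kerv_mul W hw h).ge
  · push Not at h
    rw [inf_eq_left.2 (show W ≤ kerv ψ from h)]
    exact Nat.le_mul_of_pos_right _ Nat.card_pos

theorem eq_top_of_hasTv [Fintype F] [DecidableEq F] (hn : 5 ≤ Fintype.card ι)
    {K : Subgroup (SpecialLinearGroup ι F)} (h1 : PtTr K) (h2 : HypTr K)
    (h3 : ∃ w φ, w ≠ 0 ∧ φ ≠ 0 ∧ HasTv K w φ)
    (hD : ∀ g : SpecialLinearGroup ι F, ∃ t₁ t₂ k, (t₁ = 1 ∨ IsTv t₁) ∧ (t₂ = 1 ∨ IsTv t₂) ∧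
      k ∈ K ∧ g = t₁ * t₂ * k) : K = ⊤ := by
  classical
  have hM := mcL_hasTv h1 h2 h3
  rcases hM.result (by omega) with hall | ⟨hu1, hu2⟩
  · exact eq_top_of_hasTv_single K fun i j hij t => hall _ _ (by simp [hij.symm])
  exfalso
  have hex : ∀ v : ι → F, ∃ φ, HasTv K v φ ∧ (v ≠ 0 → φ ≠ 0) := by
    intro v
    by_cases hv : v = 0
    · exact ⟨0, HasTv.zero_right v, fun h => absurd hv h⟩
    · obtain ⟨φ, h1, h2⟩ := hM.exists_axis hv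
      exact ⟨φ, h2, fun _ => h1⟩
  choose ax hax hax0 using hex
  have hsymm : ∀ v w, v ≠ 0 → w ≠ 0 → ax v ⬝ᵥ w = 0 → ax w ⬝ᵥ v = 0 := fun v w hv hw h =>
    hM.polar_symm hu2 hw (hax0 v hv) (hax w) (hax v) h
  rcases hn.eq_or_lt with hn5 | hn6
  · exact no_polarity_five hn5.symm ax hax0 (fun v => (hax v).dot) hsymm
  set q := Fintype.card F with hq
  have hq1 : 1 < q := Fintype.one_lt_card
  let _ : Fintype (Inc ι F) := Subtype.fintype _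
  have : MulAction.IsPretransitive (SpecialLinearGroup ι F) (Inc ι F) := ⟨fun p p' => by
    obtain ⟨g, e1, e2⟩ := exists_SL_incident (by omega) p.2.1 p.2.2.1 p.2.2.2 p'.2.1 p'.2.2.1
      p'.2.2.2
    exact ⟨g, Subtype.ext (Prod.ext e1 (vecMul_inv_of_eq e2))⟩⟩
  let S : Finset (Inc ι F) := Finset.univ.filter fun p => ∃ c : F, p.1.2 = c • ax p.1.1
  have hSk : ∀ k ∈ K, ∀ p ∈ S, k • p ∈ S := by
    intro k hk p hp
    simp only [S, Finset.mem_filter, Finset.mem_univ, true_and] at hp ⊢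
    obtain ⟨c, hc⟩ := hp
    obtain ⟨d, hd⟩ := hu1 _ _ _ (SL_mulVec_ne_zero k p.2.1) (hax0 _ (SL_mulVec_ne_zero k p.2.1))
      (hax _) ((hax p.1.1).conj hk)
    refine ⟨c * d, ?_⟩
    rw [smul_Inc, hc, smul_vecMul, hd, mul_smul]
  have hmk : ∀ p : (ι → F) × Fˣ, ∃ s : Inc ι F, p.1 ≠ 0 → s.1 = (p.1, p.2.1 • ax p.1) := by
    intro p
    by_cases h : p.1 = 0
    · obtain ⟨w, φ, hw, hφ, h'⟩ := h3
      exact ⟨⟨(w, φ), hw, hφ, h'.dot⟩, fun h0 => absurd h h0⟩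
    · exact ⟨⟨(p.1, p.2.1 • ax p.1), h, smul_ne_zero p.2.ne_zero (hax0 _ h), by
        simp [(hax p.1).dot]⟩, fun _ => rfl⟩
  choose mk hmk using hmk
  have hmem : ∀ p, p ∈ S ↔ ∃ c : F, p.1.2 = c • ax p.1.1 := fun p => by
    rw [Finset.mem_filter]; simp
  have hS : S.card ≤ (q ^ Fintype.card ι - 1) * (q - 1) := by
    rw [← card_ne_zero_vec, ← Fintype.card_units, ← Finset.card_univ, ← Finset.card_product]
    refine Finset.card_le_card_of_surjOn mk fun p hp => ?_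
    obtain ⟨c, hc⟩ := (hmem p).1 hp
    have hc0 : c ≠ 0 := by
      rintro rfl
      exact p.2.2.1 (by rw [hc, zero_smul])
    refine ⟨(p.1.1, Units.mk0 c hc0), by simpa using p.2.1, Subtype.ext ?_⟩
    rw [hmk _ p.2.1]
    exact Prod.ext rfl hc.symm
  have hΩ : Fintype.card (Inc ι F) = (q ^ Fintype.card ι - 1) * (q ^ (Fintype.card ι - 1) - 1) := by
    change Fintype.card {p : (ι → F) × (ι → F) // p.1 ≠ 0 ∧ p.2 ≠ 0 ∧ p.2 ⬝ᵥ p.1 = 0} = _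
    rw [Fintype.card_subtype, Finset.card_eq_sum_card_fiberwise (f := Prod.fst)
      (t := Finset.univ.filter fun v => v ≠ 0) (fun p hp => by simpa using (Finset.mem_filter.1 hp).2.1),
      Finset.sum_congr rfl (g := fun _ => q ^ (Fintype.card ι - 1) - 1), Finset.sum_const,
      card_ne_zero_vec, smul_eq_mul]
    intro v hv
    have hv0 : v ≠ 0 := (Finset.mem_filter.1 hv).2
    rw [← card_filter_dot hv0, ← Finset.card_erase_of_mem (a := 0) (by simp)]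
    refine Finset.card_bij (fun p _ => p.2) ?_ ?_ ?_
    · rintro ⟨a, b⟩ hp
      simp only [Finset.mem_filter, Finset.mem_univ, true_and] at hp
      obtain ⟨⟨-, h1, h2⟩, rfl⟩ := hp
      simpa [h1, dotProduct_comm] using h2
    · rintro ⟨a, b⟩ hp ⟨c, d⟩ hp' h
      simp only [Finset.mem_filter] at hp hp' h
      rw [hp.2, hp'.2, h]
    · intro φ hφ
      simp only [Finset.mem_erase, Finset.mem_filter, Finset.mem_univ, true_and] at hφ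
      exact ⟨(v, φ), by simpa [hv0, hφ.1, dotProduct_comm] using hφ.2, rfl⟩
  obtain ⟨g, hg⟩ := exists_inter_le (G := SpecialLinearGroup ι F) S
  obtain ⟨t₁, t₂, k, ht₁, ht₂, hk, rfl⟩ := hD g
  have htv : ∀ t : SpecialLinearGroup ι F, (t = 1 ∨ IsTv t) → ∃ w φ : ι → F, w ≠ 0 ∧
      t.1 = 1 + vecMulVec w φ := by
    rintro t (rfl | ⟨w, φ, hw, -, h⟩)
    · obtain ⟨w, -, hw, -⟩ := h3
      exact ⟨w, 0, hw, by simp⟩
    · exact ⟨w, φ, hw, h⟩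
  obtain ⟨w₁, φ₁, hw₁, e₁⟩ := htv t₁ ht₁
  obtain ⟨w₂, φ₂, hw₂, e₂⟩ := htv t₂ ht₂
  have hfix : ∀ (t : SpecialLinearGroup ι F) (w φ : ι → F), t.1 = 1 + vecMulVec w φ →
      ∀ p : Inc ι F, φ ⬝ᵥ p.1.1 = 0 → p.1.2 ⬝ᵥ w = 0 → t • p = p := by
    intro t w φ e p h1 h2
    refine Subtype.ext (Prod.ext ?_ ?_)
    · simp [smul_Inc, e, add_mulVec, vecMulVec_mulVec, h1]
    · simp only [smul_Inc]
      rw [(inv_coe_of_eq e).2]
      simp [vecMul_add, vecMul_neg, vecMul_vecMulVec, h2]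
  let W : Submodule F (ι → F) := (((⊤ ⊓ kerv φ₁) ⊓ kerv φ₂) ⊓ kerv (ax w₁)) ⊓ kerv (ax w₂)
  have hW : q ^ 2 ≤ Nat.card W := by
    have a1 := card_le_inf_kerv ⊤ φ₁
    have a2 := card_le_inf_kerv (⊤ ⊓ kerv φ₁) φ₂
    have a3 := card_le_inf_kerv ((⊤ ⊓ kerv φ₁) ⊓ kerv φ₂) (ax w₁)
    have a4 := card_le_inf_kerv (((⊤ ⊓ kerv φ₁) ⊓ kerv φ₂) ⊓ kerv (ax w₁)) (ax w₂)
    rw [Nat.card_eq_fintype_card (α := F), ← hq] at a1 a2 a3 a4
    have a0 : Nat.card (⊤ : Submodule F (ι → F)) = q ^ Fintype.card ι := by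
      rw [Nat.card_congr Submodule.topEquiv.toEquiv, Nat.card_eq_fintype_card, Fintype.card_fun]
    have a5 : q ^ 6 ≤ q ^ Fintype.card ι := Nat.pow_le_pow_right (by omega) hn6
    have a6 : q ^ 2 * q ^ 4 ≤ Nat.card W * q ^ 4 := by
      calc q ^ 2 * q ^ 4 = q ^ 6 := by ring
        _ ≤ _ := a5
        _ ≤ _ := a0.ge
        _ ≤ _ := a1
        _ ≤ _ := Nat.mul_le_mul_right _ a2
        _ ≤ _ := Nat.mul_le_mul_right _ (Nat.mul_le_mul_right _ a3)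
        _ ≤ _ := Nat.mul_le_mul_right _ (Nat.mul_le_mul_right _ (Nat.mul_le_mul_right _ a4))
        _ = _ := by ring
    exact Nat.le_of_mul_le_mul_right a6 (by positivity)
  have hlow : (q ^ 2 - 1) * (q - 1) ≤ (S.filter fun s => (t₁ * t₂ * k) • s ∈ S).card := by
    have b1 : q ^ 2 - 1 ≤ (Finset.univ.filter fun v : ι → F => v ≠ 0 ∧ v ∈ W).card := by
      rw [Nat.card_eq_fintype_card, Fintype.card_subtype,
        ← Finset.card_erase_add_one (a := 0) (by simp)] at hW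
      have : (Finset.univ.filter fun v : ι → F => v ∈ W).erase 0 =
          Finset.univ.filter fun v : ι → F => v ≠ 0 ∧ v ∈ W := by ext; simp
      rw [this] at hW
      omega
    refine (Nat.mul_le_mul_right _ b1).trans ?_
    rw [← Fintype.card_units, ← Finset.card_univ, ← Finset.card_product]
    refine Finset.card_le_card_of_injOn (fun p => k⁻¹ • mk p) (fun p hp => ?_) ?_
    · simp only [Finset.coe_product, Finset.coe_filter, Finset.mem_univ, true_and, Set.mem_prod,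
        Set.mem_ofPred_eq] at hp
      obtain ⟨⟨h0, ⟨⟨⟨-, c1⟩, c2⟩, c3⟩, c4⟩, -⟩ := hp
      simp only [Finset.coe_filter, Set.mem_ofPred_eq]
      have hin : mk p ∈ S := (hmem _).2 ⟨p.2.1, by rw [hmk p h0]⟩
      refine ⟨hSk _ (inv_mem hk) _ hin, ?_⟩
      rw [mul_smul, smul_inv_smul, mul_smul, hfix t₂ w₂ φ₂ e₂ _ (by rw [hmk p h0]; exact c2) (by
        simp [hmk p h0, hsymm _ _ hw₂ h0 c4]), hfix t₁ w₁ φ₁ e₁ _ (by rw [hmk p h0]; exact c1)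
        (by simp [hmk p h0, hsymm _ _ hw₁ h0 c3])]
      exact hin
    · intro p hp p' hp' e
      simp only [Finset.coe_product, Finset.coe_filter, Finset.mem_univ, true_and, Set.mem_prod,
        Set.mem_ofPred_eq] at hp hp'
      simp only at e
      rw [smul_left_cancel_iff] at e
      have e' := congrArg Subtype.val e
      rw [hmk _ hp.1.1, hmk _ hp'.1.1] at e'
      have e1 : p.1 = p'.1 := (Prod.ext_iff.1 e').1
      have e2 : p.2.1 • ax p.1 = p'.2.1 • ax p'.1 := (Prod.ext_iff.1 e').2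
      rw [← e1] at e2
      exact Prod.ext e1 (Units.ext (smul_left_injective F (hax0 _ hp.1.1) e2))
  rw [hΩ] at hg
  have h4 := (Nat.mul_le_mul_right _ hlow).trans (hg.trans (Nat.pow_le_pow_left hS 2))
  obtain ⟨n, hn'⟩ : ∃ n, Fintype.card ι = n + 2 := ⟨Fintype.card ι - 2, by omega⟩
  rw [hn', show n + 2 - 1 = n + 1 by omega] at h4
  have h5 : q ^ 1 ≤ q ^ n := Nat.pow_le_pow_right (by omega) (by omega)
  zify [Nat.one_le_pow _ _ (zero_lt_one.trans hq1), hq1.le] at h4 h5 hq1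
  set Q : ℤ := (q : ℤ) ^ n
  have e1 : (q : ℤ) ^ (n + 2) = Q * q ^ 2 := by ring
  have e2 : (q : ℤ) ^ (n + 1) = Q * q := by ring
  rw [e1, e2] at h4
  have h6 : 0 < Q * q ^ 2 - 1 := by nlinarith
  have h7 : 0 < ((q : ℤ) - 1) ^ 2 * (Q * q ^ 2 - 1) := mul_pos (by nlinarith) h6
  have h8 : ((q : ℤ) - 1) ^ 2 * (Q * q ^ 2 - 1) * ((q + 1) * (Q * q - 1)) ≤
      ((q : ℤ) - 1) ^ 2 * (Q * q ^ 2 - 1) * (Q * q ^ 2 - 1) := by
    calc _ = ((q : ℤ) ^ 2 - 1) * (q - 1) * ((Q * q ^ 2 - 1) * (Q * q - 1)) := by ring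
      _ ≤ _ := h4
      _ = _ := by ring
  have h9 := le_of_mul_le_mul_left h8 h7
  nlinarith

end Cfsg.Agent.R3L
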