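import Cfsg.Agent.Lib.R3L.Unip3

/-!
# Reducible point stabilizers
-/

set_option autoImplicit false

namespace Cfsg.Agent.R3L

open Matrix SLn Module Deg
open scoped MatrixGroups

section general

variable {ι F : Type*} [Fintype ι] [DecidableEq ι] [Field F] [Finite F]

/-- stabilizer of a subspace -/
def stabU (U : Submodule F (ι → F)) : Subgroup (SpecialLinearGroup ι F) :=
  let S : Submonoid (SpecialLinearGroup ι F) :=
    { carrier := {g | ∀ y ∈ U, g.1 *ᵥ y ∈ U}
      one_mem' := fun y hy => by simpa using hy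
      mul_mem' := fun {a b} ha hb y hy => by
        rw [Matrix.SpecialLinearGroup.coe_mul, ← mulVec_mulVec]
        exact ha _ (hb y hy) }
  { S with
    inv_mem' := fun {a} ha => by
      have : a⁻¹ = a ^ (orderOf a - 1) := by
        rw [eq_comm, ← mul_eq_one_iff_eq_inv, ← pow_succ, Nat.sub_add_cancel (orderOf_pos a),
          pow_orderOf_eq_one]
      rw [this]
      exact S.pow_mem ha _ }

theorem mem_stabU {U : Submodule F (ι → F)} {g : SpecialLinearGroup ι F} :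
    g ∈ stabU U ↔ ∀ y ∈ U, g.1 *ᵥ y ∈ U := Iff.rfl

theorem eq_stabU (hn : 2 ≤ Fintype.card ι) {K : Subgroup (SpecialLinearGroup ι F)}
    (hK : IsCoatom K) {U : Submodule F (ι → F)} (h : K ≤ stabU U) (h0 : U ≠ ⊥) (h1 : U ≠ ⊤) :
    K = stabU U := by
  by_contra hne
  have := hK.2 _ (lt_of_le_of_ne h hne)
  obtain ⟨u, hu, hu0⟩ := (Submodule.ne_bot_iff _).1 h0
  obtain ⟨y, -, hy⟩ := SetLike.exists_of_lt h1.lt_top
  obtain ⟨g, hg⟩ := exists_SL_mulVec hn hu0 (v' := y) (by rintro rfl; exact hy (zero_mem _))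
  exact hy (hg ▸ mem_stabU.1 (this ▸ Subgroup.mem_top g) u hu)

variable {X : Type*} [MulAction (SpecialLinearGroup ι F) X]
  [MulAction.IsPretransitive (SpecialLinearGroup ι F) X] {x : X}

theorem not_stab_point (hn : 3 ≤ Fintype.card ι)
    (h3 : Nat.card (MulAction.orbitRel.Quotient
      (MulAction.stabilizer (SpecialLinearGroup ι F) x) X) = 3) {u : ι → F} (hu : u ≠ 0)
    (h : MulAction.stabilizer (SpecialLinearGroup ι F) x = stabU (F ∙ u)) : False := by
  have key : ∀ g : SpecialLinearGroup ι F, g • x = x ↔ ∃ c : F, g.1 *ᵥ u = c • u := by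
    intro g
    rw [← MulAction.mem_stabilizer_iff, h, mem_stabU]
    constructor
    · intro hg
      obtain ⟨c, hc⟩ := Submodule.mem_span_singleton.1 (hg u (Submodule.mem_span_singleton_self u))
      exact ⟨c, hc.symm⟩
    · rintro ⟨c, hc⟩ y hy
      obtain ⟨d, rfl⟩ := Submodule.mem_span_singleton.1 hy
      exact Submodule.mem_span_singleton.2 ⟨d * c, by rw [mulVec_smul, hc, mul_smul]⟩
  refine not_rank_two x h3 fun y z hy hz => ?_
  obtain ⟨g, rfl⟩ := MulAction.exists_smul_eq (SpecialLinearGroup ι F) x y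
  obtain ⟨g', rfl⟩ := MulAction.exists_smul_eq (SpecialLinearGroup ι F) x z
  obtain ⟨k, h1, h2⟩ := exists_SL_pair hn hu (not_exists.1 ((key g).not.1 hy)) hu
    (not_exists.1 ((key g').not.1 hz))
  refine ⟨k, (key k).2 ⟨1, by rw [h1, one_smul]⟩, ?_⟩
  rw [← inv_smul_eq_iff, ← mul_smul, ← mul_smul, key]
  refine ⟨1, ?_⟩
  rw [Matrix.SpecialLinearGroup.coe_mul, Matrix.SpecialLinearGroup.coe_mul, ← mulVec_mulVec,
    ← mulVec_mulVec, h2, inv_mulVec_of_eq rfl, one_smul]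

theorem not_stab_hyp (hn : 3 ≤ Fintype.card ι)
    (h3 : Nat.card (MulAction.orbitRel.Quotient
      (MulAction.stabilizer (SpecialLinearGroup ι F) x) X) = 3) {φ : ι → F} (hφ : φ ≠ 0)
    (h : MulAction.stabilizer (SpecialLinearGroup ι F) x = stabU (kerv φ)) : False := by
  have key : ∀ g : SpecialLinearGroup ι F, g • x = x ↔ ∃ c : F, φ ᵥ* g.1 = c • φ := by
    intro g
    rw [← MulAction.mem_stabilizer_iff, h, mem_stabU]
    constructor
    · intro hg
      refine (exists_dot_eq_zero_dot_eq_one φ _).resolve_right ?_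
      rintro ⟨w, h1, h2⟩
      rw [← dotProduct_mulVec, mem_kerv.1 (hg w h1)] at h2
      exact zero_ne_one h2
    · rintro ⟨c, hc⟩ y hy
      rw [mem_kerv, dotProduct_mulVec, hc, smul_dotProduct, mem_kerv.1 hy, smul_zero]
  refine not_rank_two x h3 fun y z hy hz => ?_
  obtain ⟨g, rfl⟩ := MulAction.exists_smul_eq (SpecialLinearGroup ι F) x y
  obtain ⟨g', rfl⟩ := MulAction.exists_smul_eq (SpecialLinearGroup ι F) x z
  have hy' : ¬g⁻¹ • x = x := by rw [inv_smul_eq_iff]; exact hy.symm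
  have hz' : ¬g'⁻¹ • x = x := by rw [inv_smul_eq_iff]; exact hz.symm
  obtain ⟨k, h1, h2⟩ := exists_SL_pair_vecMul hn hφ (not_exists.1 ((key _).not.1 hz')) hφ
    (not_exists.1 ((key _).not.1 hy'))
  refine ⟨k, (key k).2 ⟨1, by rw [h1, one_smul]⟩, ?_⟩
  rw [← inv_smul_eq_iff, ← mul_smul, ← mul_smul, key]
  refine ⟨1, ?_⟩
  rw [Matrix.SpecialLinearGroup.coe_mul, Matrix.SpecialLinearGroup.coe_mul, ← vecMul_vecMul,
    ← vecMul_vecMul, h2, vecMul_vecMul, coe_inv_mul, vecMul_one, one_smul]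

omit [Finite F] in
theorem mem_img {k : SpecialLinearGroup ι F} {L : Submodule F (ι → F)} {y : ι → F} :
    y ∈ img k L ↔ (k⁻¹).1 *ᵥ y ∈ L := by
  constructor
  · rintro ⟨z, hz, rfl⟩
    rwa [toLin'_apply, inv_mulVec_of_eq rfl]
  · intro h
    exact ⟨_, h, by rw [toLin'_apply, mulVec_mulVec, coe_mul_inv, one_mulVec]⟩

omit [Finite F] in
theorem forall_img {k : SpecialLinearGroup ι F} {L : Submodule F (ι → F)} {p : (ι → F) → Prop} :
    (∀ y ∈ img k L, p y) ↔ ∀ y ∈ L, p (k.1 *ᵥ y) :=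
  ⟨fun h y hy => h _ ⟨y, hy, rfl⟩, by rintro h _ ⟨y, hy, rfl⟩; exact h y hy⟩

end general

variable {F : Type*} [Field F] {m : ℕ}

theorem three_le_dc [Finite F] {X : Type*} [MulAction (SpecialLinearGroup (Fin (m + 3)) F) X]
    [MulAction.IsPretransitive (SpecialLinearGroup (Fin (m + 3)) F) X] {x : X}
    (h3 : Nat.card (MulAction.orbitRel.Quotient
      (MulAction.stabilizer (SpecialLinearGroup (Fin (m + 3)) F) x) X) = 3)
    (hK : IsCoatom (MulAction.stabilizer (SpecialLinearGroup (Fin (m + 3)) F) x))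
    {U : Submodule F (Fin (m + 3) → F)}
    (h : MulAction.stabilizer (SpecialLinearGroup (Fin (m + 3)) F) x ≤ stabU U)
    (h0 : U ≠ ⊥) (h1 : U ≠ ⊤) :
    3 ≤ dc (MulAction.stabilizer (SpecialLinearGroup (Fin (m + 3)) F) x) (mu3 m 2 (m + 1) 0) := by
  classical
  have he := eq_stabU (by simp) hK h h0 h1
  obtain ⟨u, hu, hu0⟩ := (Submodule.ne_bot_iff _).1 h0
  obtain ⟨y, -, hy⟩ := SetLike.exists_of_lt h1.lt_top
  obtain ⟨w, hw, hw'⟩ : ∃ w ∈ U, w ∉ F ∙ u := by
    by_contra hc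
    push Not at hc
    exact not_stab_point (by simp) h3 hu0 (he.trans (congrArg stabU
      (le_antisymm hc ((Submodule.span_singleton_le_iff_mem _ _).2 hu))))
  obtain ⟨z, hz⟩ : ∃ z, z ∉ U ⊔ F ∙ y := by
    by_contra hc
    push Not at hc
    obtain ⟨ρ, a1, a2⟩ := exists_dot_of_notMem U hy
    refine not_stab_hyp (by simp) h3 (φ := ρ) (by rintro rfl; simp at a2)
      (he.trans (congrArg stabU (le_antisymm a1 fun z hz => ?_)))
    obtain ⟨a, ha, b, hb, rfl⟩ := Submodule.mem_sup.1 (hc z)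
    obtain ⟨c, rfl⟩ := Submodule.mem_span_singleton.1 hb
    rw [mem_kerv, dotProduct_add, a1 a ha, dotProduct_smul, a2, smul_eq_mul, mul_one,
      zero_add] at hz
    simpa [hz] using ha
  have hy0 : y ≠ 0 := by rintro rfl; exact hy (zero_mem _)
  have hns : ∀ {a b : Fin (m + 3) → F}, b ∉ F ∙ a → ∀ c : F, b ≠ c • a := fun h c e =>
    h (Submodule.mem_span_singleton.2 ⟨c, e.symm⟩)
  refine le_trans ?_ (card_le_dc_line (fun L => (∀ y ∈ L, y ∈ U, ∀ y ∈ L, y ∈ U → y = 0))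
    (fun k hk L => ?_) {(True, False), (False, False), (False, True)} ?_)
  · simp
  · have a1 : ∀ y, k.1 *ᵥ y ∈ U ↔ y ∈ U := fun y =>
      ⟨fun hy => inv_mulVec_of_eq (g := k) (v := y) rfl ▸ h (inv_mem hk) _ hy, h hk y⟩
    have a2 : ∀ y, k.1 *ᵥ y = 0 ↔ y = 0 := fun y =>
      ⟨fun hy => by_contra fun h => SL_mulVec_ne_zero k h hy, by rintro rfl; simp⟩
    simp only [forall_img, a1, a2]
  · intro a ha
    simp only [Finset.mem_insert, Finset.mem_singleton] at ha
    rcases ha with rfl | rfl | rfl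
    · refine ⟨u, w, hu0, hns hw', Prod.ext (eq_true fun y hy => ?_) (eq_false fun h => ?_)⟩
      · obtain ⟨a, b, rfl⟩ := Submodule.mem_span_pair.1 hy
        exact add_mem (U.smul_mem _ hu) (U.smul_mem _ hw)
      · exact hu0 (h u (Submodule.subset_span (by simp)) hu)
    · refine ⟨u, y, hu0, fun c e => hy (e ▸ U.smul_mem _ hu),
        Prod.ext (eq_false fun h => ?_) (eq_false fun h => ?_)⟩
      · exact hy (h y (Submodule.subset_span (by simp)))
      · exact hu0 (h u (Submodule.subset_span (by simp)) hu)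
    · refine ⟨y, z, hy0, hns fun h => hz (Submodule.mem_sup_right h),
        Prod.ext (eq_false fun h => ?_) (eq_true fun v hv hv' => ?_)⟩
      · exact hy (h y (Submodule.subset_span (by simp)))
      · obtain ⟨a, b, rfl⟩ := Submodule.mem_span_pair.1 hv
        have hb : b = 0 := by
          by_contra hb
          apply hz
          have : z = b⁻¹ • (a • y + b • z) - (b⁻¹ * a) • y := by
            rw [smul_add, inv_smul_smul₀ hb, mul_smul, add_sub_cancel_left]
          rw [this]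
          exact sub_mem (Submodule.mem_sup_left (U.smul_mem _ hv'))
            (Submodule.mem_sup_right (Submodule.mem_span_singleton.2 ⟨_, rfl⟩))
        have ha : a = 0 := by
          by_contra ha
          apply hy
          rw [hb, zero_smul, add_zero] at hv'
          exact (U.smul_mem_iff ha).1 hv'
        simp [ha, hb]

variable [Fintype F] {K : Subgroup (SpecialLinearGroup (Fin (m + 3)) F)}

theorem values_le {O : (Fin (m + 3) → F) → Prop} (hs : ∀ (c : F) v, c ≠ 0 → O v → O (c • v))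
    (h0 : ¬O 0) (hK : ∀ k ∈ K, ∀ y, O y → O (k.1 *ᵥ y)) (s : Finset (Prop × ℕ))
    (h : ∀ a ∈ s, ∃ (L : Submodule F (Fin (m + 3) → F)) (u : Fin (m + 3) → F), finrank F L = 2 ∧
      u ∈ L ∧ u ≠ 0 ∧ a = (O u, cnt L O)) : s.card ≤ dc K (mu3 m 1 1 (m + 1)) := by
  classical
  refine card_le_dc_ptline (fun P L => (¬∀ y ∈ P, ¬O y, cnt L O)) (fun k hk P L => ?_) s
    fun a ha => ?_
  · have a1 : ∀ y, O (k.1 *ᵥ y) ↔ O y := fun y =>
      ⟨fun hy => inv_mulVec_of_eq (g := k) (v := y) rfl ▸ hK _ (inv_mem hk) _ hy, hK k hk y⟩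
    simp only [forall_img, a1]
    congr 1
    symm
    refine Finset.card_bij (fun y _ => k.1 *ᵥ y) ?_ (fun _ _ _ _ => mulVec_SL_injective k) ?_
    · intro y hy
      simp only [Finset.mem_filter, Finset.mem_univ, true_and] at hy ⊢
      exact ⟨⟨y, hy.1, rfl⟩, (a1 y).2 hy.2⟩
    · intro y hy
      simp only [Finset.mem_filter, Finset.mem_univ, true_and] at hy
      obtain ⟨⟨z, hz, rfl⟩, h2⟩ := hy
      exact ⟨z, by simpa using ⟨hz, (a1 z).1 h2⟩, rfl⟩
  · obtain ⟨L, u, hL, hu, hu0, rfl⟩ := h a ha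
    obtain ⟨w, hw, rfl⟩ := exists_sup_eq hL hu hu0
    refine ⟨u, w, hu0, fun c e => hw (Submodule.mem_span_singleton.2 ⟨c, e.symm⟩), ?_⟩
    rw [Submodule.span_insert]
    refine Prod.ext (propext ⟨fun h => ?_, fun h h' => h' u (Submodule.mem_span_singleton_self u) h⟩)
      rfl
    by_contra hc
    exact h (cnt_eq_zero.1 (cnt_point_zero hs h0 hc))

theorem red_of_arc' (hm : 1 ≤ m) (h3 : dc K (mu3 m 1 1 (m + 1)) ≤ 3)
    {O : (Fin (m + 3) → F) → Prop} (hs : ∀ (c : F) v, c ≠ 0 → O v → O (c • v))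
    (h0 : ¬O 0) (hK : ∀ k ∈ K, ∀ y, O y → O (k.1 *ᵥ y)) {u y : Fin (m + 3) → F} (hu : O u)
    (hy : ¬O y) (hy0 : y ≠ 0)
    (hnf : ∀ L : Submodule F (Fin (m + 3) → F), finrank F L = 2 → ∃ z ∈ L, z ≠ 0 ∧ ¬O z) :
    ∃ U : Submodule F (Fin (m + 3) → F), K ≤ stabU U ∧ U ≠ ⊥ ∧ U ≠ ⊤ := by
  classical
  have hu0 : u ≠ 0 := by rintro rfl; exact h0 hu
  have huy : u ∉ F ∙ y := fun h => cnt_eq_zero.1 (cnt_point_zero hs h0 hy) u h hu
  have hL0 : finrank F ((F ∙ y) ⊔ F ∙ u : Submodule F (Fin (m + 3) → F)) = 2 := by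
    rw [Submodule.finrank_sup_span_singleton huy, finrank_span_singleton hy0]
  rcases arc (by simp; omega) hs h0 (M := cnt ((F ∙ y) ⊔ F ∙ u) O) (fun L hL => by
    by_contra hc
    push Not at hc
    obtain ⟨z, hz, hz0, hz'⟩ := hnf L hL
    have h1 := hc.1
    rw [Ne, cnt_eq_zero] at h1
    push Not at h1
    obtain ⟨v, hv, hv'⟩ := h1
    have := (values_le hs h0 hK {(True, cnt L O), (False, cnt L O),
      (True, cnt ((F ∙ y) ⊔ F ∙ u) O), (False, cnt ((F ∙ y) ⊔ F ∙ u) O)} (by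
        intro a ha
        simp only [Finset.mem_insert, Finset.mem_singleton] at ha
        rcases ha with rfl | rfl | rfl | rfl
        · exact ⟨L, v, hL, hv, by rintro rfl; exact h0 hv', by simp [hv']⟩
        · exact ⟨L, z, hL, hz, hz0, by simp [hz']⟩
        · exact ⟨_, u, hL0, Submodule.mem_sup_right (Submodule.mem_span_singleton_self _), hu0,
            by simp [hu]⟩
        · exact ⟨_, y, hL0, Submodule.mem_sup_left (Submodule.mem_span_singleton_self _), hy0,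
            by simp [hy]⟩)).trans h3
    rw [Finset.card_insert_of_notMem (by simp [hc.2]), Finset.card_insert_of_notMem (by simp [hc.2]),
      Finset.card_pair (by simp)] at this
    omega) hu hy hy0 with h | h
  · refine ⟨F ∙ u, fun k hk z hz => ?_, by simpa using hu0, fun e => hy ?_⟩
    · obtain ⟨c, rfl⟩ := Submodule.mem_span_singleton.1 hz
      obtain ⟨d, hd⟩ := h u _ hu (hK k hk u hu)
      exact Submodule.mem_span_singleton.2 ⟨c * d, by rw [mulVec_smul, hd, mul_smul]⟩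
    · obtain ⟨c, rfl⟩ := Submodule.mem_span_singleton.1 (e ▸ Submodule.mem_top (x := y))
      exact hs c u (left_ne_zero_of_smul hy0) hu
  · let U : Submodule F (Fin (m + 3) → F) :=
      { carrier := {z | ¬O z}
        zero_mem' := h0
        add_mem' := fun {a b} => h a b
        smul_mem' := fun c z hz h' => by
          by_cases hc : c = 0
          · exact h0 (by simpa [hc] using h')
          · exact hz (by simpa [hc] using hs c⁻¹ _ (inv_ne_zero hc) h') }
    refine ⟨U, fun k hk z hz h' => hz ?_, fun e => hy0 ?_, fun e => ?_⟩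
    · exact inv_mulVec_of_eq (g := k) (v := z) rfl ▸ hK _ (inv_mem hk) _ h'
    · exact (Submodule.mem_bot F).1 (e ▸ hy)
    · exact (e ▸ Submodule.mem_top (x := u) : u ∈ U) hu

theorem red_of_arc (hm : 1 ≤ m) (h3 : dc K (mu3 m 1 1 (m + 1)) ≤ 3) (hp : ¬PtTr K) :
    ∃ U : Submodule F (Fin (m + 3) → F), K ≤ stabU U ∧ U ≠ ⊥ ∧ U ≠ ⊤ := by
  classical
  unfold PtTr at hp
  push Not at hp
  obtain ⟨u, y, hu0, hy0, hp⟩ := hp
  let O : (Fin (m + 3) → F) → Prop := fun z => ∃ k ∈ K, ∃ c : F, c ≠ 0 ∧ z = c • k.1 *ᵥ u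
  have hs : ∀ (c : F) v, c ≠ 0 → O v → O (c • v) := by
    rintro c _ hc ⟨k, hk, d, hd, rfl⟩
    exact ⟨k, hk, c * d, mul_ne_zero hc hd, by rw [mul_smul]⟩
  have h0 : ¬O 0 := by
    rintro ⟨k, hk, c, hc, e⟩
    exact smul_ne_zero hc (SL_mulVec_ne_zero k hu0) e.symm
  have hK : ∀ k ∈ K, ∀ y, O y → O (k.1 *ᵥ y) := by
    rintro k hk _ ⟨k', hk', c, hc, rfl⟩
    exact ⟨k * k', mul_mem hk hk', c, hc, by rw [mulVec_smul, mulVec_mulVec]; rfl⟩
  have hu : O u := ⟨1, one_mem _, 1, one_ne_zero, by simp⟩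
  have hy : ¬O y := by
    rintro ⟨k, hk, c, hc, e⟩
    exact hp k hk c⁻¹ (by rw [e, inv_smul_smul₀ hc])
  by_cases hnf : ∀ L : Submodule F (Fin (m + 3) → F), finrank F L = 2 → ∃ z ∈ L, z ≠ 0 ∧ ¬O z
  · exact red_of_arc' hm h3 hs h0 hK hu hy hy0 hnf
  push Not at hnf
  obtain ⟨L₁, hL₁, hfull⟩ := hnf
  refine red_of_arc' hm h3 (O := fun z => z ≠ 0 ∧ ¬O z) (fun c v hc hv =>
    ⟨smul_ne_zero hc hv.1, fun h => hv.2 (by simpa [hc] using hs c⁻¹ _ (inv_ne_zero hc) h)⟩)
    (by simp) (fun k hk z hz => ⟨SL_mulVec_ne_zero k hz.1, fun h =>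
      hz.2 (inv_mulVec_of_eq (g := k) (v := z) rfl ▸ hK _ (inv_mem hk) _ h)⟩) ⟨hy0, hy⟩
    (fun h => h.2 hu) hu0 fun L hL => ?_
  by_contra hc
  push Not at hc
  have huy : u ∉ F ∙ y := fun h => cnt_eq_zero.1 (cnt_point_zero hs h0 hy) u h hu
  have hL0 : finrank F ((F ∙ y) ⊔ F ∙ u : Submodule F (Fin (m + 3) → F)) = 2 := by
    rw [Submodule.finrank_sup_span_singleton huy, finrank_span_singleton hy0]
  have hyL : y ∈ (F ∙ y) ⊔ F ∙ u := Submodule.mem_sup_left (Submodule.mem_span_singleton_self _)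
  have huL : u ∈ (F ∙ y) ⊔ F ∙ u := Submodule.mem_sup_right (Submodule.mem_span_singleton_self _)
  have hex : ∀ L : Submodule F (Fin (m + 3) → F), finrank F L = 2 → ∃ z ∈ L, z ≠ 0 := fun L hL =>
    (Submodule.ne_bot_iff _).1 (by rintro rfl; simp at hL)
  obtain ⟨z₁, hz₁, hz₁0⟩ := hex L₁ hL₁
  obtain ⟨z, hz, hz0⟩ := hex L hL
  have a1 : cnt L O = 0 := cnt_eq_zero.2 fun w hw h =>
    (hc w hw (by rintro rfl; exact h0 h)).2 h
  have a2 : cnt ((F ∙ y) ⊔ F ∙ u) O ≠ 0 := fun h => cnt_eq_zero.1 h u huL hu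
  have a3 : cnt ((F ∙ y) ⊔ F ∙ u) O ≠ cnt L₁ O := by
    have b : ∀ L : Submodule F (Fin (m + 3) → F), finrank F L = 2 →
        cnt L O + cnt (⊥ : Submodule F (Fin (m + 3) → F)) (fun z => ¬O z ∧ True) +
          cnt L (fun z => z ∉ (⊥ : Submodule F (Fin (m + 3) → F)) ∧ ¬O z ∧ True) =
          Fintype.card F ^ 2 := by
      intro L hL
      have b1 := cnt_split L (fun _ => True) O
      rw [cnt_true, hL, cnt_split' (bot_le (a := L)) (fun z => ¬O z ∧ True)] at b1
      rw [b1, add_assoc]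
      congr 1
      exact cnt_congr fun y => by simp
    have b1 := b _ hL0
    have b2 := b _ hL₁
    have b3 : cnt L₁ (fun z => z ∉ (⊥ : Submodule F (Fin (m + 3) → F)) ∧ ¬O z ∧ True) = 0 :=
      cnt_eq_zero.2 fun w hw h => h.2.1 (hfull w hw (by simpa using h.1))
    have b4 : cnt ((F ∙ y) ⊔ F ∙ u)
        (fun z => z ∉ (⊥ : Submodule F (Fin (m + 3) → F)) ∧ ¬O z ∧ True) ≠ 0 :=
      fun h => cnt_eq_zero.1 h y hyL ⟨by simpa using hy0, hy, trivial⟩
    omega
  have := (values_le hs h0 hK {(True, cnt L₁ O), (False, 0),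
    (True, cnt ((F ∙ y) ⊔ F ∙ u) O), (False, cnt ((F ∙ y) ⊔ F ∙ u) O)} (by
      intro a ha
      simp only [Finset.mem_insert, Finset.mem_singleton] at ha
      rcases ha with rfl | rfl | rfl | rfl
      · exact ⟨L₁, z₁, hL₁, hz₁, hz₁0, by simp [hfull z₁ hz₁ hz₁0]⟩
      · exact ⟨L, z, hL, hz, hz0, by simp [(hc z hz hz0).2, a1]⟩
      · exact ⟨_, u, hL0, huL, hu0, by simp [hu]⟩
      · exact ⟨_, y, hL0, hyL, hy0, by simp [hy]⟩)).trans h3
  rw [Finset.card_insert_of_notMem (by simp [a3.symm]),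
    Finset.card_insert_of_notMem (by simp [a2.symm]), Finset.card_pair (by simp)] at this
  omega

end Cfsg.Agent.R3L
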