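import Cfsg.Agent.Lib.R3L.Unip2
import Cfsg.Agent.Lib.R3L.Arc

/-!
# No elements of rank two
-/

set_option autoImplicit false

namespace Cfsg.Agent.R3L

open Matrix SLn Module
open scoped MatrixGroups

variable {ι F : Type*} [Fintype ι] [DecidableEq ι] [Field F]

theorem trace_eq_zero_of_pow [Nonempty ι] (p : ℕ) [Fact p.Prime] [CharP F p]
    {g : SpecialLinearGroup ι F} {s : ℕ} (h : g ^ p ^ s = 1) :
    IsNilpotent (g.1 - 1) ∧ (g.1 - 1).trace = 0 := by
  have h1 : IsNilpotent (g.1 - 1) := ⟨p ^ s, by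
    rw [sub_pow_char_pow_of_commute _ _ (Commute.one_right _), one_pow, sub_eq_zero,
      ← Matrix.SpecialLinearGroup.coe_pow, h]
    rfl⟩
  exact ⟨h1, (Matrix.isNilpotent_trace_of_isNilpotent h1).eq_zero⟩

theorem matrix_ext_mulVec {A B : Matrix ι ι F} (h : ∀ u, A *ᵥ u = B *ᵥ u) : A = B :=
  toLin'.injective (LinearMap.ext h)

theorem NoTv.eq_one_of_rank_one {K : Subgroup (SpecialLinearGroup ι F)} (h : NoTv K)
    {g : SpecialLinearGroup ι F} (hg : g ∈ K) {x : ι → F} (e : ∀ u, g.1 *ᵥ u - u ∈ F ∙ x) :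
    g = 1 := by
  by_cases hx : x = 0
  · refine Subtype.ext (matrix_ext_mulVec fun u => ?_)
    have := e u
    rw [hx, Submodule.span_zero_singleton, Submodule.mem_bot, sub_eq_zero] at this
    simp [this]
  obtain ⟨ρ, -, hρ⟩ := exists_dot_single (a := 0) (y := x) (by simpa using hx)
  refine h.eq_one hg (w := x) (φ := ρ ᵥ* (g.1 - 1)) (matrix_ext_mulVec fun u => ?_)
  obtain ⟨c, hc⟩ := Submodule.mem_span_singleton.1 (e u)
  rw [add_mulVec, one_mulVec, vecMulVec_mulVec, ← dotProduct_mulVec, sub_mulVec, one_mulVec, ← hc,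
    dotProduct_smul, hρ, op_smul_eq_smul, smul_eq_mul, mul_one, hc, add_sub_cancel]

/-- elements moving vectors only along `L` -/
def DL (K : Subgroup (SpecialLinearGroup ι F)) (L : Submodule F (ι → F)) :
    Subgroup (SpecialLinearGroup ι F) where
  carrier := {g | g ∈ K ∧ ∀ u, g.1 *ᵥ u - u ∈ L}
  one_mem' := ⟨one_mem _, by simp⟩
  mul_mem' := fun {a b} ha hb => ⟨mul_mem ha.1 hb.1, fun u => by
    have := add_mem (ha.2 (b.1 *ᵥ u)) (hb.2 u)
    rwa [sub_add_sub_cancel, mulVec_mulVec] at this⟩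
  inv_mem' := fun {a} ha => ⟨inv_mem ha.1, fun u => by
    have := neg_mem (ha.2 ((a⁻¹).1 *ᵥ u))
    rwa [neg_sub, mulVec_mulVec, coe_mul_inv, one_mulVec] at this⟩

/-- the fixed space of `DL` -/
def ML (K : Subgroup (SpecialLinearGroup ι F)) (L : Submodule F (ι → F)) :
    Submodule F (ι → F) where
  carrier := {u | ∀ g ∈ DL K L, g.1 *ᵥ u = u}
  zero_mem' := fun _ _ => mulVec_zero _
  add_mem' := fun {a b} ha hb g hg => by rw [mulVec_add, ha g hg, hb g hg]
  smul_mem' := fun c a ha g hg => by rw [mulVec_smul, ha g hg]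

/-- no unipotent elements of rank two -/
def NoU2 (K : Subgroup (SpecialLinearGroup ι F)) : Prop :=
  ∀ y ∈ K, ∀ v w φ ψ : ι → F, φ ⬝ᵥ v = 0 → φ ⬝ᵥ w = 0 → ψ ⬝ᵥ v = 0 →
    y.1 = 1 + vecMulVec w φ + vecMulVec v ψ → y = 1

/-- no elements of rank at most two -/
def NoRk2 (K : Subgroup (SpecialLinearGroup ι F)) : Prop :=
  ∀ g ∈ K, ∀ a b : ι → F, (∀ u, g.1 *ᵥ u - u ∈ Submodule.span F {a, b}) → g = 1

omit [DecidableEq ι] in
theorem exists_sup_eq {L : Submodule F (ι → F)} (hL : finrank F L = 2) {v : ι → F} (hv : v ∈ L)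
    (h0 : v ≠ 0) : ∃ w, w ∉ F ∙ v ∧ L = (F ∙ v) ⊔ F ∙ w := by
  have hle : F ∙ v ≤ L := (Submodule.span_singleton_le_iff_mem _ _).2 hv
  have hlt : F ∙ v < L := lt_of_le_of_ne hle fun h => by
    rw [← h, finrank_span_singleton h0] at hL
    omega
  obtain ⟨w, hw, hw'⟩ := SetLike.exists_of_lt hlt
  refine ⟨w, hw', (Submodule.eq_of_le_of_finrank_eq
    (sup_le hle ((Submodule.span_singleton_le_iff_mem _ _).2 hw)) ?_).symm⟩
  rw [Submodule.finrank_sup_span_singleton hw', finrank_span_singleton h0, hL]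

omit [Fintype ι] [DecidableEq ι] in
theorem mem_sup_span {v w y : ι → F} : y ∈ (F ∙ v) ⊔ F ∙ w ↔ ∃ s t : F, s • v + t • w = y := by
  rw [← Submodule.span_insert, Submodule.mem_span_pair]

variable {K : Subgroup (SpecialLinearGroup ι F)}

theorem eq_one_of_mem_DL (p : ℕ) [Fact p.Prime] [CharP F p] (hU : NoU2 K)
    {L : Submodule F (ι → F)} (hL : finrank F L = 2) {g : SpecialLinearGroup ι F}
    (hg : g ∈ DL K L) (h : g ^ p = 1) : g = 1 := by
  have hne : L ≠ ⊥ := by rintro rfl; simp at hL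
  obtain ⟨a, ha, ha0⟩ := (Submodule.ne_bot_iff _).1 hne
  have : Nonempty ι := by
    obtain ⟨i, -⟩ := Function.ne_iff.1 ha0
    exact ⟨i⟩
  obtain ⟨⟨r, hr⟩, htr⟩ := trace_eq_zero_of_pow p (g := g) (s := 1) (by rwa [pow_one])
  set N := g.1 - 1 with hN
  have hNL : ∀ u, N *ᵥ u ∈ L := fun u => by rw [hN, sub_mulVec, one_mulVec]; exact hg.2 u
  obtain ⟨v, hv, hv0, hNv⟩ : ∃ v ∈ L, v ≠ 0 ∧ N *ᵥ v = 0 := by
    by_contra hcon
    push Not at hcon
    have : ∀ i, (N ^ i) *ᵥ a ∈ L ∧ (N ^ i) *ᵥ a ≠ 0 := by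
      intro i
      induction i with
      | zero => simpa using ⟨ha, ha0⟩
      | succ i ih =>
        rw [pow_succ', ← mulVec_mulVec]
        exact ⟨hNL _, hcon _ ih.1 ih.2⟩
    exact (this r).2 (by rw [hr, zero_mulVec])
  obtain ⟨w, hw, hLw⟩ := exists_sup_eq hL hv hv0
  have hw' : ∀ s : F, w ≠ s • v := fun s e => hw (Submodule.mem_span_singleton.2 ⟨s, e.symm⟩)
  have hv' : ∀ s : F, v ≠ s • w := fun s e => by
    have hs : s ≠ 0 := by rintro rfl; exact hv0 (by simpa using e)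
    exact hw' s⁻¹ (by rw [e, inv_smul_smul₀ hs])
  obtain ⟨ρ, a1, a2⟩ := exists_dot_single hw'
  obtain ⟨σ, b1, b2⟩ := exists_dot_single hv'
  have e : N = vecMulVec w (ρ ᵥ* N) + vecMulVec v (σ ᵥ* N) := matrix_ext_mulVec fun u => by
    obtain ⟨s, t, hst⟩ := mem_sup_span.1 (hLw ▸ hNL u)
    rw [add_mulVec, vecMulVec_mulVec, vecMulVec_mulVec, ← dotProduct_mulVec, ← dotProduct_mulVec,
      ← hst]
    simp [a1, a2, b1, b2, add_comm]
  have c1 : (ρ ᵥ* N) ⬝ᵥ v = 0 := by rw [← dotProduct_mulVec, hNv, dotProduct_zero]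
  have c2 : (σ ᵥ* N) ⬝ᵥ v = 0 := by rw [← dotProduct_mulVec, hNv, dotProduct_zero]
  refine hU g hg.1 v w (ρ ᵥ* N) (σ ᵥ* N) c1 ?_ c2 (by rw [add_assoc, ← e, hN, add_sub_cancel])
  rw [e, trace_add, trace_vecMulVec, trace_vecMulVec, dotProduct_comm v, c2, add_zero,
    dotProduct_comm] at htr
  exact htr

theorem sup_ML_eq_top [Finite F] (hU : NoU2 K) {L : Submodule F (ι → F)} (hL : finrank F L = 2)
    (u : ι → F) : ∃ m ∈ ML K L, u - m ∈ L := by
  classical
  obtain ⟨p, hp⟩ := CharP.exists F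
  have : Fact p.Prime := ⟨CharP.char_is_prime F p⟩
  have := Fintype.ofFinite (DL K L)
  have hc : (Fintype.card (DL K L) : F) ≠ 0 := by
    rw [Ne, CharP.cast_eq_zero_iff F p]
    intro hd
    obtain ⟨g, hg⟩ := exists_prime_orderOf_dvd_card p hd
    have h1 : g = 1 := Subtype.ext (eq_one_of_mem_DL p hU hL g.2 (by
      rw [← hg, ← Subgroup.coe_pow, pow_orderOf_eq_one]; rfl))
    rw [h1, orderOf_one] at hg
    exact (Fact.out : p.Prime).one_lt.ne hg
  refine ⟨(Fintype.card (DL K L) : F)⁻¹ • ∑ g : DL K L, g.1.1 *ᵥ u, fun h hh => ?_, ?_⟩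
  · rw [mulVec_smul, mulVec_sum]
    congr 1
    exact Fintype.sum_equiv (Equiv.mulLeft ⟨h, hh⟩) _ _ fun g => by rw [mulVec_mulVec]; rfl
  · have : u - (Fintype.card (DL K L) : F)⁻¹ • ∑ g : DL K L, g.1.1 *ᵥ u =
        -((Fintype.card (DL K L) : F)⁻¹ • ∑ g : DL K L, (g.1.1 *ᵥ u - u)) := by
      rw [Finset.sum_sub_distrib, Finset.sum_const, Finset.card_univ, smul_sub,
        ← Nat.cast_smul_eq_nsmul F, inv_smul_smul₀ hc, neg_sub]
    rw [this]
    exact neg_mem (Submodule.smul_mem _ _ (Submodule.sum_mem _ fun g _ => g.2.2 u))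

theorem not_mem_ML [Finite F] (h0 : NoTv K) (hU : NoU2 K) {L : Submodule F (ι → F)}
    (hL : finrank F L = 2) {g : SpecialLinearGroup ι F} (hg : g ∈ DL K L) (hg1 : g ≠ 1)
    {v : ι → F} (hv : v ∈ L) (hv0 : v ≠ 0) : v ∉ ML K L := by
  intro hm
  obtain ⟨w, -, hLw⟩ := exists_sup_eq hL hv hv0
  refine hg1 (h0.eq_one_of_rank_one hg.1 (x := g.1 *ᵥ w - w) fun u => ?_)
  obtain ⟨m, hm', hu⟩ := sup_ML_eq_top hU hL u
  obtain ⟨s, t, hst⟩ := mem_sup_span.1 (hLw ▸ hu)
  refine Submodule.mem_span_singleton.2 ⟨t, ?_⟩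
  have : u = m + (s • v + t • w) := by rw [hst, add_sub_cancel]
  rw [this, mulVec_add, mulVec_add, mulVec_smul, mulVec_smul, hm' g hg, hm g hg, smul_sub]
  abel

theorem finrank_ML [Finite F] (hU : NoU2 K) {L : Submodule F (ι → F)} (hL : finrank F L = 2) :
    Fintype.card ι ≤ finrank F (ML K L) + 2 := by
  have h1 : ML K L ⊔ L = ⊤ := eq_top_iff.2 fun u _ => by
    obtain ⟨m, hm, hu⟩ := sup_ML_eq_top hU hL u
    exact Submodule.mem_sup.2 ⟨m, hm, _, hu, add_sub_cancel _ _⟩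
  have := Submodule.finrank_sup_add_finrank_inf_eq (ML K L) L
  rw [h1, finrank_top, finrank_fintype_fun_eq_card, hL] at this
  omega

theorem le_ML_symm [Finite F] (h0 : NoTv K) (hU : NoU2 K) {L L' : Submodule F (ι → F)}
    (hL : finrank F L = 2) (hL' : finrank F L' = 2) {g : SpecialLinearGroup ι F}
    (hg : g ∈ DL K L) (hg1 : g ≠ 1) (h : L' ≤ ML K L) : L ≤ ML K L' := by
  have a1 : ∀ m ∈ ML K L', g.1 *ᵥ m ∈ ML K L' := by
    intro m hm y hy
    have : g⁻¹ * y * g ∈ DL K L' := ⟨mul_mem (mul_mem (inv_mem hg.1) hy.1) hg.1, fun u => by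
      have b1 := hy.2 (g.1 *ᵥ u)
      have b2 := h b1 g⁻¹ (inv_mem hg)
      rw [mulVec_sub, mulVec_mulVec, mulVec_mulVec, mulVec_mulVec, coe_inv_mul, one_mulVec] at b2
      rw [← b2] at b1
      exact b1⟩
    conv_rhs => rw [← hm _ this]
    rw [mulVec_mulVec, mulVec_mulVec, ← Matrix.SpecialLinearGroup.coe_mul,
      ← Matrix.SpecialLinearGroup.coe_mul]
    rw [show g * (g⁻¹ * y * g) = y * g by group]
  have a2 : ∀ u, g.1 *ᵥ u - u ∈ L ⊓ ML K L' := fun u => ⟨hg.2 u, by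
    obtain ⟨m, hm, hu⟩ := sup_ML_eq_top hU hL' u
    have : g.1 *ᵥ u - u = g.1 *ᵥ m - m := by
      have := h hu g hg
      rw [mulVec_sub] at this
      linear_combination (exp := 1) this
    rw [this]
    exact sub_mem (a1 m hm) hm⟩
  by_contra hcon
  have a3 : finrank F (L ⊓ ML K L' : Submodule F (ι → F)) ≤ 1 := by
    have := Submodule.finrank_lt_finrank_of_lt (lt_of_le_of_ne (inf_le_left (a := L) (b := ML K L'))
      fun e => hcon (inf_eq_left.1 e))
    omega
  obtain ⟨x, hx⟩ := finrank_le_one_iff.1 a3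
  refine hg1 (h0.eq_one_of_rank_one hg.1 (x := x.1) fun u => ?_)
  obtain ⟨c, hc⟩ := hx ⟨_, a2 u⟩
  exact Submodule.mem_span_singleton.2 ⟨c, congrArg Subtype.val hc⟩

theorem qInt_cast [Fintype F] (d : ℕ) : ((GLn.qInt (Fintype.card F) (d + 1) : ℕ) : F) = 1 := by
  rw [qInt_succ']
  simp

open Classical in
omit [DecidableEq ι] in
theorem sum_lines [Fintype F] [Fintype {L : Submodule F (ι → F) // finrank F L = 2}]
    {W : Submodule F (ι → F)} (hW : 2 ≤ finrank F W) {v : ι → F} (hv : v ≠ 0) :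
    ∑ L : {L : Submodule F (ι → F) // finrank F L = 2}, (if L.1 ≤ W then (1 : F) else 0) *
      (if v ∈ L.1 then 1 else 0) = if v ∈ W then 1 else 0 := by
  simp only [ite_zero_mul_ite_zero, mul_one]
  rw [Finset.sum_boole]
  split_ifs with h
  · have hle : F ∙ v ≤ W := (Submodule.span_singleton_le_iff_mem _ _).2 h
    obtain ⟨d, hd⟩ := Nat.exists_eq_add_of_le hW
    rw [← qInt_cast (F := F) d, ← card_exts hle (by rw [finrank_span_singleton hv]; omega)]
    congr 1
    refine Finset.card_bij (fun L _ => L.1) ?_ (fun _ _ _ _ e => Subtype.ext e) ?_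
    · intro L hL
      simp only [Finset.mem_filter, Finset.mem_univ, true_and] at hL
      obtain ⟨w, hw, e⟩ := exists_sup_eq L.2 hL.2 hv
      exact mem_exts.2 ⟨w, hL.1 (e ▸ Submodule.mem_sup_right (Submodule.mem_span_singleton_self _)),
        hw, e.symm⟩
    · intro P hP
      refine ⟨⟨P, by rw [finrank_of_mem_exts hP, finrank_span_singleton hv]⟩, ?_, rfl⟩
      simp only [Finset.mem_filter, Finset.mem_univ, true_and]
      exact ⟨(le_of_mem_exts hle hP).2,
        (le_of_mem_exts hle hP).1 (Submodule.mem_span_singleton_self _)⟩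
  · rw [Finset.filter_false_of_mem fun L _ hL => h (hL.1 hL.2)]
    simp

open Classical in
theorem sum_nz [Fintype F] {W : Submodule F (ι → F)} (hW : 1 ≤ finrank F W) :
    ∑ w : {v : ι → F // v ≠ 0}, (if w.1 ∈ W then (1 : F) else 0) = -1 := by
  rw [← Finset.sum_subtype (Finset.univ.erase 0) (by simp) fun w => if w ∈ W then (1 : F) else 0,
    eq_neg_iff_add_eq_zero]
  have := Finset.sum_erase_add (Finset.univ) (fun w => if w ∈ W then (1 : F) else 0)
    (Finset.mem_univ (0 : ι → F))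
  simp only [zero_mem, if_true] at this
  rw [this, Finset.sum_boole]
  have h1 := cnt_true W
  simp only [cnt, and_true] at h1
  rw [h1]
  obtain ⟨d, hd⟩ := Nat.exists_eq_add_of_le hW
  rw [hd, pow_add]
  simp

theorem noRk2_of [Finite F] (hn : 5 ≤ Fintype.card ι) (h0 : NoTv K) (hU : NoU2 K)
    (h1 : PtLineTr K) : NoRk2 K := by
  classical
  have := Fintype.ofFinite F
  intro g hg a b hab
  by_contra hg1
  have ha : a ≠ 0 := by
    rintro rfl
    exact hg1 (h0.eq_one_of_rank_one hg (x := b) (by simpa using hab))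
  have hb : ∀ c : F, b ≠ c • a := by
    rintro c rfl
    refine hg1 (h0.eq_one_of_rank_one hg (x := a) fun u => ?_)
    obtain ⟨s, t, e⟩ := Submodule.mem_span_pair.1 (hab u)
    exact Submodule.mem_span_singleton.2 ⟨s + t * c, by rw [← e, add_smul, mul_smul]⟩
  let Λ := {L : Submodule F (ι → F) // finrank F L = 2}
  let _ : Fintype Λ := Fintype.ofFinite _
  have hD : ∀ L : Λ, ∃ g ∈ DL K L.1, g ≠ 1 := by
    intro L
    have hne : L.1 ≠ ⊥ := by intro e; have := L.2; rw [e] at this; simp at this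
    obtain ⟨v, hv, hv0⟩ := (Submodule.ne_bot_iff _).1 hne
    obtain ⟨w, hw, e⟩ := exists_sup_eq L.2 hv hv0
    obtain ⟨k, hk, s, t, c, e1, e2⟩ := h1 a b v w ha hb hv0
      fun s e => hw (Submodule.mem_span_singleton.2 ⟨s, e.symm⟩)
    refine ⟨k * g * k⁻¹, ⟨mul_mem (mul_mem hk hg) (inv_mem hk), fun u => ?_⟩, by simpa using hg1⟩
    obtain ⟨x, y, e3⟩ := Submodule.mem_span_pair.1 (hab ((k⁻¹).1 *ᵥ u))
    have e4 := congrArg (k.1 *ᵥ ·) e3
    simp only [mulVec_add, mulVec_smul, mulVec_sub, mulVec_mulVec, coe_mul_inv, one_mulVec,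
      e1, e2] at e4
    rw [Matrix.SpecialLinearGroup.coe_mul, Matrix.SpecialLinearGroup.coe_mul, mul_assoc, ← e4, e]
    exact mem_sup_span.2 ⟨x * c + y * s, y * t, by module⟩
  have hr : ∀ L : Λ, Fintype.card ι ≤ finrank F (ML K L.1) + 2 := fun L => finrank_ML hU L.2
  let V := {v : ι → F // v ≠ 0}
  let A : Matrix V Λ F := of fun v L => if v.1 ∈ L.1 then 1 else 0
  let B : Matrix Λ V F := of fun L w => if w.1 ∈ ML K L.1 then 1 else 0
  let R : Matrix Λ Λ F := of fun L L' => if L'.1 ≤ ML K L.1 then 1 else 0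
  let J : Matrix V V F := of fun _ _ => 1
  have hR : Rᵀ = R := by
    ext L L'
    obtain ⟨g, hg, hg1⟩ := hD L
    obtain ⟨g', hg', hg1'⟩ := hD L'
    exact if_congr ⟨le_ML_symm h0 hU L'.2 L.2 hg' hg1', le_ML_symm h0 hU L.2 L'.2 hg hg1⟩ rfl rfl
  have hB : B = R * Aᵀ := by
    ext L w
    exact (sum_lines (by have := hr L; omega) w.2).symm
  have hA : ∀ v : V, ∑ L : Λ, A v L = 1 := by
    intro v
    have := sum_lines (W := ⊤) (by rw [finrank_top, finrank_fintype_fun_eq_card]; omega) v.2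
    simpa [A] using this
  have hBB : ∀ L L' : Λ, (B * Bᵀ) L L' = -1 := by
    intro L L'
    rw [← sum_nz (W := ML K L.1 ⊓ ML K L'.1)]
    · simp only [mul_apply, transpose_apply, B, of_apply, ite_zero_mul_ite_zero, mul_one,
        Submodule.mem_inf]
      convert rfl
    · have a1 := Submodule.finrank_sup_add_finrank_inf_eq (ML K L.1) (ML K L'.1)
      have a2 := Submodule.finrank_le (ML K L.1 ⊔ ML K L'.1)
      rw [finrank_fintype_fun_eq_card] at a2
      have := hr L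
      have := hr L'
      omega
  have hCt : (A * B)ᵀ = A * B := by
    rw [hB, transpose_mul, transpose_mul, transpose_transpose, hR, Matrix.mul_assoc]
  have hCC : A * B * (A * B) = -J := by
    conv_lhs => arg 2; rw [← hCt]
    rw [transpose_mul, Matrix.mul_assoc, ← Matrix.mul_assoc B]
    ext v w
    simp only [mul_apply (M := A), mul_apply (M := B * Bᵀ), hBB, transpose_apply, neg_one_mul,
      Finset.sum_neg_distrib, hA, mul_neg, mul_one, J, Matrix.neg_apply, of_apply]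
  have hCJ : A * B * J = -J := by
    rw [Matrix.mul_assoc]
    ext v w
    have : ∀ L : Λ, (B * J) L w = -1 := fun L => by
      rw [← sum_nz (W := ML K L.1) (by have := hr L; omega)]
      simp only [mul_apply, B, J, of_apply, mul_one]
      convert rfl
    simp only [mul_apply (M := A), this, mul_neg, mul_one, Finset.sum_neg_distrib, hA, J,
      Matrix.neg_apply, of_apply]
  have hJt : Jᵀ = J := rfl
  have hJC : J * (A * B) = -J := by
    have := congrArg transpose hCJ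
    rwa [transpose_mul, hCt, transpose_neg, hJt] at this
  have hV : ∑ _w : V, (1 : F) = -1 := by
    have := sum_nz (F := F) (ι := ι) (W := ⊤)
      (by rw [finrank_top, finrank_fintype_fun_eq_card]; omega)
    simpa only [Submodule.mem_top, if_true] using this
  have hJJ : J * J = -J := by
    ext v w
    simp only [mul_apply, J, of_apply, mul_one, hV, Matrix.neg_apply]
  have hnil : IsNilpotent (A * B - J) := ⟨2, by
    rw [pow_two, sub_mul, mul_sub, mul_sub, hCC, hCJ, hJC, hJJ]; simp⟩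
  have htr := (Matrix.isNilpotent_trace_of_isNilpotent hnil).eq_zero
  rw [trace_sub] at htr
  have t1 : (A * B).trace = 0 := Finset.sum_eq_zero fun v _ => Finset.sum_eq_zero fun L _ => by
    obtain ⟨g, hg, hg1⟩ := hD L
    simp only [A, B, of_apply, ite_zero_mul_ite_zero]
    exact if_neg fun h => not_mem_ML h0 hU L.2 hg hg1 h.1 v.2 h.2
  have t2 : J.trace = -1 := hV
  rw [t1, t2] at htr
  simp at htr

end Cfsg.Agent.R3L
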