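import Cfsg.Agent.Lib.R3L.Theta

/-!
# The characters on points, lines and point-line flags
-/

set_option autoImplicit false

namespace Cfsg.Agent.R3L

open Matrix GLn SLn
open scoped MatrixGroups

theorem det_eq_det_submatrix {R : Type*} [CommRing R] {m k : ℕ}
    (M : Matrix (Fin (m + k)) (Fin (m + k)) R)
    (h0 : ∀ j i : Fin (m + k), i.val < m → i < j → M j i = 0)
    (h1 : ∀ i : Fin (m + k), i.val < m → M i i = 1) :
    M.det = (M.submatrix (Fin.natAdd m) (Fin.natAdd m)).det := by
  rw [← det_submatrix_equiv_self finSumFinEquiv M, ← fromBlocks_toBlocks (M.submatrix _ _)]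
  have h21 : (M.submatrix finSumFinEquiv finSumFinEquiv).toBlocks₂₁ = 0 := by
    ext j i
    refine h0 _ _ (by simp) ?_
    rw [Fin.lt_def]
    simp only [finSumFinEquiv_apply_left, finSumFinEquiv_apply_right, Fin.val_castAdd,
      Fin.val_natAdd]
    omega
  rw [h21, det_fromBlocks_zero₂₁, det_of_isUpperTriangular, Finset.prod_eq_one, one_mul]
  · rfl
  · intro i _
    exact h1 _ (by simp)
  · intro j i hij
    exact h0 _ _ (by simp) hij

/-- partitions with at most three parts -/
def nu3 (m a b c : ℕ) : Fin (m + 3) → ℕ := Fin.append (fun _ : Fin m => 0) ![a, b, c]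

/-- compositions with at most three parts -/
def mu3 (m a b c : ℕ) : Fin (m + 3) → ℕ :=
  fun i => if i.val = 0 then a else if i.val = 1 then b else if i.val = 2 then c else 0

theorem sum_nu3 (m a b c : ℕ) : ∑ i, nu3 m a b c i = a + b + c := by
  simp [nu3, Fin.sum_univ_add, Fin.sum_univ_three]

theorem sum_mu3 (m a b c : ℕ) : ∑ i, mu3 m a b c i = a + b + c := by
  simp [mu3, Fin.sum_univ_succ, add_assoc]

theorem prod_mu3 {M : Type*} [CommMonoid M] (f : ℕ → M) (h : f 0 = 1) (m a b c : ℕ) :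
    ∏ i, f (mu3 m a b c i) = f a * f b * f c := by
  simp [mu3, Fin.prod_univ_succ, mul_assoc, h]

theorem nu3_apply (m a b c : ℕ) (i : Fin (m + 3)) : nu3 m a b c i =
    if i.val = m then a else if i.val = m + 1 then b else if i.val = m + 2 then c else 0 := by
  refine Fin.addCases (fun j => ?_) (fun j => ?_) i
  · have := j.2
    simp only [nu3, Fin.append_left, Fin.val_castAdd]
    rw [if_neg (by omega), if_neg (by omega), if_neg (by omega)]
  · simp only [nu3, Fin.append_right, Fin.val_natAdd]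
    fin_cases j <;> simp

theorem monotone_nu3 (m : ℕ) {a b c : ℕ} (hab : a ≤ b) (hbc : b ≤ c) : Monotone (nu3 m a b c) := by
  intro i j hij
  have h1 := j.2
  have h2 : i.val ≤ j.val := hij
  rw [nu3_apply, nu3_apply]
  split_ifs <;> omega

theorem nu3_ne {m a b c a' b' c' : ℕ} (h : a ≠ a' ∨ b ≠ b') : nu3 m a b c ≠ nu3 m a' b' c' := by
  intro e
  have h1 := congrFun e ⟨m, by omega⟩
  have h2 := congrFun e ⟨m + 1, by omega⟩
  simp [nu3_apply] at h1 h2
  omega

theorem det_jtMat_nu3 (m a b c : ℕ) :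
    (jtMat fun i => nu3 m a b c i + i.val).det =
      (of fun j i : Fin 3 => if j.val ≤ ![a, b, c] i + i.val then
        hh (m + 3) (![a, b, c] i + i.val - j.val) else 0).det := by
  rw [det_eq_det_submatrix]
  · congr 1
    ext1 j i
    simp only [submatrix_apply, jtMat, of_apply, nu3, Fin.append_right, Fin.val_natAdd]
    have e : ![a, b, c] i + (m + i.val) - (m + j.val) = ![a, b, c] i + i.val - j.val := by omega
    rw [e]
    exact if_congr (by omega) rfl rfl
  · intro j i hi hij
    have : i.val < j.val := hij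
    simp only [jtMat, of_apply, nu3_apply]
    rw [if_neg]
    split_ifs <;> omega
  · intro i hi
    have : nu3 m a b c i = 0 := by
      rw [nu3_apply, if_neg (by omega), if_neg (by omega), if_neg (by omega)]
    simp [jtMat, this, hh_zero]

theorem sum_rho_nu3 (q m a b c : ℕ) : ∑ i : Fin (m + 3), q ^ i.val * qInt q (nu3 m a b c i) =
    q ^ m * qInt q a + q ^ (m + 1) * qInt q b + q ^ (m + 2) * qInt q c := by
  simp [nu3, Fin.sum_univ_add, Fin.sum_univ_three, qInt]

theorem psum_mu3_one (m a b c : ℕ) : psum (mu3 m a b c) 1 = a := by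
  have := psum_succ (mu3 m a b c) 0
  simpa [psum_zero, mu3] using this

theorem psum_mu3_two (m a b c : ℕ) : psum (mu3 m a b c) 2 = a + b := by
  have := psum_succ (mu3 m a b c) 1
  rw [show ((1 : Fin (m + 3)).val) = 1 from rfl, psum_mu3_one] at this
  simpa [mu3] using this

variable {F : Type*} [Field F]

theorem parabolic_psum {n : ℕ} {μ : Fin n → ℕ} (hμ : ∑ i, μ i = n) {p : GL (Fin n) F}
    (hp : p ∈ parabolicGL n F μ) (k : ℕ) {i j : Fin n} (hj : j.val < psum μ k)
    (hi : psum μ k ≤ i.val) : p.1 i j = 0 := by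
  refine mem_parabolicGL.1 hp i j ?_
  have h1 := (le_compLabel_iff hμ i k).2 hi
  have h2 := (le_compLabel_iff hμ j k).not.2 (not_le.2 hj)
  omega

theorem piG_triv (m : ℕ) : piG F (mu3 m (m + 3) 0 0) = 1 := by
  have hμ : ∑ i, mu3 m (m + 3) 0 0 i = m + 3 := sum_mu3 _ _ _ _
  have : parabolicGL (m + 3) F (mu3 m (m + 3) 0 0) = ⊤ := by
    rw [eq_top_iff]
    intro g _
    rw [mem_parabolicGL]
    intro i j hij
    have := (le_compLabel_iff hμ i 1).not.2 (by rw [psum_mu3_one]; exact not_le.2 i.2)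
    omega
  ext g
  unfold piG fixedPointCharacter
  rw [this]
  have : Subsingleton (GL (Fin (m + 3)) F ⧸ (⊤ : Subgroup (GL (Fin (m + 3)) F))) :=
    QuotientGroup.subsingleton_quotient_top
  rw [Nat.card_eq_one_iff_unique.2 ⟨inferInstance,
    ⟨⟨((1 : GL (Fin (m + 3)) F) : _ ⧸ _), Subsingleton.elim _ _⟩⟩⟩]
  simp

variable [Fintype F] [DecidableEq F] (m : ℕ)

theorem rep_mu3 {a b c : ℕ} (h : a + b + c = m + 3) :
    Rep (hh (m + 3) a * hh (m + 3) b * hh (m + 3) c) (piG F (mu3 m a b c)) :=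
  prod_mu3 (hh (m + 3)) hh_zero m a b c ▸ Rep.piG ((sum_mu3 _ _ _ _).trans h)

theorem rep_one : Rep (hh (m + 3) (m + 3)) (1 : GL (Fin (m + 3)) F → ℂ) := by
  have := rep_mu3 (F := F) m (a := m + 3) (b := 0) (c := 0) rfl
  rwa [piG_triv, hh_zero, mul_one, mul_one] at this

theorem rep_A : Rep (hh (m + 3) 1 * hh (m + 3) (m + 2) - hh (m + 3) (m + 3))
    (unipotentCharacterGL (m + 3) F (nu3 m 0 1 (m + 2))) := by
  convert Rep.chi (F := F) (ν := nu3 m 0 1 (m + 2)) (by rw [sum_nu3]; omega) using 1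
  rw [det_jtMat_nu3, det_fin_three]
  simp [hh_zero]

theorem rep_B : Rep (hh (m + 3) 2 * hh (m + 3) (m + 1) - hh (m + 3) 1 * hh (m + 3) (m + 2))
    (unipotentCharacterGL (m + 3) F (nu3 m 0 2 (m + 1))) := by
  convert Rep.chi (F := F) (ν := nu3 m 0 2 (m + 1)) (by rw [sum_nu3]; omega) using 1
  rw [det_jtMat_nu3, det_fin_three]
  simp [hh_zero]
  ring

theorem rep_C : Rep (hh (m + 3) 1 * hh (m + 3) 1 * hh (m + 3) (m + 1) -
    hh (m + 3) 1 * hh (m + 3) (m + 2) - hh (m + 3) 2 * hh (m + 3) (m + 1) + hh (m + 3) (m + 3))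
    (unipotentCharacterGL (m + 3) F (nu3 m 1 1 (m + 1))) := by
  convert Rep.chi (F := F) (ν := nu3 m 1 1 (m + 1)) (by rw [sum_nu3]; omega) using 1
  rw [det_jtMat_nu3, det_fin_three]
  simp [hh_zero]

theorem chi_triv : unipotentCharacterGL (m + 3) F (nu3 m 0 0 (m + 3)) = 1 := by
  refine (Rep.chi (by rw [sum_nu3]; omega)).unique ?_
  convert rep_one (F := F) m using 1
  rw [det_jtMat_nu3, det_fin_three]
  simp [hh_zero]

theorem piG_pt : piG F (mu3 m 1 (m + 2) 0) =
    1 + unipotentCharacterGL (m + 3) F (nu3 m 0 1 (m + 2)) := by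
  refine (rep_mu3 m (by omega)).unique ?_
  convert (rep_one (F := F) m).add (rep_A m) using 1
  simp [hh_zero]

theorem piG_hyp : piG F (mu3 m (m + 2) 1 0) = piG F (mu3 m 1 (m + 2) 0) := by
  refine (rep_mu3 m (by omega)).unique ?_
  convert rep_mu3 (F := F) m (a := 1) (b := m + 2) (c := 0) (by omega) using 1
  ring

theorem piG_line : piG F (mu3 m 2 (m + 1) 0) =
    1 + unipotentCharacterGL (m + 3) F (nu3 m 0 1 (m + 2)) +
      unipotentCharacterGL (m + 3) F (nu3 m 0 2 (m + 1)) := by
  refine (rep_mu3 m (by omega)).unique ?_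
  convert ((rep_one (F := F) m).add (rep_A m)).add (rep_B m) using 1
  simp [hh_zero]

theorem piG_ptline : piG F (mu3 m 1 1 (m + 1)) =
    1 + unipotentCharacterGL (m + 3) F (nu3 m 0 1 (m + 2)) +
      unipotentCharacterGL (m + 3) F (nu3 m 0 1 (m + 2)) +
      unipotentCharacterGL (m + 3) F (nu3 m 0 2 (m + 1)) +
      unipotentCharacterGL (m + 3) F (nu3 m 1 1 (m + 1)) := by
  refine (rep_mu3 m (by omega)).unique ?_
  convert ((((rep_one (F := F) m).add (rep_A m)).add (rep_A m)).add (rep_B m)).add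
    (rep_C m) using 1
  ring

theorem piG_pthyp : piG F (mu3 m 1 (m + 1) 1) = piG F (mu3 m 1 1 (m + 1)) := by
  refine (rep_mu3 m (by omega)).unique ?_
  convert rep_mu3 (F := F) m (a := 1) (b := 1) (c := m + 1) (by omega) using 1
  ring

/-- `α` -/
noncomputable def chA (F : Type*) [Field F] (m : ℕ) := chiS F (nu3 m 0 1 (m + 2))
/-- `β` -/
noncomputable def chB (F : Type*) [Field F] (m : ℕ) := chiS F (nu3 m 0 2 (m + 1))
/-- `γ` -/
noncomputable def chC (F : Type*) [Field F] (m : ℕ) := chiS F (nu3 m 1 1 (m + 1))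

theorem chiS_triv : chiS F (nu3 m 0 0 (m + 3)) = 1 := by
  unfold chiS
  rw [chi_triv]; rfl

theorem res_pt : res (piG F (mu3 m 1 (m + 2) 0)) = 1 + chA F m := by rw [piG_pt]; rfl

theorem res_hyp : res (piG F (mu3 m (m + 2) 1 0)) = 1 + chA F m := by rw [piG_hyp, res_pt]

theorem res_line : res (piG F (mu3 m 2 (m + 1) 0)) = 1 + chA F m + chB F m := by
  rw [piG_line]; rfl

theorem res_ptline : res (piG F (mu3 m 1 1 (m + 1))) =
    1 + chA F m + chA F m + chB F m + chC F m := by
  rw [piG_ptline]; rfl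

theorem res_pthyp : res (piG F (mu3 m 1 (m + 1) 1)) =
    1 + chA F m + chA F m + chB F m + chC F m := by
  rw [piG_pthyp, res_ptline]

variable {m}

theorem isIrr_chA : IsIrrCharacter _ (chA F m) :=
  isIrr_chiS (monotone_nu3 m (by omega) (by omega)) (by rw [sum_nu3]; omega)

theorem isIrr_chB (hm : 1 ≤ m) : IsIrrCharacter _ (chB F m) :=
  isIrr_chiS (monotone_nu3 m (by omega) (by omega)) (by rw [sum_nu3]; omega)

theorem isIrr_chC : IsIrrCharacter _ (chC F m) :=
  isIrr_chiS (monotone_nu3 m (by omega) (by omega)) (by rw [sum_nu3]; omega)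

theorem chiS_nu3_ne {a b c a' b' c' : ℕ} (hab : a ≤ b) (hbc : b ≤ c) (h : a + b + c = m + 3)
    (hab' : a' ≤ b') (hbc' : b' ≤ c') (h' : a' + b' + c' = m + 3) (hne : a ≠ a' ∨ b ≠ b') :
    chiS F (nu3 m a b c) ≠ chiS F (nu3 m a' b' c') :=
  chiS_ne (monotone_nu3 m hab hbc) ((sum_nu3 _ _ _ _).trans h) (monotone_nu3 m hab' hbc')
    ((sum_nu3 _ _ _ _).trans h') (nu3_ne hne)

theorem chA_ne_one : chA F m ≠ 1 :=
  chiS_triv (F := F) m ▸ chiS_nu3_ne (by omega) (by omega) (by omega) (by omega) (by omega)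
    (by omega) (by omega)

theorem chB_ne_one (hm : 1 ≤ m) : chB F m ≠ 1 :=
  chiS_triv (F := F) m ▸ chiS_nu3_ne (by omega) (by omega) (by omega) (by omega) (by omega)
    (by omega) (by omega)

theorem chC_ne_one : chC F m ≠ 1 :=
  chiS_triv (F := F) m ▸ chiS_nu3_ne (by omega) (by omega) (by omega) (by omega) (by omega)
    (by omega) (by omega)

theorem chA_ne_chB (hm : 1 ≤ m) : chA F m ≠ chB F m :=
  chiS_nu3_ne (by omega) (by omega) (by omega) (by omega) (by omega) (by omega) (by omega)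

theorem chA_ne_chC : chA F m ≠ chC F m :=
  chiS_nu3_ne (by omega) (by omega) (by omega) (by omega) (by omega) (by omega) (by omega)

theorem chB_ne_chC (hm : 1 ≤ m) : chB F m ≠ chC F m :=
  chiS_nu3_ne (by omega) (by omega) (by omega) (by omega) (by omega) (by omega) (by omega)

theorem qInt_succ' (q r : ℕ) : qInt q (r + 1) = q * qInt q r + 1 := by
  unfold qInt
  rw [Finset.sum_range_succ', Finset.mul_sum]
  simp [pow_succ, mul_comm]

theorem qInt_succ (q r : ℕ) : qInt q (r + 1) = qInt q r + q ^ r := by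
  unfold qInt
  rw [Finset.sum_range_succ]

theorem qInt_zero (q : ℕ) : qInt q 0 = 0 := rfl

theorem qInt_one (q : ℕ) : qInt q 1 = 1 := by simp [qInt]

theorem qInt_two (q : ℕ) : qInt q 2 = q + 1 := by simp [qInt_succ', qInt_zero]

omit [DecidableEq F] in
theorem piG_mu3_one {a b c : ℕ} (h : a + b + c = m + 3) :
    piG F (mu3 m a b c) 1 * (qFact (Fintype.card F) a * qFact (Fintype.card F) b *
      qFact (Fintype.card F) c) = qFact (Fintype.card F) (m + 3) := by
  rw [← piG_one ((sum_mu3 m a b c).trans h),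
    prod_mu3 (fun r => (qFact (Fintype.card F) r : ℂ)) (by simp [qFact])]

omit [DecidableEq F] in
theorem pt_one : res (piG F (mu3 m 1 (m + 2) 0)) 1 = qInt (Fintype.card F) (m + 3) := by
  have h := piG_mu3_one (F := F) (m := m) (a := 1) (b := m + 2) (c := 0) (by omega)
  have h0 : (qFact (Fintype.card F) (m + 2) : ℂ) ≠ 0 := by exact_mod_cast (qFact_pos _ _).ne'
  rw [qFact_succ _ (m + 2), qFact_succ _ 0, qInt_one] at h
  simp only [res, map_one]
  apply mul_right_cancel₀ h0
  simp only [qFact, Finset.range_zero, Finset.prod_empty] at h ⊢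
  push_cast at h ⊢
  linear_combination h

omit [DecidableEq F] in
theorem line_one : res (piG F (mu3 m 2 (m + 1) 0)) 1 * (Fintype.card F + 1) =
    qInt (Fintype.card F) (m + 3) * qInt (Fintype.card F) (m + 2) := by
  have h := piG_mu3_one (F := F) (m := m) (a := 2) (b := m + 1) (c := 0) (by omega)
  have h0 : (qFact (Fintype.card F) (m + 1) : ℂ) ≠ 0 := by exact_mod_cast (qFact_pos _ _).ne'
  rw [qFact_succ _ (m + 2), qFact_succ _ (m + 1), qFact_succ _ 1, qFact_succ _ 0, qInt_one,
    qInt_two] at h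
  simp only [res, map_one]
  apply mul_right_cancel₀ h0
  have : qFact (Fintype.card F) 0 = 1 := rfl
  rw [this] at h
  push_cast at h ⊢
  linear_combination h

omit [DecidableEq F] in
theorem ptline_one : res (piG F (mu3 m 1 1 (m + 1))) 1 =
    qInt (Fintype.card F) (m + 3) * qInt (Fintype.card F) (m + 2) := by
  have h := piG_mu3_one (F := F) (m := m) (a := 1) (b := 1) (c := m + 1) (by omega)
  have h0 : (qFact (Fintype.card F) (m + 1) : ℂ) ≠ 0 := by exact_mod_cast (qFact_pos _ _).ne'
  rw [qFact_succ _ (m + 2), qFact_succ _ (m + 1), qFact_succ _ 0, qInt_one] at h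
  simp only [res, map_one]
  apply mul_right_cancel₀ h0
  have : qFact (Fintype.card F) 0 = 1 := rfl
  rw [this] at h
  push_cast at h ⊢
  linear_combination h

theorem chA_one : chA F m 1 = Fintype.card F * qInt (Fintype.card F) (m + 2) := by
  have h := pt_one (F := F) (m := m)
  rw [res_pt, qInt_succ'] at h
  simp only [Pi.add_apply, Pi.one_apply] at h
  push_cast at h
  linear_combination h

theorem chB_one : chB F m 1 * (Fintype.card F + 1) = Fintype.card F ^ 2 *
    qInt (Fintype.card F) (m + 3) * qInt (Fintype.card F) m := by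
  have h := line_one (F := F) (m := m)
  have h1 := chA_one (F := F) (m := m)
  rw [res_line] at h
  simp only [Pi.add_apply, Pi.one_apply, qInt_succ'] at h h1 ⊢
  push_cast at h h1 ⊢
  linear_combination h - (Fintype.card F + 1) * h1

theorem chC_one : chC F m 1 * (Fintype.card F + 1) = Fintype.card F ^ 3 *
    qInt (Fintype.card F) (m + 2) * qInt (Fintype.card F) (m + 1) := by
  have h := ptline_one (F := F) (m := m)
  have h1 := chA_one (F := F) (m := m)
  have h2 := chB_one (F := F) (m := m)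
  rw [res_ptline] at h
  simp only [Pi.add_apply, Pi.one_apply, qInt_succ'] at h h1 h2 ⊢
  push_cast at h h1 h2 ⊢
  linear_combination (Fintype.card F + 1) * h - 2 * (Fintype.card F + 1) * h1 - h2

theorem om_chB (hm : 1 ≤ m) : om (TS (Fin (m + 3)) F) (chB F m) =
    ((Fintype.card F : ℂ) ^ (m + 2) - 1) * qInt (Fintype.card F) (m + 1) := by
  have h := om_chiS (F := F) (monotone_nu3 m (a := 0) (b := 2) (c := m + 1) (by omega) (by omega))
    (by rw [sum_nu3]; omega)
  rw [sum_rho_nu3, qInt_zero, qInt_two, qInt_succ _ (m + 2), qInt_succ _ (m + 1)] at h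
  push_cast at h
  unfold chB
  linear_combination h

theorem om_chC : om (TS (Fin (m + 3)) F) (chC F m) =
    ((Fintype.card F : ℂ) ^ (m + 3) - 1) * qInt (Fintype.card F) m := by
  have h := om_chiS (F := F) (monotone_nu3 m (a := 1) (b := 1) (c := m + 1) (by omega) (by omega))
    (by rw [sum_nu3]; omega)
  rw [sum_rho_nu3, qInt_one, qInt_succ _ (m + 2), qInt_succ _ (m + 1), qInt_succ _ m,
    ] at h
  have h1 := qInt_mul ℂ (Fintype.card F) m
  push_cast at h
  unfold chC
  linear_combination h - (Fintype.card F : ℂ) ^ (m + 2) * h1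

end Cfsg.Agent.R3L
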