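import Cfsg.Agent.Lib.R3L.Polar

/-!
# No unipotent elements of rank two
-/

set_option autoImplicit false

namespace Cfsg.Agent.R3L

open Matrix SLn
open scoped MatrixGroups

section general

variable {ι F : Type*} [Fintype ι] [DecidableEq ι] [Field F]

/-- no transvections -/
def NoTv (K : Subgroup (SpecialLinearGroup ι F)) : Prop :=
  ∀ w φ, HasTv K w φ → w = 0 ∨ φ = 0

theorem NoTv.eq_one {K : Subgroup (SpecialLinearGroup ι F)} (h : NoTv K)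
    {g : SpecialLinearGroup ι F} (hg : g ∈ K) {w φ : ι → F} (e : g.1 = 1 + vecMulVec w φ) :
    g = 1 := by
  apply Subtype.ext
  rcases h w φ ⟨g, hg, e⟩ with rfl | rfl <;> simp [e]

theorem coe_conj_sub (k y : SpecialLinearGroup ι F) {N : Matrix ι ι F} (h : y.1 = 1 + N) :
    (k * y * k⁻¹).1 = 1 + k.1 * N * (k⁻¹).1 := by
  rw [Matrix.SpecialLinearGroup.coe_mul, Matrix.SpecialLinearGroup.coe_mul, h, mul_add, add_mul,
    mul_one, coe_mul_inv]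

theorem conj_vecMulVec (k : SpecialLinearGroup ι F) (w φ : ι → F) :
    k.1 * vecMulVec w φ * (k⁻¹).1 = vecMulVec (k.1 *ᵥ w) (φ ᵥ* (k⁻¹).1) := by
  rw [mul_vecMulVec, vecMulVec_mul]

theorem dot_inv_eq_zero {k : SpecialLinearGroup ι F} {φ v v' : ι → F} {c : F} (hc : c ≠ 0)
    (h : k.1 *ᵥ v = c • v') (h0 : φ ⬝ᵥ v = 0) : (φ ᵥ* (k⁻¹).1) ⬝ᵥ v' = 0 := by
  have := dot_conj k φ v
  rw [h, h0, dotProduct_smul, smul_eq_mul] at this
  exact (mul_eq_zero.1 this).resolve_left hc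

theorem ne_zero_of_mulVec {k : SpecialLinearGroup ι F} {v v' : ι → F} {c : F} (hv : v ≠ 0)
    (h : k.1 *ᵥ v = c • v') : c ≠ 0 := by
  rintro rfl
  exact SL_mulVec_ne_zero k hv (by rw [h, zero_smul])

theorem mul_two (v w₁ φ₁ ψ₁ w₂ φ₂ ψ₂ : ι → F) (h1 : φ₁ ⬝ᵥ v = 0) (h2 : ψ₁ ⬝ᵥ v = 0) :
    (1 + vecMulVec w₁ φ₁ + vecMulVec v ψ₁) * (1 + vecMulVec w₂ φ₂ + vecMulVec v ψ₂) =
      1 + vecMulVec w₁ (φ₁ + (φ₁ ⬝ᵥ w₂) • φ₂) + vecMulVec w₂ φ₂ +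
        vecMulVec v (ψ₁ + ψ₂ + (ψ₁ ⬝ᵥ w₂) • φ₂) := by
  simp only [mul_add, add_mul, one_mul, mul_one, vecMulVec_mul_vecMulVec, h1, h2, zero_smul,
    vecMulVec_zero, vecMulVec_add]
  abel

end general

variable {F : Type*} [Field F] {k : ℕ}

/-- extension by zero -/
def ex0 : (Fin k → F) →ₗ[F] (Fin (k + 1) → F) where
  toFun w := Fin.cons 0 w
  map_add' a b := by ext i; refine Fin.cases ?_ (fun j => ?_) i <;> simp
  map_smul' c a := by ext i; refine Fin.cases ?_ (fun j => ?_) i <;> simp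

/-- dropping the first coordinate -/
def tl : (Fin (k + 1) → F) →ₗ[F] (Fin k → F) := LinearMap.funLeft F F Fin.succ

theorem ex0_dot (φ : Fin k → F) (y : Fin (k + 1) → F) : ex0 φ ⬝ᵥ y = φ ⬝ᵥ tl y := by
  simp [ex0, tl, dotProduct, Fin.sum_univ_succ]

theorem tl_ex0 (w : Fin k → F) : tl (ex0 w) = w := by
  ext i; simp [ex0, tl]

theorem tl_single : tl (Pi.single 0 1 : Fin (k + 1) → F) = 0 := by
  ext i; simp [tl]

theorem eq_ex0 (y : Fin (k + 1) → F) : y = y 0 • Pi.single 0 1 + ex0 (tl y) := by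
  ext i; refine Fin.cases ?_ (fun j => ?_) i <;> simp [ex0, tl]

theorem ex0_tl {y : Fin (k + 1) → F} (h : y ⬝ᵥ Pi.single 0 1 = 0) : ex0 (tl y) = y := by
  have h0 : y 0 = 0 := by simpa using h
  conv_rhs => rw [eq_ex0 y, h0, zero_smul, zero_add]

theorem ex0_dot_single (φ : Fin k → F) : ex0 φ ⬝ᵥ Pi.single 0 1 = 0 := by
  rw [ex0_dot, tl_single, dotProduct_zero]

theorem ex0_ne_smul {w : Fin k → F} (hw : w ≠ 0) (c : F) : ex0 w ≠ c • Pi.single 0 1 := fun h =>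
  hw (by rw [← tl_ex0 w, h, map_smul, tl_single, smul_zero])

theorem ex0_ne_zero {w : Fin k → F} (hw : w ≠ 0) : ex0 w ≠ 0 := by
  simpa using ex0_ne_smul hw 0

/-- elements inducing transvections modulo the first basis vector -/
def Lift (K : Subgroup (SpecialLinearGroup (Fin (k + 1)) F)) (w φ : Fin k → F) : Prop :=
  φ ⬝ᵥ w = 0 ∧ ∃ ψ : Fin (k + 1) → F, ψ ⬝ᵥ Pi.single 0 1 = 0 ∧ ∃ y ∈ K,
    y.1 = 1 + vecMulVec (ex0 w) (ex0 φ) + vecMulVec (Pi.single 0 1) ψ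

variable {K : Subgroup (SpecialLinearGroup (Fin (k + 1)) F)}

theorem lift_of {y : SpecialLinearGroup (Fin (k + 1)) F} (hy : y ∈ K) {v w φ ψ : Fin (k + 1) → F}
    (hv : v ≠ 0) (h1 : φ ⬝ᵥ v = 0) (h2 : φ ⬝ᵥ w = 0) (h3 : ψ ⬝ᵥ v = 0)
    (e : y.1 = 1 + vecMulVec w φ + vecMulVec v ψ) {g : SpecialLinearGroup (Fin (k + 1)) F}
    (hg : g ∈ K) {c : F} (hc : g.1 *ᵥ v = c • Pi.single 0 1) :
    Lift K (tl (g.1 *ᵥ w)) (tl (φ ᵥ* (g⁻¹).1)) := by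
  have hc0 := ne_zero_of_mulVec hv hc
  have a1 := dot_inv_eq_zero hc0 hc h1
  have a2 := dot_inv_eq_zero hc0 hc h3
  refine ⟨?_, (g.1 *ᵥ w) 0 • φ ᵥ* (g⁻¹).1 + c • ψ ᵥ* (g⁻¹).1, ?_, g * y * g⁻¹,
    mul_mem (mul_mem hg hy) (inv_mem hg), ?_⟩
  · rw [← ex0_dot, ex0_tl a1, dot_conj, h2]
  · rw [add_dotProduct, smul_dotProduct, smul_dotProduct, a1, a2]; simp
  · rw [coe_conj_sub g y (e.trans (add_assoc _ _ _)), mul_add, add_mul, conj_vecMulVec,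
      conj_vecMulVec, hc, ex0_tl a1]
    conv_lhs => rw [eq_ex0 (g.1 *ᵥ w)]
    simp only [add_vecMulVec, smul_vecMulVec, vecMulVec_add, vecMulVec_smul]
    abel

theorem Lift.conj {w φ : Fin k → F} (h : Lift K w φ) {g : SpecialLinearGroup (Fin (k + 1)) F}
    (hg : g ∈ K) {c : F} (hc : g.1 *ᵥ Pi.single 0 1 = c • Pi.single 0 1) :
    Lift K (tl (g.1 *ᵥ ex0 w)) (tl (ex0 φ ᵥ* (g⁻¹).1)) := by
  obtain ⟨h0, ψ, hψ, y, hy, e⟩ := h
  exact lift_of hy (by simp) (ex0_dot_single φ) (by rw [ex0_dot, tl_ex0, h0]) hψ e hg hc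

theorem inv_two {y : SpecialLinearGroup (Fin (k + 1)) F} {w φ : Fin k → F} (h0 : φ ⬝ᵥ w = 0)
    {ψ : Fin (k + 1) → F} (hψ : ψ ⬝ᵥ Pi.single 0 1 = 0)
    (e : y.1 = 1 + vecMulVec (ex0 w) (ex0 φ) + vecMulVec (Pi.single 0 1) ψ) :
    (y⁻¹).1 = 1 + vecMulVec (ex0 w) (ex0 (-φ)) +
      vecMulVec (Pi.single 0 1) (-ψ + (ψ ⬝ᵥ ex0 w) • ex0 φ) := by
  have h1 : y.1 * (1 + vecMulVec (ex0 w) (ex0 (-φ)) +
      vecMulVec (Pi.single 0 1) (-ψ + (ψ ⬝ᵥ ex0 w) • ex0 φ)) = 1 := by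
    rw [e, mul_two _ _ _ _ _ _ _ (ex0_dot_single φ) hψ, ex0_dot, tl_ex0, h0]
    simp
  have h2 := congrArg ((y⁻¹).1 * ·) h1
  simp only [← mul_assoc, coe_inv_mul, one_mul, mul_one] at h2
  exact h2.symm

theorem Lift.neg {w φ : Fin k → F} (h : Lift K w φ) : Lift K w (-φ) := by
  obtain ⟨h0, ψ, hψ, y, hy, e⟩ := h
  exact ⟨by simp [h0], _, by simp [-dotProduct_single, hψ, ex0_dot_single], y⁻¹, inv_mem hy,
    inv_two h0 hψ e⟩

theorem Lift.swap {w φ : Fin k → F} (c : F) : Lift K (c • w) φ ↔ Lift K w (c • φ) := by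
  simp only [Lift, map_smul, smul_vecMulVec, vecMulVec_smul, dotProduct_smul, smul_dotProduct]

theorem Lift.add_left {w w' φ : Fin k → F} (h : Lift K w φ) (h' : Lift K w' φ) :
    Lift K (w + w') φ := by
  obtain ⟨h0, ψ, hψ, y, hy, e⟩ := h
  obtain ⟨h0', ψ', hψ', y', hy', e'⟩ := h'
  refine ⟨by simp [h0, h0'], ψ + ψ' + (ψ ⬝ᵥ ex0 w') • ex0 φ,
    by simp [-dotProduct_single, hψ, hψ', ex0_dot_single], y * y', mul_mem hy hy', ?_⟩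
  rw [Matrix.SpecialLinearGroup.coe_mul, e, e', mul_two _ _ _ _ _ _ _ (ex0_dot_single φ) hψ,
    ex0_dot, tl_ex0, h0', map_add, add_vecMulVec]
  simp only [zero_smul, add_zero]
  abel

theorem Lift.add_right {w φ φ' : Fin k → F} (h : Lift K w φ) (h' : Lift K w φ') :
    Lift K w (φ + φ') := by
  obtain ⟨h0, ψ, hψ, y, hy, e⟩ := h
  obtain ⟨h0', ψ', hψ', y', hy', e'⟩ := h'
  refine ⟨by simp [h0, h0'], ψ + ψ' + (ψ ⬝ᵥ ex0 w) • ex0 φ',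
    by simp [-dotProduct_single, hψ, hψ', ex0_dot_single], y * y', mul_mem hy hy', ?_⟩
  rw [Matrix.SpecialLinearGroup.coe_mul, e, e', mul_two _ _ _ _ _ _ _ (ex0_dot_single φ) hψ,
    ex0_dot, tl_ex0, h0, map_add, vecMulVec_add (ex0 w) (ex0 φ) (ex0 φ')]
  simp only [zero_smul, add_zero]
  abel

theorem Lift.comm {w φ w' φ' : Fin k → F} (h : Lift K w φ) (h' : Lift K w' φ')
    (h0 : φ' ⬝ᵥ w = 0) : Lift K ((φ ⬝ᵥ w') • w) φ' := by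
  obtain ⟨h1, ψ, hψ, y, hy, e⟩ := h
  have h2 := h'.conj hy (c := 1) (by
    rw [e]
    simp [-dotProduct_single, -mulVec_single, add_mulVec, vecMulVec_mulVec, hψ, ex0_dot_single])
  rw [inv_two h1 hψ e, e] at h2
  simp only [add_mulVec, one_mulVec, vecMulVec_mulVec, vecMul_add, vecMul_one, vecMul_vecMulVec,
    ex0_dot, tl_ex0, h0, zero_smul, add_zero, tl_single, dotProduct_zero, map_add,
    op_smul_eq_smul, map_smul, smul_zero] at h2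
  have h3 : Lift K ((-1 : F) • w') φ' := (Lift.swap (-1)).2 (by simpa using h'.neg)
  simpa using h2.add_left h3

theorem sym_of_mem {g : SpecialLinearGroup (Fin (k + 1)) F} (hg : g ∈ K) {c : F}
    (hc : g.1 *ᵥ Pi.single 0 1 = c • Pi.single 0 1) :
    (∀ φ w, (tl ∘ₗ vecMulLinear (g⁻¹).1 ∘ₗ ex0) φ ⬝ᵥ (tl ∘ₗ mulVecLin g.1 ∘ₗ ex0) w = φ ⬝ᵥ w) ∧
    ∀ w φ, Lift K w φ → Lift K ((tl ∘ₗ mulVecLin g.1 ∘ₗ ex0) w)
      ((tl ∘ₗ vecMulLinear (g⁻¹).1 ∘ₗ ex0) φ) := by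
  refine ⟨fun φ w => ?_, fun w φ h => h.conj hg hc⟩
  change tl (ex0 φ ᵥ* (g⁻¹).1) ⬝ᵥ tl (g.1 *ᵥ ex0 w) = _
  rw [← ex0_dot, ex0_tl (dot_inv_eq_zero (ne_zero_of_mulVec (by simp) hc) hc (ex0_dot_single φ)),
    dot_conj, ex0_dot, tl_ex0]

theorem mcL_lift (h1 : PtLineTr K) (h2 : PtHypTr K) (h3 : ∃ w φ, w ≠ 0 ∧ φ ≠ 0 ∧ Lift K w φ) :
    McL (Lift K) where
  dot h := h.1
  zero_left φ := ⟨by simp, 0, by simp, 1, one_mem _, by simp⟩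
  zero_right φ := ⟨by simp, 0, by simp, 1, one_mem _, by simp⟩
  add_left := Lift.add_left
  add_right := Lift.add_right
  neg := Lift.neg
  swap := Lift.swap
  comm := Lift.comm
  tr_pt v v' hv hv' := by
    obtain ⟨g, hg, a, b, c, e1, e2⟩ := h1 _ _ _ _ (by simp) (ex0_ne_smul hv) (by simp)
      (ex0_ne_smul hv')
    obtain ⟨s1, s2⟩ := sym_of_mem hg e1
    refine ⟨_, _, s1, s2, b, ?_⟩
    change tl (g.1 *ᵥ ex0 v) = _
    rw [e2, map_add, map_smul, map_smul, tl_single, tl_ex0, smul_zero, zero_add]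
  tr_hyp v v' hv hv' := by
    obtain ⟨g, hg, c, d, e1, e2⟩ := h2 (Pi.single 0 1) _ (Pi.single 0 1) _ (by simp)
      (ex0_ne_zero hv') (ex0_dot_single v') (by simp) (ex0_ne_zero hv) (ex0_dot_single v)
    have hc := ne_zero_of_mulVec (by simp) e1
    obtain ⟨s1, s2⟩ := sym_of_mem (inv_mem hg) (c := c⁻¹) (by
      apply mulVec_SL_injective g
      rw [mulVec_mulVec, coe_mul_inv, one_mulVec, mulVec_smul, e1, inv_smul_smul₀ hc])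
    refine ⟨_, _, s1, s2, d, ?_⟩
    change tl (ex0 v ᵥ* (g⁻¹⁻¹).1) = _
    rw [inv_inv, e2, map_smul, tl_ex0]
  ex := h3

theorem no_unip_two [Fintype F] [DecidableEq F] (hk : 4 ≤ k) (h0 : NoTv K) (hp : PtTr K)
    (h1 : PtLineTr K) (h2 : PtHypTr K) {y : SpecialLinearGroup (Fin (k + 1)) F} (hy : y ∈ K)
    {v w φ ψ : Fin (k + 1) → F} (a1 : φ ⬝ᵥ v = 0) (a2 : φ ⬝ᵥ w = 0) (a3 : ψ ⬝ᵥ v = 0)
    (e : y.1 = 1 + vecMulVec w φ + vecMulVec v ψ) : y = 1 := by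
  by_cases hv : v = 0
  · exact h0.eq_one hy (w := w) (φ := φ) (by simp [e, hv])
  by_cases hφ : φ = 0
  · exact h0.eq_one hy (w := v) (φ := ψ) (by simp [e, hφ])
  by_cases hw : ∃ c : F, w = c • v
  · obtain ⟨c, rfl⟩ := hw
    exact h0.eq_one hy (w := v) (φ := c • φ + ψ)
      (by rw [e, vecMulVec_add, vecMulVec_smul, smul_vecMulVec, add_assoc])
  exfalso
  obtain ⟨g, hg, c, hc⟩ := hp v (Pi.single 0 1) hv (by simp)
  have hc0 := ne_zero_of_mulVec hv hc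
  have hL := lift_of hy hv a1 a2 a3 e hg hc
  have hw₁ : tl (g.1 *ᵥ w) ≠ 0 := fun h => hw ⟨(g.1 *ᵥ w) 0 * c⁻¹, mulVec_SL_injective g (by
    rw [mulVec_smul, hc, smul_smul, inv_mul_cancel_right₀ hc0]
    conv_lhs => rw [eq_ex0 (g.1 *ᵥ w), h, map_zero, add_zero])⟩
  have hφ₁ : tl (φ ᵥ* (g⁻¹).1) ≠ 0 := fun h => SL_vecMul_ne_zero g⁻¹ hφ (by
    rw [← ex0_tl (dot_inv_eq_zero hc0 hc a1), h, map_zero])
  generalize tl (g.1 *ᵥ w) = w₁ at hL hw₁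
  generalize tl (φ ᵥ* (g⁻¹).1) = φ₁ at hL hφ₁
  have hM := mcL_lift h1 h2 ⟨w₁, φ₁, hw₁, hφ₁, hL⟩
  have hq1 : 1 < Fintype.card F := Fintype.one_lt_card
  have hq2 : Fintype.card F * Fintype.card F < Fintype.card F ^ (k - 1) := by
    rw [← pow_two]
    exact Nat.pow_lt_pow_right hq1 (by omega)
  have hker : ∀ u : Fin k → F, u ≠ 0 → Nat.card (kerv u) = Fintype.card F ^ (k - 1) := by
    intro u hu
    have c3 := card_kerv_mul hu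
    rw [Nat.card_eq_fintype_card (α := F), Fintype.card_fin, ← pow_sub_one_mul (by omega)] at c3
    exact Nat.eq_of_mul_eq_mul_right (by omega) c3
  have key : ∀ w₂, φ₁ ⬝ᵥ w₂ = 0 → (∀ c : F, w₂ ≠ c • w₁) →
      ∃ φ₂, Lift K w₂ φ₂ ∧ φ₂ ⬝ᵥ w₁ = 0 ∧ ∀ c : F, φ₂ ≠ c • φ₁ := by
    intro w₂ b1 b2
    rcases hM.result (by simp; omega) with hall | ⟨-, hu2⟩
    · obtain ⟨x, hx1, hx2⟩ := (exists_dot_eq_zero_dot_eq_one w₁ w₂).resolve_left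
        (by simpa using b2)
      have c2 := card_inf_kerv_mul (kerv w₁) (ψ := w₂) hx1 (by rw [hx2]; exact one_ne_zero)
      have c4 := hker w₁ hw₁
      rw [Nat.card_eq_fintype_card (α := F)] at c2
      obtain ⟨φ₂, d1, d2⟩ := exists_not_smul_of_card (kerv w₁ ⊓ kerv w₂) (by
        rw [Nat.card_eq_fintype_card (α := F)]
        by_contra hcon
        have := Nat.mul_le_mul_right (Fintype.card F) (not_lt.1 hcon)
        omega) (v := φ₁) ⟨by rw [SetLike.mem_coe, mem_kerv, dotProduct_comm]; exact hL.1,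
          by rw [SetLike.mem_coe, mem_kerv, dotProduct_comm]; exact b1⟩
      exact ⟨φ₂, hall _ _ (by rw [dotProduct_comm]; exact d1.2),
        by rw [dotProduct_comm]; exact d1.1, d2⟩
    · have hw₂ : w₂ ≠ 0 := by simpa using b2 0
      obtain ⟨φ₂, d1, d2⟩ := hM.exists_axis hw₂
      refine ⟨φ₂, d2, hM.polar_symm hu2 hw₂ hφ₁ d2 hL b1, ?_⟩
      rintro c rfl
      obtain ⟨d, hd⟩ := hu2 w₁ _ φ₁ hw₁ hφ₁ hL ((Lift.swap c).2 d2)
      have hc := left_ne_zero_of_smul d1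
      exact b2 (c⁻¹ * d) (by rw [mul_smul, ← hd, inv_smul_smul₀ hc])
  obtain ⟨b0, ψ₁, hψ₁, y₁, hy₁, e₁⟩ := hL
  have key2 : ∀ w₂, φ₁ ⬝ᵥ w₂ = 0 → (∀ c : F, w₂ ≠ c • w₁) → tl ψ₁ ⬝ᵥ w₂ = 0 := by
    intro w₂ b1 b2
    obtain ⟨φ₂, ⟨d0, ψ₂, hψ₂, y₂, hy₂, e₂⟩, d2, d3⟩ := key w₂ b1 b2
    let δ := (ψ₁ ⬝ᵥ ex0 w₂) • ex0 φ₂ - (ψ₂ ⬝ᵥ ex0 w₁) • ex0 φ₁
    have f1 : (y₁ * y₂).1 = (1 + vecMulVec (Pi.single 0 1) δ) * (y₂ * y₁).1 := by
      rw [Matrix.SpecialLinearGroup.coe_mul, Matrix.SpecialLinearGroup.coe_mul, e₁, e₂,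
        mul_two _ _ _ _ _ _ _ (ex0_dot_single _) hψ₁, mul_two _ _ _ _ _ _ _ (ex0_dot_single _) hψ₂]
      simp only [add_mul, one_mul, mul_add, mul_one, vecMulVec_mul_vecMulVec, δ, sub_dotProduct,
        smul_dotProduct, ex0_dot, tl_ex0, b0, b1, d0, d2, tl_single, dotProduct_zero, smul_zero,
        sub_zero, zero_smul, add_zero, vecMulVec_zero, vecMulVec_add]
      rw [vecMulVec_sub]
      abel
    have f2 : (y₁ * y₂ * (y₂ * y₁)⁻¹).1 = 1 + vecMulVec (Pi.single 0 1) δ := by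
      rw [Matrix.SpecialLinearGroup.coe_mul, f1, mul_assoc, coe_mul_inv, mul_one]
    have f3 := (h0 _ _ ⟨_, mul_mem (mul_mem hy₁ hy₂) (inv_mem (mul_mem hy₂ hy₁)), f2⟩).resolve_left
      (by simp)
    have f4 := congrArg tl f3
    simp only [δ, map_sub, map_smul, tl_ex0, map_zero, sub_eq_zero] at f4
    rw [← ex0_tl hψ₁, ex0_dot, tl_ex0] at f4
    by_contra hcon
    exact d3 ((tl ψ₁ ⬝ᵥ w₂)⁻¹ * (ψ₂ ⬝ᵥ ex0 w₁)) (by rw [mul_smul, ← f4, inv_smul_smul₀ hcon])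
  obtain ⟨w₂, b1, b2⟩ := exists_not_smul_of_card (kerv φ₁) (by
    rw [Nat.card_eq_fintype_card (α := F), hker _ hφ₁]
    nlinarith) (v := w₁) b0
  have b3 : tl ψ₁ ⬝ᵥ w₁ = 0 := by
    have := key2 (w₂ + w₁) (by rw [dotProduct_add, b0, add_zero]; exact b1) fun c h =>
      b2 (c - 1) (by rw [sub_smul, ← h, one_smul, add_sub_cancel_right])
    rwa [dotProduct_add, key2 w₂ b1 b2, zero_add] at this
  obtain ⟨c, hc⟩ : ∃ c : F, tl ψ₁ = c • φ₁ := by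
    refine (exists_dot_eq_zero_dot_eq_one φ₁ (tl ψ₁)).resolve_right ?_
    rintro ⟨x, hx1, hx2⟩
    by_cases hx : ∃ c : F, x = c • w₁
    · obtain ⟨c, rfl⟩ := hx
      simp [b3] at hx2
    · push Not at hx
      simp [key2 x hx1 hx] at hx2
  rcases h0 (ex0 w₁ + c • Pi.single 0 1) (ex0 φ₁) ⟨y₁, hy₁, by
    rw [e₁, ← ex0_tl hψ₁, hc, map_smul, add_vecMulVec, smul_vecMulVec, vecMulVec_smul,
      add_assoc]⟩ with h | h
  · exact ex0_ne_smul hw₁ (-c) (by rw [neg_smul, eq_neg_iff_add_eq_zero, h])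
  · exact ex0_ne_zero hφ₁ h

end Cfsg.Agent.R3L
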