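import Cfsg.Agent.Lib.R3L.Rk2

/-!
# No unipotent elements of rank three; semiregular unipotent subgroups
-/

set_option autoImplicit false

namespace Cfsg.Agent.R3L

open Matrix SLn Module
open scoped MatrixGroups

section general

variable {ι F : Type*} [Fintype ι] [DecidableEq ι] [Field F]

/-- a unipotent element of rank at most three adapted to the flag `u, w, z` -/
def U3 (y : SpecialLinearGroup ι F) (u w z φ : ι → F) : Prop :=
  ∃ ψ χ : ι → F, φ ⬝ᵥ u = 0 ∧ φ ⬝ᵥ w = 0 ∧ φ ⬝ᵥ z = 0 ∧ ψ ⬝ᵥ u = 0 ∧ ψ ⬝ᵥ w = 0 ∧ χ ⬝ᵥ u = 0 ∧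
    y.1 = 1 + vecMulVec z φ + vecMulVec w ψ + vecMulVec u χ

theorem U3.mulVec {y : SpecialLinearGroup ι F} {u w z φ : ι → F} (h : U3 y u w z φ) :
    y.1 *ᵥ u = u ∧ (∃ c : F, y.1 *ᵥ w = w + c • u) ∧
      ∀ x, ∃ a b c : F, y.1 *ᵥ x = x + a • z + b • w + c • u := by
  obtain ⟨ψ, χ, h1, h2, h3, h4, h5, h6, e⟩ := h
  refine ⟨?_, ⟨χ ⬝ᵥ w, ?_⟩, fun x => ⟨φ ⬝ᵥ x, ψ ⬝ᵥ x, χ ⬝ᵥ x, ?_⟩⟩ <;>
  simp [e, add_mulVec, vecMulVec_mulVec, h1, h2, h4, h5, h6]

theorem exists_opposite [Fintype F] [DecidableEq F] (S : Finset (ι → F)) (hS : S.Nonempty)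
    (h0 : 0 ∉ S) (f : (ι → F) → ι → F) (h1 : ∀ z ∈ S, f z ≠ 0)
    (h2 : ∀ z ∈ S, ∀ x, x ∉ S → f z ⬝ᵥ x = 0) :
    ∃ z ∈ S, ∃ z' ∈ S, f z ⬝ᵥ z' ≠ 0 ∧ f z' ⬝ᵥ z ≠ 0 := by
  by_contra hcon
  push Not at hcon
  set q := Fintype.card F with hq
  have hq1 : 1 < q := Fintype.one_lt_card
  obtain ⟨z₀, hz₀⟩ := hS
  obtain ⟨n, hn⟩ : ∃ n, Fintype.card ι = n + 1 := by
    obtain ⟨i, -⟩ := Function.ne_iff.1 (h1 z₀ hz₀)
    exact Nat.exists_eq_add_one_of_ne_zero (Fintype.card_pos_iff.2 ⟨i⟩).ne'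
  have a1 : ∀ z ∈ S, (∑ z' ∈ S, if f z ⬝ᵥ z' ≠ 0 then 1 else 0) + q ^ n = q ^ (n + 1) := by
    intro z hz
    have b1 := card_filter_dot (h1 z hz)
    rw [hn, Nat.add_sub_cancel, ← hq] at b1
    have b2 := Finset.card_filter_add_card_filter_not (s := Finset.univ)
      (fun w : ι → F => f z ⬝ᵥ w = 0)
    rw [Finset.card_univ, Fintype.card_fun, hn, ← hq, b1] at b2
    rw [← b2, add_comm, ← Finset.card_filter]
    congr 2
    ext x
    simp only [Finset.mem_filter, Finset.mem_univ, true_and]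
    exact ⟨fun h => h.2, fun h => ⟨by_contra fun hx => h (h2 z hz x hx), h⟩⟩
  have a2 : (∑ z ∈ S, ∑ z' ∈ S, if f z ⬝ᵥ z' ≠ 0 then 1 else 0) +
      (∑ z ∈ S, ∑ z' ∈ S, if f z ⬝ᵥ z' ≠ 0 then 1 else 0) ≤ ∑ _z ∈ S, ∑ _z' ∈ S, 1 := by
    conv_lhs => arg 2; rw [Finset.sum_comm]
    rw [← Finset.sum_add_distrib]
    refine Finset.sum_le_sum fun z hz => ?_
    rw [← Finset.sum_add_distrib]
    refine Finset.sum_le_sum fun z' hz' => ?_
    by_cases h : f z ⬝ᵥ z' = 0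
    · simp only [h, ne_eq, not_true_eq_false, if_false]
      split_ifs <;> simp
    · simp [h, hcon z hz z' hz' h]
  have a3 := Finset.sum_congr rfl a1
  rw [Finset.sum_add_distrib] at a3
  simp only [Finset.sum_const, smul_eq_mul, mul_one] at a2 a3
  have a4 : S.card < q ^ (n + 1) := by
    rw [← hn, hq, ← Fintype.card_fun, ← Finset.card_univ]
    exact Finset.card_lt_card ⟨Finset.subset_univ _, fun h => h0 (h (Finset.mem_univ _))⟩
  have a5 : 0 < S.card := Finset.card_pos.2 ⟨z₀, hz₀⟩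
  have a6 : 2 * q ^ n ≤ q ^ (n + 1) := by rw [pow_succ, mul_comm]; exact Nat.mul_le_mul_left _ hq1
  nlinarith

variable {K : Subgroup (SpecialLinearGroup ι F)}

omit [Fintype ι] [DecidableEq ι] in
theorem li_three {u w z : ι → F} : LinearIndependent F ![u, w, z] ↔
    ∀ a b c : F, a • u + b • w + c • z = 0 → a = 0 ∧ b = 0 ∧ c = 0 := by
  rw [Fintype.linearIndependent_iff]
  constructor
  · intro h a b c e
    have := h ![a, b, c] (by simpa [Fin.sum_univ_three] using e)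
    exact ⟨this 0, this 1, this 2⟩
  · intro h g e i
    have := h (g 0) (g 1) (g 2) (by simpa [Fin.sum_univ_three] using e)
    fin_cases i
    exacts [this.1, this.2.1, this.2.2]

theorem U3.conj {y k : SpecialLinearGroup ι F} {u w z z' φ : ι → F} (h : U3 y u w z φ)
    (hli : LinearIndependent F ![u, w, z]) {a b c d e f : F} (h1 : k.1 *ᵥ u = c • u)
    (h2 : k.1 *ᵥ w = a • u + b • w) (h3 : k.1 *ᵥ z = d • u + e • w + f • z') :
    ∃ φ', U3 (k * y * k⁻¹) u w z' φ' := by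
  obtain ⟨ψ, χ, a1, a2, a3, a4, a5, a6, ey⟩ := h
  rw [li_three] at hli
  have hc : c ≠ 0 := ne_zero_of_mulVec (fun h => by simpa [h] using hli 1 0 0) h1
  have hb : b ≠ 0 := by
    rintro rfl
    have := hli (-a) c 0 (mulVec_SL_injective k (by
      simp only [mulVec_add, mulVec_smul, h1, h2, mulVec_zero]; module))
    exact hc this.2.1
  have hf : f ≠ 0 := by
    rintro rfl
    have := hli (a * e - d * b) (-(c * e)) (b * c) (mulVec_SL_injective k (by
      simp only [mulVec_add, mulVec_smul, h1, h2, h3, mulVec_zero]; module))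
    exact mul_ne_zero hb hc this.2.2
  have b1 : ∀ ρ : ι → F, ρ ⬝ᵥ u = 0 → (ρ ᵥ* (k⁻¹).1) ⬝ᵥ u = 0 := fun ρ h => dot_inv_eq_zero hc h1 h
  have b2 : ∀ ρ : ι → F, ρ ⬝ᵥ u = 0 → ρ ⬝ᵥ w = 0 → (ρ ᵥ* (k⁻¹).1) ⬝ᵥ w = 0 := fun ρ h h' => by
    have := dot_conj k ρ w
    rw [h2, h', dotProduct_add, dotProduct_smul, dotProduct_smul, b1 ρ h, smul_zero, zero_add,
      smul_eq_mul] at this
    exact (mul_eq_zero.1 this).resolve_left hb
  have b3 : (φ ᵥ* (k⁻¹).1) ⬝ᵥ z' = 0 := by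
    have := dot_conj k φ z
    rw [h3, a3, dotProduct_add, dotProduct_add, dotProduct_smul, dotProduct_smul, dotProduct_smul,
      b1 φ a1, b2 φ a1 a2, smul_zero, smul_zero, zero_add, zero_add, smul_eq_mul] at this
    exact (mul_eq_zero.1 this).resolve_left hf
  refine ⟨f • φ ᵥ* (k⁻¹).1, e • φ ᵥ* (k⁻¹).1 + b • ψ ᵥ* (k⁻¹).1,
    d • φ ᵥ* (k⁻¹).1 + a • ψ ᵥ* (k⁻¹).1 + c • χ ᵥ* (k⁻¹).1, ?_, ?_, ?_, ?_, ?_, ?_, ?_⟩
  · rw [smul_dotProduct, b1 φ a1, smul_zero]
  · rw [smul_dotProduct, b2 φ a1 a2, smul_zero]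
  · rw [smul_dotProduct, b3, smul_zero]
  · simp only [add_dotProduct, smul_dotProduct, b1 φ a1, b1 ψ a4, smul_zero, add_zero]
  · simp only [add_dotProduct, smul_dotProduct, b2 φ a1 a2, b2 ψ a4 a5, smul_zero, add_zero]
  · simp only [add_dotProduct, smul_dotProduct, b1 φ a1, b1 ψ a4, b1 χ a6, smul_zero, add_zero]
  · rw [coe_conj_sub k y (N := vecMulVec z φ + vecMulVec w ψ + vecMulVec u χ) (by rw [ey]; abel)]
    simp only [mul_add, add_mul, conj_vecMulVec, h1, h2, h3, add_vecMulVec, smul_vecMulVec,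
      vecMulVec_add, vecMulVec_smul]
    abel

theorem U3.trace_mul {y y' : SpecialLinearGroup ι F} {u w z z' φ φ' : ι → F} (h : U3 y u w z φ)
    (h' : U3 y' u w z' φ') : ((y * y').1 - 1).trace = (φ ⬝ᵥ z') * (φ' ⬝ᵥ z) := by
  obtain ⟨ψ, χ, a1, a2, a3, a4, a5, a6, e⟩ := h
  obtain ⟨ψ', χ', b1, b2, b3, b4, b5, b6, e'⟩ := h'
  rw [Matrix.SpecialLinearGroup.coe_mul, e, e']
  simp only [mul_add, add_mul, one_mul, mul_one, vecMulVec_mul_vecMulVec, trace_sub, trace_add,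
    trace_vecMulVec, dotProduct_smul, smul_dotProduct, dotProduct_comm u, dotProduct_comm w, dotProduct_comm z,
    dotProduct_comm z', a1, a2, a3, a4, a5, a6, b1, b2, b3, b4, b5, b6, smul_eq_mul]
  ring

theorem exists_proj [Finite F] {h : SpecialLinearGroup ι F} {m : ℕ} (hm : (m : F) ≠ 0)
    (hh : h ^ m = 1) : ∃ E : Matrix ι ι F, (∀ x, E *ᵥ (h.1 *ᵥ x - x) = 0) ∧
      ∀ x, h.1 *ᵥ x = x → E *ᵥ x = x := by
  refine ⟨(m : F)⁻¹ • ∑ j ∈ Finset.range m, h.1 ^ j, fun x => ?_, fun x hx => ?_⟩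
  · have : h.1 *ᵥ x - x = (h.1 - 1) *ᵥ x := by rw [sub_mulVec, one_mulVec]
    rw [this, mulVec_mulVec, smul_mul_assoc, geom_sum_mul, ← Matrix.SpecialLinearGroup.coe_pow, hh]
    simp
  · have : ∀ j, (h.1 ^ j) *ᵥ x = x := fun j => by
      induction j with
      | zero => simp
      | succ j ih => rw [pow_succ, ← mulVec_mulVec, hx, ih]
    rw [smul_mulVec, sum_mulVec]
    simp only [this, Finset.sum_const, Finset.card_range]
    rw [← Nat.cast_smul_eq_nsmul F, inv_smul_smul₀ hm]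

theorem no_unip_three [Finite F] (h0 : NoRk2 K) (h1 : Flag3Tr K) {y : SpecialLinearGroup ι F}
    (hy : y ∈ K) {u w z φ : ι → F} (hli : LinearIndependent F ![u, w, z]) (hU : U3 y u w z φ) :
    y = 1 := by
  classical
  have := Fintype.ofFinite F
  have hz : ∀ y ∈ K, ∀ z, U3 y u w z 0 → y = 1 := by
    rintro y hy z ⟨ψ, χ, -, -, -, -, -, -, e⟩
    refine h0 y hy u w fun x => Submodule.mem_span_pair.2 ⟨χ ⬝ᵥ x, ψ ⬝ᵥ x, ?_⟩
    simp [e, add_mulVec, vecMulVec_mulVec]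
    abel
  by_contra hy1
  let S : Finset (ι → F) := Finset.univ.filter fun x => x ∉ Submodule.span F {u, w}
  have hli' : ∀ x ∈ S, LinearIndependent F ![u, w, x] := by
    intro x hx
    rw [li_three] at hli ⊢
    intro a b c e
    have hc : c = 0 := by
      by_contra hc
      refine (Finset.mem_filter.1 hx).2 (Submodule.mem_span_pair.2 ⟨-(c⁻¹ * a), -(c⁻¹ * b), ?_⟩)
      have : x = c⁻¹ • (a • u + b • w + c • x) - c⁻¹ • (a • u + b • w) := by
        rw [← smul_sub, add_sub_cancel_left, inv_smul_smul₀ hc]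
      rw [this, e]
      module
    subst hc
    have := hli a b 0 (by simpa using e)
    exact ⟨this.1, this.2.1, rfl⟩
  have hex : ∀ x : ι → F, ∃ φ', x ∈ S → φ' ≠ 0 ∧ ∃ y' ∈ K, U3 y' u w x φ' := by
    intro x
    by_cases hx : x ∈ S
    · obtain ⟨k, hk, a, b, c, d, e, f, e1, e2, e3⟩ := h1 u w z x hli (hli' x hx)
      obtain ⟨φ', h'⟩ := hU.conj hli e1 e2 e3
      have hm := mul_mem (mul_mem hk hy) (inv_mem hk)
      refine ⟨φ', fun _ => ⟨?_, _, hm, h'⟩⟩
      rintro rfl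
      exact hy1 (by simpa using hz _ hm x h')
    · exact ⟨0, fun h => absurd h hx⟩
  choose f hf using hex
  obtain ⟨z₁, hz₁, z₂, hz₂, a1, a2⟩ := exists_opposite S ⟨z, by
    simp only [S, Finset.mem_filter, Finset.mem_univ, true_and, Submodule.mem_span_pair]
    rintro ⟨a, b, e⟩
    have := li_three.1 hli a b (-1) (by rw [e]; simp)
    simp at this⟩ (by simp [S]) f (fun x hx => (hf x hx).1) (by
      intro x hx x' hx'
      simp only [S, Finset.mem_filter, Finset.mem_univ, true_and, not_not] at hx'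
      obtain ⟨a, b, rfl⟩ := Submodule.mem_span_pair.1 hx'
      obtain ⟨-, -, -, -, -, b1, b2, -⟩ := hf x hx
      simp [b1, b2])
  obtain ⟨-, y₁, hy₁, U₁⟩ := hf z₁ hz₁
  obtain ⟨-, y₂, hy₂, U₂⟩ := hf z₂ hz₂
  have htr := U₁.trace_mul U₂
  obtain ⟨c1, ⟨s₁, c2⟩, c3⟩ := U₁.mulVec
  obtain ⟨d1, ⟨s₂, d2⟩, d3⟩ := U₂.mulVec
  set g := y₁ * y₂ with hg
  have hgK : g ∈ K := mul_mem hy₁ hy₂
  let W : Submodule F (ι → F) := Submodule.span F {u, w} ⊔ Submodule.span F {z₁, z₂}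
  have hu : u ∈ W := Submodule.mem_sup_left (Submodule.subset_span (by simp))
  have hw : w ∈ W := Submodule.mem_sup_left (Submodule.subset_span (by simp))
  have hgW : g ∈ DL K W := by
    refine mul_mem ⟨hy₁, fun x => ?_⟩ ⟨hy₂, fun x => ?_⟩
    · obtain ⟨a, b, c, e⟩ := c3 x
      rw [e, add_assoc, add_assoc, add_sub_cancel_left]
      exact add_mem (W.smul_mem _ (Submodule.mem_sup_right (Submodule.subset_span (by simp))))
        (add_mem (W.smul_mem _ hw) (W.smul_mem _ hu))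
    · obtain ⟨a, b, c, e⟩ := d3 x
      rw [e, add_assoc, add_assoc, add_sub_cancel_left]
      exact add_mem (W.smul_mem _ (Submodule.mem_sup_right (Submodule.subset_span (by simp))))
        (add_mem (W.smul_mem _ hw) (W.smul_mem _ hu))
  have hgu : ∀ j : ℕ, (g ^ j).1 *ᵥ u = u := fun j => by
    induction j with
    | zero => simp
    | succ j ih =>
      rw [pow_succ, hg, Matrix.SpecialLinearGroup.coe_mul, Matrix.SpecialLinearGroup.coe_mul,
        ← mulVec_mulVec, ← mulVec_mulVec, d1, c1, ih]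
  have hgw : ∀ j : ℕ, (g ^ j).1 *ᵥ w = w + ((j : F) * (s₁ + s₂)) • u := fun j => by
    induction j with
    | zero => simp
    | succ j ih =>
      rw [pow_succ, Matrix.SpecialLinearGroup.coe_mul, ← mulVec_mulVec]
      conv_lhs => arg 2; rw [hg]
      rw [Matrix.SpecialLinearGroup.coe_mul, ← mulVec_mulVec, d2, mulVec_add, mulVec_smul, c1, c2,
        mulVec_add, mulVec_add, mulVec_smul, mulVec_smul, ih, hgu]
      push_cast
      module
  obtain ⟨p, hp⟩ := CharP.exists F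
  have : Fact p.Prime := ⟨CharP.char_is_prime F p⟩
  have hu0 : u ≠ 0 := fun h => by simpa [h] using li_three.1 hli 1 0 0
  have : Nonempty ι := by
    obtain ⟨i, -⟩ := Function.ne_iff.1 hu0
    exact ⟨i⟩
  obtain ⟨s, m, hm, hsm⟩ := Nat.exists_eq_pow_mul_and_not_dvd (orderOf_pos g).ne' p
    (Fact.out : p.Prime).ne_one
  have hm' : (m : F) ≠ 0 := by rwa [Ne, CharP.cast_eq_zero_iff F p]
  have hh : (g ^ p ^ s) ^ m = 1 := by rw [← pow_mul, ← hsm, pow_orderOf_eq_one]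
  obtain ⟨E, hE1, hE2⟩ := exists_proj hm' hh
  have e1 := hE2 u (hgu _)
  have e2 : E *ᵥ w = w := hE2 w (by
    have := hgw (p ^ s * m)
    rw [← hsm, pow_orderOf_eq_one, hsm] at this
    simp only [Matrix.SpecialLinearGroup.coe_one, one_mulVec, left_eq_add, smul_eq_zero, hu0,
      or_false, Nat.cast_mul, mul_right_comm _ (m : F), mul_eq_zero (b := (m : F)), hm'] at this
    rw [hgw, this, zero_smul, add_zero])
  have e3 := h0 _ (pow_mem hgK (p ^ s)) (z₁ - E *ᵥ z₁) (z₂ - E *ᵥ z₂) fun x => by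
    obtain ⟨a, ha, b, hb, e⟩ := Submodule.mem_sup.1 ((pow_mem hgW (p ^ s)).2 x)
    obtain ⟨a₁, a₂, rfl⟩ := Submodule.mem_span_pair.1 ha
    obtain ⟨b₁, b₂, rfl⟩ := Submodule.mem_span_pair.1 hb
    refine Submodule.mem_span_pair.2 ⟨b₁, b₂, ?_⟩
    have := hE1 x
    rw [← e] at this ⊢
    simp only [mulVec_add, mulVec_smul, e1, e2] at this
    rw [smul_sub, smul_sub]
    linear_combination (exp := 1) -this
  have := (trace_eq_zero_of_pow p e3).2
  rw [htr] at this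
  exact mul_ne_zero a1 a2 this

end general

variable {F : Type*} [Field F] {n : ℕ}

/-- unitriangular matrices supported on the first `J` rows -/
def Ysub (F : Type*) [Field F] [Finite F] (n J : ℕ) : Subgroup (SpecialLinearGroup (Fin n) F) :=
  let S : Submonoid (SpecialLinearGroup (Fin n) F) :=
    { carrier := {g | ∀ i j : Fin n, ¬(i.val < J ∧ i < j) → g.1 i j = (1 : Matrix _ _ F) i j}
      one_mem' := fun _ _ _ => rfl
      mul_mem' := fun {a b} ha hb i j hij => by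
        rw [Matrix.SpecialLinearGroup.coe_mul, mul_apply, Finset.sum_eq_single i]
        · rw [ha i i (by simp), hb i j hij]; simp
        · intro k _ hk
          by_cases h : i.val < J ∧ i < k
          · rw [hb k j (fun h' => hij ⟨h.1, h.2.trans h'.2⟩), one_apply_ne, mul_zero]
            rintro rfl
            exact hij h
          · rw [ha i k h, one_apply_ne hk.symm, zero_mul]
        · simp }
  { S with
    inv_mem' := fun {a} ha => by
      have : a⁻¹ = a ^ (orderOf a - 1) := by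
        rw [eq_comm, ← mul_eq_one_iff_eq_inv, ← pow_succ, Nat.sub_add_cancel (orderOf_pos a),
          pow_orderOf_eq_one]
      rw [this]
      exact S.pow_mem ha _ }

theorem mem_Ysub [Finite F] {J : ℕ} {g : SpecialLinearGroup (Fin n) F} : g ∈ Ysub F n J ↔
    ∀ i j : Fin n, ¬(i.val < J ∧ i < j) → g.1 i j = (1 : Matrix _ _ F) i j := Iff.rfl

theorem card_Ysub [Fintype F] (J : ℕ) : Nat.card (Ysub F n J) =
    Fintype.card F ^ ∑ i : Fin n, if i.val < J then n - 1 - i.val else 0 := by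
  classical
  let P := {p : Fin n × Fin n // p.1.val < J ∧ p.1 < p.2}
  let mk : (P → F) → Matrix (Fin n) (Fin n) F := fun f => of fun i j =>
    if h : i.val < J ∧ i < j then f ⟨(i, j), h⟩ else (1 : Matrix _ _ F) i j
  have hdet : ∀ f, (mk f).det = 1 := fun f => by
    rw [det_of_isUpperTriangular]
    · simp [mk]
    · intro i j hij
      have : j < i := hij
      simp only [mk, of_apply]
      rw [dif_neg (fun h => lt_asymm h.2 this), one_apply_ne this.ne']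
  let e : Ysub F n J ≃ (P → F) :=
    { toFun := fun g p => g.1.1 p.1.1 p.1.2
      invFun := fun f => ⟨⟨mk f, hdet f⟩, fun i j h => dif_neg h⟩
      left_inv := fun g => Subtype.ext (Subtype.ext (by
        ext i j
        simp only [mk, of_apply]
        split_ifs with h
        · rfl
        · exact (g.2 i j h).symm))
      right_inv := fun f => funext fun p => dif_pos p.2 }
  rw [Nat.card_congr e, Nat.card_eq_fintype_card, Fintype.card_fun]
  congr 1
  rw [Fintype.card_subtype, Finset.card_filter, Fintype.sum_prod_type]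
  refine Finset.sum_congr rfl fun i _ => ?_
  split_ifs with h
  · simp only [h, true_and]
    rw [← Finset.card_filter, ← Fin.card_Ioi]
    congr 1
    ext j; simp
  · simp [h]

theorem u3_of_mem_Ysub [Finite F] {m J : ℕ} (hJ : J ≤ 3) {g : SpecialLinearGroup (Fin (m + 3)) F}
    (hg : g ∈ Ysub F (m + 3) J) : ∃ φ ψ χ : Fin (m + 3) → F,
      φ ⬝ᵥ Pi.single 0 1 = 0 ∧ φ ⬝ᵥ Pi.single 1 1 = 0 ∧ φ ⬝ᵥ Pi.single 2 1 = 0 ∧
      ψ ⬝ᵥ Pi.single 0 1 = 0 ∧ ψ ⬝ᵥ Pi.single 1 1 = 0 ∧ χ ⬝ᵥ Pi.single 0 1 = 0 ∧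
      g.1 = 1 + vecMulVec (Pi.single 2 1) φ + vecMulVec (Pi.single 1 1) ψ +
        vecMulVec (Pi.single 0 1) χ ∧ (J ≤ 2 → φ = 0) ∧ (J ≤ 1 → ψ = 0) := by
  have e2 : (2 : Fin (m + 3)).val = 2 := rfl
  have e1 : (1 : Fin (m + 3)).val = 1 := rfl
  have e0 : (0 : Fin (m + 3)).val = 0 := rfl
  have key : ∀ i j : Fin (m + 3), ¬(i.val < J ∧ i.val < j.val) → (g.1 - 1) i j = 0 :=
    fun i j h => sub_eq_zero.2 (hg i j h)
  refine ⟨(g.1 - 1) 2, (g.1 - 1) 1, (g.1 - 1) 0, ?_, ?_, ?_, ?_, ?_, ?_, ?_, ?_, ?_⟩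
  any_goals
    rw [dotProduct_single, mul_one]
    exact key _ _ (by omega)
  · rw [add_assoc, add_assoc, ← sub_eq_iff_eq_add']
    ext i j
    have h02 : (0 : Fin (m + 3)) ≠ 2 := fun e => by have := congrArg Fin.val e; omega
    have h12 : (1 : Fin (m + 3)) ≠ 2 := fun e => by have := congrArg Fin.val e; omega
    simp only [Matrix.add_apply, vecMulVec_apply]
    by_cases h0 : i = 0
    · simp [h0, h02]
    by_cases h1 : i = 1
    · simp [h1, h12]
    by_cases h2 : i = 2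
    · simp [h2, h02.symm, h12.symm]
    · have h0' : i.val ≠ 0 := fun e => h0 (Fin.ext e)
      have h1' : i.val ≠ 1 := fun e => h1 (Fin.ext e)
      have h2' : i.val ≠ 2 := fun e => h2 (Fin.ext e)
      rw [key i j (by omega)]
      simp [h0, h1, h2]
  · intro h
    exact funext fun j => key _ _ (by omega)
  · intro h
    exact funext fun j => key _ _ (by omega)

end Cfsg.Agent.R3L
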